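import Cfsg.Agent.Lib.ReflectionsSpinor.POmegaTorusSign
import Cfsg.Agent.Lib.Classes.OmegaOdd

/-!
The spinor sign of an isometry acting freely on one orthogonal summand and trivially on the other.
-/

set_option autoImplicit false
set_option linter.unusedSectionVars false

namespace CfsgLib.CharDegrees.SpectrumO9

open QuadraticMap Module CfsgLib.OrthGen

universe u v w

section free

variable {U : Type v} [Finite U]

/-- A permutation all of whose points have period `M` lives on a set of size divisible by `M`. -/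
theorem dvd_card_of_free (σ : Equiv.Perm U) {M : ℕ} (hper : σ ^ M = 1)
    (hfree : ∀ (y : U) (j : ℕ), (σ ^ j) y = y → M ∣ j) : M ∣ Nat.card U := by
  classical
  let C := Subgroup.zpowers σ
  letI := Fintype.ofFinite (MulAction.orbitRel.Quotient C U)
  rcases isEmpty_or_nonempty U with h | ⟨⟨y₀⟩⟩
  · simp
  have hord : Nat.card C = M := by
    rw [Nat.card_zpowers]
    refine Nat.dvd_antisymm (orderOf_dvd_of_pow_eq_one hper) (hfree y₀ _ ?_)
    rw [pow_orderOf_eq_one]
    rfl
  have hst : ∀ y : U, MulAction.stabilizer C y = ⊥ := fun y => by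
    rw [Subgroup.eq_bot_iff_forall]
    rintro ⟨τ, hτ⟩ hy
    obtain ⟨j, rfl⟩ := mem_powers_iff_mem_zpowers.2 hτ
    obtain ⟨c, hc⟩ := hfree y j hy
    exact Subtype.ext (by subst hc; simp [pow_mul, hper])
  rw [Nat.card_congr (MulAction.selfEquivSigmaOrbitsQuotientStabilizer C U), Nat.card_sigma]
  refine Finset.dvd_sum fun ω _ => ?_
  have h := Subgroup.card_eq_card_quotient_mul_card_subgroup (MulAction.stabilizer C (ω.out))
  rw [hst, Subgroup.card_bot, mul_one, hord] at h
  rw [hst, ← h]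

end free

/-- An even function on a finite group without involutions has the parity of its value at zero. -/
theorem odd_sum_of_even_fun {R : Type v} [AddCommGroup R] [Fintype R] (hR : ∀ r : R, -r = r → r = 0) (n : R → ℕ)
    (hn : ∀ r, n (-r) = n r) (h0 : Odd (n 0)) : Odd (∑ r, n r) := by
  classical
  rw [← ZMod.natCast_eq_one_iff_odd] at h0 ⊢
  rw [Nat.cast_sum, ← Finset.add_sum_erase _ _ (Finset.mem_univ 0), h0]
  refine add_eq_left.2 (Finset.sum_involution (fun r _ => -r) (fun r _ => ?_)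
    (fun r hr _ => fun e => Finset.ne_of_mem_erase hr (hR r e)) (fun r hr => ?_) (fun r _ => neg_neg r))
  · rw [hn, CharTwo.add_self_eq_zero]
  · exact Finset.mem_erase.2 ⟨fun e => Finset.ne_of_mem_erase hr (neg_eq_zero.1 e), Finset.mem_univ _⟩

variable {F : Type u} [Field F] [Finite F] {ι : Type} [Fintype ι] [DecidableEq ι] {Q : QuadraticForm F (ι → F)}
  {U : Type v} [AddCommGroup U] [Module F U] {R : Type w} [AddCommGroup R] [Module F R]

/-- An isometry regular on an orthogonal summand with an odd number of orbits of norm one. -/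
theorem spinSign_eq_neg (h2 : (2 : F) ≠ 0) (g : Cfsg.isometryGroup F (⇑Q)) (E : (U × R) ≃ₗ[F] (ι → F))
    (Q₁ : U → F) (Q₂ : R → F) (hQ : ∀ y r, Q (E (y, r)) = Q₁ y + Q₂ r) (hQ₂ : ∀ r, Q₂ (-r) = Q₂ r)
    (hQ₂0 : Q₂ 0 = 0) (hQ₁0 : Q₁ 0 = 0) (T : U ≃ₗ[F] U) (hT : ∀ y, Q₁ (T y) = Q₁ y)
    (hg : ∀ y r, act Q g (E (y, r)) = E (T y, r)) {M : ℕ} (hM : Even M) (hM0 : 0 < M) (hper : T ^ M = 1)
    (hfree : ∀ (y : U) (j : ℕ), y ≠ 0 → (T ^ j) y = y → M ∣ j)
    (hcount : ∃ n, Odd n ∧ Nat.card {y : U // Q₁ y = 1} = M * n) : spinSign Q 1 g = -1 := by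
  classical
  haveI : Finite (ι → F) := inferInstance
  haveI : Finite (U × R) := Finite.of_equiv _ E.symm.toEquiv
  haveI : Finite U := Finite.of_injective (fun y => (y, (0 : R))) fun a b h => congrArg Prod.fst h
  haveI : Finite R := Finite.of_injective (fun r => ((0 : U), r)) fun a b h => congrArg Prod.snd h
  letI := Fintype.ofFinite R
  have hTp : ∀ (j : ℕ) (y : U) (r : R), act Q (g ^ j) (E (y, r)) = E ((T ^ j) y, r) := by
    intro j
    induction j with
    | zero => intro y r; rw [pow_zero, pow_zero, act_one]; rfl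
    | succ j ih => intro y r; rw [pow_succ', pow_succ', act_mul, ih, hg]; rfl
  have hfix1 : ∀ y : U, T y = y → y = 0 := fun y hy => by
    by_contra hy0
    have := hfree y 1 hy0 (by rw [pow_one]; exact hy)
    rw [Nat.dvd_one.1 this] at hM
    exact absurd hM (by decide)
  let S : F → Type v := fun t => {y : U // Q₁ y = t ∧ y ≠ 0}
  have hdvd : ∀ t, M ∣ Nat.card (S t) := fun t => by
    let σ : Equiv.Perm (S t) := (T.toEquiv.subtypeEquiv fun y => by
      show _ ↔ Q₁ (T y) = t ∧ T y ≠ 0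
      rw [hT, ne_eq, ne_eq, LinearEquiv.map_eq_zero_iff])
    have hσ : ∀ (j : ℕ) (y : S t), ((σ ^ j) y).1 = (T ^ j) y.1 := by
      intro j
      induction j with
      | zero => intro y; rfl
      | succ j ih => intro y; rw [pow_succ', pow_succ', Equiv.Perm.mul_apply, LinearEquiv.mul_apply, ← ih]; rfl
    refine dvd_card_of_free σ (Equiv.ext fun y => Subtype.ext ?_) fun y j h => hfree y.1 j y.2.2 ?_
    · rw [hσ, hper]; rfl
    · rw [← hσ, h]
  choose n hn using hdvd
  obtain ⟨n₁, hn₁, hc⟩ := hcount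
  have hn0 : n 1 = n₁ := Nat.eq_of_mul_eq_mul_left hM0 ((hn 1).symm.trans (hc ▸ Nat.card_congr
    (Equiv.subtypeEquivRight fun y => ⟨fun h => h.1, fun h => ⟨h, fun e => by
      rw [e, hQ₁0] at h; exact zero_ne_one h⟩⟩)))
  have hR : ∀ r : R, -r = r → r = 0 := fun r h => by
    have : (2 : F) • r = 0 := by rw [two_smul]; nth_rw 1 [← h]; exact neg_add_cancel r
    exact (smul_eq_zero.1 this).resolve_left h2
  have hodd := odd_sum_of_even_fun hR (fun r => n (1 - Q₂ r)) (fun r => by rw [hQ₂])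
    (by rw [hQ₂0, sub_zero, hn0]; exact hn₁)
  rw [ReflectionsSpinor.POmegaTorus.spinSign_eq_of_regular g hM hM0 (N := ∑ r, n (1 - Q₂ r)) ?_ ?_ ?_,
    hodd.neg_one_pow]
  · intro x
    obtain ⟨⟨y, r⟩, rfl⟩ := E.surjective x
    rw [hTp, hper]
    rfl
  · intro x j _ hx hj
    obtain ⟨⟨y, r⟩, rfl⟩ := E.surjective x
    rw [hTp] at hj
    refine hfree y j (fun e => hx ?_) (congrArg Prod.fst (E.injective hj))
    rw [hg, e, map_zero]
  · rw [Finset.mul_sum]
    simp only [← hn]
    rw [← Nat.card_sigma]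
    refine Nat.card_congr
      { toFun := fun x => ⟨(E.symm x.1).2, (E.symm x.1).1, ?_, ?_⟩
        invFun := fun p => ⟨E (p.2.1, p.1), ?_, ?_⟩
        left_inv := fun x => Subtype.ext (E.apply_symm_apply x.1)
        right_inv := fun p => ?_ }
    · have h := x.2.1
      rw [← E.apply_symm_apply x.1, hQ] at h
      exact eq_sub_of_add_eq h
    · intro e
      apply x.2.2
      rw [← E.apply_symm_apply x.1, hg, e, map_zero]
      exact congrArg E (Prod.ext e.symm rfl)
    · rw [hQ, p.2.2.1, sub_add_cancel]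
    · intro e
      rw [hg] at e
      exact p.2.2.2 (hfix1 _ (congrArg Prod.fst (E.injective e)))
    · obtain ⟨r, y, hy⟩ := p
      refine Sigma.subtype_ext ?_ ?_ <;> simp

end CfsgLib.CharDegrees.SpectrumO9
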