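import Cfsg.Agent.Lib.ClassicalForms.Ortho.Standard
import Cfsg.Agent.Lib.Classes.QuadSpace
import Cfsg.Agent.Lib.Classes.QuadDisc
import Mathlib.NumberTheory.LegendreSymbol.QuadraticChar.Basic
import Mathlib.Analysis.Fourier.FiniteAbelian.PontryaginDuality

/-!
Quadratic exponential sums over a finite field of odd characteristic: the sign of an even-dimensional form and
the number of vectors of norm one.
-/

set_option autoImplicit false
set_option linter.unusedSectionVars false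

namespace CfsgLib.CharDegrees.SpectrumO9

open QuadraticMap Module Finset

universe u v w

variable {F : Type u} [Field F] [Fintype F]

local notation "q" => Fintype.card F

theorem exists_char : ∃ ψ : AddChar F ℂ, ψ ≠ 1 := by
  obtain ⟨ψ, h⟩ := (AddChar.exists_apply_ne_zero (a := (1 : F))).2 one_ne_zero
  exact ⟨ψ, fun e => h (by rw [e]; rfl)⟩

theorem mulShift_ne_one {ψ : AddChar F ℂ} (hψ : ψ ≠ 1) {c : F} (hc : c ≠ 0) : ψ.mulShift c ≠ 1 := fun e =>
  hψ (AddChar.ext _ _ fun x => by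
    have h := DFunLike.congr_fun e (c⁻¹ * x)
    rwa [AddChar.mulShift_apply, mul_inv_cancel_left₀ hc] at h)

theorem map_sum_eq_prod' (ψ : AddChar F ℂ) {ι : Type*} (s : Finset ι) (f : ι → F) :
    ψ (∑ i ∈ s, f i) = ∏ i ∈ s, ψ (f i) := by
  classical
  induction s using Finset.induction with
  | empty => simp
  | insert a s ha ih => rw [Finset.sum_insert ha, Finset.prod_insert ha, AddChar.map_add_eq_mul, ih]

/-- The exponential sum of a quadratic form. -/
noncomputable def gsum {V : Type v} [AddCommGroup V] [Module F V] [Fintype V] (ψ : AddChar F ℂ)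
    (Q : QuadraticForm F V) : ℂ := ∑ x, ψ (Q x)

/-- An even-dimensional form of sign `ε`. -/
def HasSign {V : Type v} [AddCommGroup V] [Module F V] [Fintype V] (Q : QuadraticForm F V) (ε : ℤ) (m : ℕ) :
    Prop := ∀ ψ : AddChar F ℂ, ψ ≠ 1 → gsum ψ Q = (ε : ℂ) * (q : ℂ) ^ m

variable {V : Type v} [AddCommGroup V] [Module F V] [Fintype V] {W : Type w} [AddCommGroup W] [Module F W] [Fintype W]

theorem gsum_congr (ψ : AddChar F ℂ) {Q : QuadraticForm F V} {Q' : QuadraticForm F W} (E : V ≃ₗ[F] W)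
    (h : ∀ x, Q x = Q' (E x)) : gsum ψ Q = gsum ψ Q' :=
  (Finset.sum_congr rfl fun x _ => by rw [h x]; rfl).trans (Equiv.sum_comp E.toEquiv fun y => ψ (Q' y))

theorem gsum_prod (ψ : AddChar F ℂ) (Q : QuadraticForm F V) (Q' : QuadraticForm F W) :
    gsum ψ (Q.prod Q') = gsum ψ Q * gsum ψ Q' := by
  rw [gsum, gsum, gsum, Finset.sum_mul_sum, Fintype.sum_prod_type]
  exact Finset.sum_congr rfl fun x _ => Finset.sum_congr rfl fun y _ => by
    rw [QuadraticMap.prod_apply, AddChar.map_add_eq_mul]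

theorem HasSign.congr {Q : QuadraticForm F V} {Q' : QuadraticForm F W} {ε : ℤ} {m : ℕ} (h : HasSign Q ε m)
    (E : V ≃ₗ[F] W) (hE : ∀ x, Q x = Q' (E x)) : HasSign Q' ε m := fun ψ hψ =>
  (gsum_congr ψ E hE).symm.trans (h ψ hψ)

theorem HasSign.prod {Q : QuadraticForm F V} {Q' : QuadraticForm F W} {ε ε' : ℤ} {m m' : ℕ} (h : HasSign Q ε m)
    (h' : HasSign Q' ε' m') : HasSign (Q.prod Q') (ε * ε') (m + m') := fun ψ hψ => by
  rw [gsum_prod, h ψ hψ, h' ψ hψ, Int.cast_mul, pow_add]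
  ring

theorem HasSign.eq {Q : QuadraticForm F V} {ε ε' : ℤ} {m : ℕ} (h : HasSign Q ε m) (h' : HasSign Q ε' m) :
    ε = ε' := by
  obtain ⟨ψ, hψ⟩ := exists_char (F := F)
  have e := (h ψ hψ).symm.trans (h' ψ hψ)
  exact_mod_cast mul_right_cancel₀ (pow_ne_zero m (Nat.cast_ne_zero.2 Fintype.card_ne_zero)) e

/-- The one-variable sum. -/
noncomputable def g1 (ψ : AddChar F ℂ) (c : F) : ℂ := ∑ x : F, ψ (c * x ^ 2)

theorem g1_add_flip {ψ : AddChar F ℂ} (hψ : ψ ≠ 1) (h2 : (2 : F) ≠ 0) {c δ : F} (hc : c ≠ 0)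
    (hδ : ¬ IsSquare δ) : g1 ψ c + g1 ψ (c * δ) = 0 := by
  classical
  have hF : ringChar F ≠ 2 := fun h => h2 (by
    have h' := ringChar.Nat.cast_ringChar (R := F)
    rw [h] at h'
    exact_mod_cast h')
  have hδ0 : δ ≠ 0 := fun h => hδ (h ▸ IsSquare.zero)
  have hg : ∀ a : F, a ≠ 0 → g1 ψ a = ∑ t : F, ((quadraticChar F (t / a) + 1 : ℤ) : ℂ) * ψ t := by
    intro a ha
    rw [g1, ← Finset.sum_fiberwise_of_maps_to (t := Finset.univ) (g := fun x : F => a * x ^ 2) (by simp)]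
    refine Finset.sum_congr rfl fun t _ => ?_
    rw [Finset.sum_congr rfl (g := fun _ => ψ t) (fun x hx => by rw [(Finset.mem_filter.1 hx).2]),
      Finset.sum_const, nsmul_eq_mul]
    congr 1
    rw [← quadraticChar_card_sqrts hF (t / a), Int.cast_natCast]
    refine congrArg _ (congrArg _ ?_)
    ext x
    simp [eq_div_iff ha, mul_comm a]
  rw [hg c hc, hg _ (mul_ne_zero hc hδ0), ← Finset.sum_add_distrib]
  have h0 : ∑ t : F, ψ t = 0 := AddChar.sum_eq_zero_iff_ne_zero.2 (fun h => hψ h)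
  refine Eq.trans (Finset.sum_congr rfl fun t _ => ?_) (by rw [← Finset.mul_sum, h0, mul_zero] : ∑ t : F, (2 : ℂ) * ψ t = 0)
  rw [← add_mul]
  congr 1
  rw [show t / (c * δ) = t / c * δ⁻¹ by field_simp, map_mul, (quadraticChar_neg_one_iff_not_isSquare (a := δ⁻¹)).2
    (fun h => hδ (by simpa using h.inv))]
  push_cast
  ring

theorem sum_hyp {ψ : AddChar F ℂ} (hψ : ψ ≠ 1) {c : F} (hc : c ≠ 0) :
    ∑ p : F × F, ψ (c * (p.1 * p.2)) = q := by
  classical
  rw [Fintype.sum_prod_type, Finset.sum_eq_single (0 : F)]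
  · simp
  · intro x _ hx
    have h := AddChar.sum_eq_zero_iff_ne_zero.2 (fun h => mulShift_ne_one hψ (mul_ne_zero hc hx) h)
    simpa [mul_assoc] using h
  · simp

theorem g1_mul_neg {ψ : AddChar F ℂ} (hψ : ψ ≠ 1) (h2 : (2 : F) ≠ 0) : g1 ψ 1 * g1 ψ (-1) = q := by
  classical
  rw [← sum_hyp hψ one_ne_zero, g1, g1, Finset.sum_mul_sum, ← Fintype.sum_prod_type']
  let e : F × F ≃ F × F :=
    { toFun := fun p => (p.1 - p.2, p.1 + p.2)
      invFun := fun p => ((p.1 + p.2) / 2, (p.2 - p.1) / 2)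
      left_inv := fun p => Prod.ext (by field_simp; ring) (by field_simp; ring)
      right_inv := fun p => Prod.ext (by field_simp; ring) (by field_simp; ring) }
  rw [← Equiv.sum_comp e fun p : F × F => ψ (1 * (p.1 * p.2))]
  refine Finset.sum_congr rfl fun p _ => ?_
  rw [← AddChar.map_add_eq_mul]
  congr 1
  simp only [e, Equiv.coe_fn_mk]
  ring

theorem g1_ne_zero {ψ : AddChar F ℂ} (hψ : ψ ≠ 1) (h2 : (2 : F) ≠ 0) {c : F} (hc : c ≠ 0) : g1 ψ c ≠ 0 := by
  intro h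
  have e := g1_mul_neg (mulShift_ne_one hψ hc) h2
  have e1 : g1 (ψ.mulShift c) 1 = g1 ψ c := by simp [g1]
  rw [e1, h, zero_mul] at e
  exact Nat.cast_ne_zero.2 Fintype.card_ne_zero e.symm

theorem sum_aniso {ψ : AddChar F ℂ} (hψ : ψ ≠ 1) (h2 : (2 : F) ≠ 0) {a b : F}
    (hab : ∀ z₁ z₂ : F, z₁ ^ 2 + a * z₁ * z₂ + b * z₂ ^ 2 = 0 → z₁ = 0 ∧ z₂ = 0) :
    ∑ p : F × F, ψ (p.1 ^ 2 + a * p.1 * p.2 + b * p.2 ^ 2) = -(q : ℂ) := by
  classical
  set e := b - (a / 2) ^ 2 with he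
  have hns : ¬ IsSquare (-e) := by
    rintro ⟨s, hs⟩
    refine one_ne_zero (hab (s - a / 2) 1 ?_).2
    field_simp at hs ⊢
    rw [he] at hs
    field_simp at hs
    linear_combination -hs
  let f : F × F ≃ F × F :=
    { toFun := fun p => (p.1 - a / 2 * p.2, p.2)
      invFun := fun p => (p.1 + a / 2 * p.2, p.2)
      left_inv := fun p => Prod.ext (by simp) rfl
      right_inv := fun p => Prod.ext (by simp) rfl }
  rw [← Equiv.sum_comp f, show (-(q : ℂ)) = g1 ψ 1 * g1 ψ e from ?_]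
  · rw [g1, g1, Finset.sum_mul_sum, ← Fintype.sum_prod_type']
    refine Finset.sum_congr rfl fun p _ => ?_
    rw [← AddChar.map_add_eq_mul]
    congr 1
    simp only [f, Equiv.coe_fn_mk, he]
    field_simp
    ring
  · have h := g1_add_flip hψ h2 (neg_ne_zero.2 one_ne_zero : (-1 : F) ≠ 0) hns
    rw [show (-1 : F) * -e = e by ring] at h
    rw [eq_neg_of_add_eq_zero_right h, mul_neg, g1_mul_neg hψ h2]

theorem hasSign_plus (m : ℕ) : HasSign (ClassicalForms.qPlus m F) 1 m := fun ψ hψ => by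
  classical
  rw [gsum, Int.cast_one, one_mul]
  let e : (Fin m → F × F) ≃ (Fin m ⊕ Fin m → F) :=
    (Equiv.arrowProdEquivProdArrow (Fin m) (fun _ => F) (fun _ => F)).trans (Equiv.sumArrowEquivProdArrow _ _ F).symm
  rw [← Equiv.sum_comp e]
  calc ∑ z : Fin m → F × F, ψ (ClassicalForms.qPlus m F (e z))
      = ∑ z : Fin m → F × F, ∏ i, ψ (1 * ((z i).1 * (z i).2)) := Finset.sum_congr rfl fun z _ => by
        rw [ClassicalForms.qPlus_apply, Cfsg.quadFormPlus, map_sum_eq_prod']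
        simp [e, Equiv.sumArrowEquivProdArrow, Equiv.arrowProdEquivProdArrow]
    _ = (q : ℂ) ^ m := by
        rw [← Fintype.prod_sum (fun (_ : Fin m) (p : F × F) => ψ (1 * (p.1 * p.2))), Finset.prod_congr rfl fun _ _ => sum_hyp hψ one_ne_zero, Finset.prod_const,
          Finset.card_univ, Fintype.card_fin]

theorem hasSign_minus (h2 : (2 : F) ≠ 0) (m : ℕ) {a b : F}
    (hab : ∀ z₁ z₂ : F, z₁ ^ 2 + a * z₁ * z₂ + b * z₂ ^ 2 = 0 → z₁ = 0 ∧ z₂ = 0) :
    HasSign (ClassicalForms.qMinus m F a b) (-1) (m + 1) := fun ψ hψ => by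
  classical
  rw [gsum, ← Equiv.sum_comp (Equiv.sumArrowEquivProdArrow _ _ F).symm, Fintype.sum_prod_type]
  have h1 := hasSign_plus m ψ hψ
  rw [gsum, Int.cast_one, one_mul] at h1
  have hb : ∑ z : Fin 2 → F, ψ (z 0 ^ 2 + a * z 0 * z 1 + b * z 1 ^ 2) = -(q : ℂ) := by
    rw [← sum_aniso hψ h2 hab, ← Equiv.sum_comp (finTwoArrowEquiv F).symm]
    exact Finset.sum_congr rfl fun p _ => rfl
  calc _ = (∑ x, ψ (ClassicalForms.qPlus m F x)) * ∑ z : Fin 2 → F, ψ (z 0 ^ 2 + a * z 0 * z 1 + b * z 1 ^ 2) := by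
        rw [Finset.sum_mul_sum]
        exact Finset.sum_congr rfl fun x _ => Finset.sum_congr rfl fun z _ => by
          rw [← AddChar.map_add_eq_mul, ClassicalForms.qMinus_apply, ClassicalForms.qPlus_apply]
          rfl
    _ = _ := by rw [h1, hb]; push_cast; ring

theorem aniso_one {ζ : F} (hζ : ∀ t : F, t ^ 2 + t + ζ ≠ 0) :
    ∀ z₁ z₂ : F, z₁ ^ 2 + 1 * z₁ * z₂ + ζ * z₂ ^ 2 = 0 → z₁ = 0 ∧ z₂ = 0 := by
  intro z₁ z₂ h
  by_cases hz : z₂ = 0
  · subst hz
    simpa using h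
  · exact absurd (by field_simp; linear_combination h) (hζ (z₁ / z₂))

/-- Even-dimensional forms have a sign. -/
theorem exists_sign (h2 : (2 : F) ≠ 0) {m : ℕ} (hm : 1 ≤ m) (hV : finrank F V = 2 * m) (Q : QuadraticForm F V)
    (hQ : (polarBilin Q).Nondegenerate) : ∃ ε : ℤ, (ε = 1 ∨ ε = -1) ∧ HasSign Q ε m := by
  have : FiniteDimensional F V := Module.Finite.of_finite
  rcases Classes.exists_equiv_even hm hV Q hQ with ⟨E, hE⟩ | ⟨E, ζ, hζ, hE⟩
  · exact ⟨1, Or.inl rfl, (hasSign_plus m).congr E.symm fun z => by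
      rw [hE, E.apply_symm_apply, ClassicalForms.qPlus_apply]⟩
  · refine ⟨-1, Or.inr rfl, ?_⟩
    have h := hasSign_minus h2 (m - 1) (aniso_one hζ)
    rw [show m - 1 + 1 = m by omega] at h
    exact h.congr E.symm fun z => by rw [hE, E.apply_symm_apply, ClassicalForms.qMinus_apply]

/-- A form of minus sign in dimension eight is the standard one. -/
theorem exists_equiv_minus (h2 : (2 : F) ≠ 0) (hV : finrank F V = 8) (Q : QuadraticForm F V)
    (hQ : (polarBilin Q).Nondegenerate) (hs : HasSign Q (-1) 4) {a b : F}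
    (hab : ∀ z₁ z₂ : F, z₁ ^ 2 + a * z₁ * z₂ + b * z₂ ^ 2 = 0 → z₁ = 0 ∧ z₂ = 0)
    (hM : (polarBilin (ClassicalForms.qMinus 3 F a b)).Nondegenerate) :
    ∃ E : V ≃ₗ[F] ((Fin 3 ⊕ Fin 3) ⊕ Fin 2 → F), ∀ x, Q x = ClassicalForms.qMinus 3 F a b (E x) := by
  have : FiniteDimensional F V := Module.Finite.of_finite
  have hplus : (1 : ℤ) ≠ -1 := by decide
  rcases Classes.exists_equiv_even (m := 4) (by norm_num) hV Q hQ with ⟨E, hE⟩ | ⟨E, ζ, hζ, hE⟩
  · exact absurd (((hasSign_plus 4).congr E.symm fun z => by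
      rw [hE, E.apply_symm_apply, ClassicalForms.qPlus_apply]).eq hs) hplus
  rcases Classes.exists_equiv_even (m := 4) (by norm_num)
    (by rw [finrank_fintype_fun_eq_card]; rfl) _ hM with ⟨E', hE'⟩ | ⟨E', ζ', hζ', hE'⟩
  · exact absurd (((hasSign_plus 4).congr E'.symm fun z => by
      rw [hE', E'.apply_symm_apply, ClassicalForms.qPlus_apply]).eq (hasSign_minus h2 3 hab)) hplus
  obtain ⟨g, hg⟩ := Classes.minus_isometric 3 hζ hζ'
  exact ⟨E.trans (g.trans E'.symm), fun x => by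
    rw [hE x, hE', LinearEquiv.trans_apply, LinearEquiv.trans_apply, E'.apply_symm_apply, hg]⟩

/-- Adjusting the sign with one more variable. -/
theorem exists_flip (h2 : (2 : F) ≠ 0) {m : ℕ} (hm : 1 ≤ m) (hV : finrank F V + 1 = 2 * m)
    (Q : QuadraticForm F V) (hQ : ∀ c : F, c ≠ 0 → (polarBilin (Q.prod (c • QuadraticMap.sq))).Nondegenerate)
    {ε : ℤ} (hε : ε = 1 ∨ ε = -1) : ∃ c : F, c ≠ 0 ∧ HasSign (Q.prod (c • QuadraticMap.sq)) ε m := by
  obtain ⟨δ, hδ⟩ := FiniteField.exists_nonsquare (F := F) (fun h => h2 (by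
    have h' := ringChar.Nat.cast_ringChar (R := F)
    rw [h] at h'
    exact_mod_cast h'))
  have hδ0 : δ ≠ 0 := fun h => hδ (h ▸ IsSquare.zero)
  have : FiniteDimensional F V := Module.Finite.of_finite
  have hd : finrank F (V × F) = 2 * m := by rw [finrank_prod, Module.finrank_self, hV]
  obtain ⟨ε₁, h₁, s₁⟩ := exists_sign h2 hm hd _ (hQ 1 one_ne_zero)
  obtain ⟨ε₂, h₂, s₂⟩ := exists_sign h2 hm hd _ (hQ δ hδ0)
  obtain ⟨ψ, hψ⟩ := exists_char (F := F)
  have e1 := s₁ ψ hψ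
  have e2 := s₂ ψ hψ
  have hsq : ∀ c : F, gsum ψ (c • QuadraticMap.sq) = g1 ψ c := fun c =>
    Finset.sum_congr rfl fun x _ => by simp [pow_two]
  rw [gsum_prod, hsq] at e1 e2
  have hg := g1_add_flip hψ h2 one_ne_zero hδ
  rw [one_mul] at hg
  have : (ε₁ : ℂ) * (q : ℂ) ^ m + (ε₂ : ℂ) * (q : ℂ) ^ m = 0 := by rw [← e1, ← e2, ← mul_add, hg, mul_zero]
  rw [← add_mul] at this
  have h12 : ε₁ + ε₂ = 0 := by
    exact_mod_cast (mul_eq_zero.1 this).resolve_right (pow_ne_zero m (Nat.cast_ne_zero.2 Fintype.card_ne_zero))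
  by_cases hh : ε₁ = ε
  · exact ⟨1, one_ne_zero, hh ▸ s₁⟩
  · refine ⟨δ, hδ0, ?_⟩
    rw [show ε = ε₂ by omega]
    exact s₂

/-- The number of vectors of norm one. -/
theorem card_norm_one {Q : QuadraticForm F V} {ε : ℤ} {m : ℕ} (hV : finrank F V = 2 * m) (h : HasSign Q ε m) :
    (q : ℤ) * Nat.card {x : V // Q x = 1} = (q : ℤ) ^ (2 * m) - ε * (q : ℤ) ^ m := by
  classical
  obtain ⟨ψ, hψ⟩ := exists_char (F := F)
  have key : ((q : ℂ)) * (Nat.card {x : V // Q x = 1} : ℂ) =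
      ∑ c : F, ∑ x : V, ψ (c * (Q x - 1)) := by
    rw [Finset.sum_comm, Nat.card_eq_fintype_card, Fintype.card_subtype, mul_comm,
      ← nsmul_eq_mul, ← Finset.sum_const, Finset.sum_filter]
    refine Finset.sum_congr rfl fun x _ => ?_
    by_cases hx : Q x = 1
    · simp [hx, Finset.card_univ]
    · rw [if_neg hx]
      have h' := AddChar.sum_eq_zero_iff_ne_zero.2 fun h => mulShift_ne_one hψ (sub_ne_zero.2 hx) h
      simpa [mul_comm] using h'.symm
  have hrest : ∀ c : F, c ≠ 0 → ∑ x : V, ψ (c * (Q x - 1)) = ψ (-c) * ((ε : ℂ) * (q : ℂ) ^ m) := fun c hc => by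
    rw [← h _ (mulShift_ne_one hψ hc), gsum, Finset.mul_sum]
    exact Finset.sum_congr rfl fun x _ => by
      rw [AddChar.mulShift_apply, ← AddChar.map_add_eq_mul, show c * (Q x - 1) = -c + c * Q x by ring]
  rw [← Finset.add_sum_erase _ _ (Finset.mem_univ (0 : F)),
    Finset.sum_congr rfl fun c hc => hrest c (Finset.ne_of_mem_erase hc), ← Finset.sum_mul] at key
  have hs : ∑ c ∈ Finset.univ.erase (0 : F), ψ (-c) = -1 := by
    have h0 : ∑ c : F, ψ (-c) = 0 :=
      (Equiv.sum_comp (Equiv.neg F) fun t => ψ t).trans (AddChar.sum_eq_zero_iff_ne_zero.2 fun e => hψ e)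
    rw [← Finset.add_sum_erase _ _ (Finset.mem_univ (0 : F)), neg_zero, AddChar.map_zero_eq_one] at h0
    linear_combination h0
  rw [hs] at key
  simp only [zero_mul, AddChar.map_zero_eq_one, Finset.sum_const, Finset.card_univ, nsmul_eq_mul, mul_one,
    Module.card_eq_pow_finrank (K := F) (V := V), hV, Nat.cast_pow] at key
  apply Int.cast_injective (α := ℂ)
  push_cast
  linear_combination key

end CfsgLib.CharDegrees.SpectrumO9
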