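import Cfsg.Agent.Lib.CharDegrees.SpectrumO9.Labels
import Cfsg.Agent.Lib.CharDegrees.SpectrumO9.Sums
import Cfsg.Agent.Lib.CharDegrees.SpectrumO9.Spin

/-!
An element order of `Ω(9, q)`, `q` odd, belongs to the common table.
-/

set_option autoImplicit false
set_option linter.unusedSectionVars false

namespace CfsgLib.CharDegrees.SpectrumO9

open Polynomial Module CfsgLib.OrthGen

universe u v

/-- The table of maximal element orders `T * p ^ e`. -/
def Tab (p n e T : ℕ) : Prop :=
  (e = 0 ∧ (T = (n ^ 4 + 1) / 2 ∨ T = (n ^ 4 - 1) / 2 ∨ T = (n ^ 3 + 1) * ((n - 1) / 2) ∨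
      T = (n ^ 3 - 1) * ((n + 1) / 2))) ∨
    (e = 1 ∧ (T = (n ^ 3 + 1) / 2 ∨ T = (n ^ 3 - 1) / 2 ∨ T = (n ^ 2 + 1) / 2 * (n + 1) ∨
      T = (n ^ 2 + 1) / 2 * (n - 1) ∨ T = n ^ 2 - 1)) ∨
    (e = 2 ∧ p = 3 ∧ (T = (n ^ 2 + 1) / 2 ∨ T = (n ^ 2 - 1) / 2)) ∨
    (e = 2 ∧ p = 5 ∧ (T = (n + 1) / 2 ∨ T = (n - 1) / 2)) ∨
    (e = 2 ∧ p = 7 ∧ T = 1)

/-- The common spectrum. -/
def InSpec (p n k : ℕ) : Prop := ∃ e T, Tab p n e T ∧ k ∣ T * p ^ e

/-- The weight available next to the unipotent part. -/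
def room (p e : ℕ) : ℕ := if e = 0 then 4 else (7 - p ^ (e - 1)) / 2

theorem wt_pos (l : Lab) : 1 ≤ wt l := Nat.le_add_left 1 _

theorem wt_add_le {s : Finset Lab} {l m : Lab} (hl : l ∈ s) (hm : m ∈ s) (hne : l ≠ m) :
    wt l + wt m ≤ ∑ x ∈ s, wt x := by
  rw [← Finset.sum_pair hne]
  exact Finset.sum_le_sum_of_subset (Finset.insert_subset hl (Finset.singleton_subset_iff.2 hm))

theorem single_of_full {s : Finset Lab} {l : Lab} {K : ℕ} (hs : ∑ x ∈ s, wt x ≤ K) (hl : l ∈ s) (hK : K ≤ wt l) :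
    s = {l} ∧ wt l = K := by
  have h := Finset.single_le_sum (f := wt) (fun x _ => Nat.zero_le _) hl
  refine ⟨Finset.eq_singleton_iff_unique_mem.2 ⟨hl, fun m hm => ?_⟩, by omega⟩
  by_contra hne
  have := wt_add_le hm hl hne
  have := wt_pos m
  omega

theorem two_dvd_pow_add_one {n : ℕ} (hn : Odd n) (i : ℕ) : 2 ∣ n ^ i + 1 := (hn.pow.add_one).two_dvd

theorem two_dvd_pow_sub_one {n : ℕ} (hn : Odd n) (i : ℕ) : 2 ∣ n ^ i - 1 :=
  (Nat.Odd.sub_odd hn.pow odd_one).two_dvd

theorem dvd_half_mul {a b : ℕ} (hb : 2 ∣ b) : a ∣ a * b / 2 := by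
  rw [Nat.mul_div_assoc a hb]
  exact Dvd.intro _ rfl

theorem wt1_dvd {n : ℕ} {T : ℕ} (hp : n + 1 ∣ T) (hm : n - 1 ∣ T) {l : Lab} (hl : wt l = 1) : expo n l ∣ T := by
  unfold expo
  rw [hl, pow_one]
  split
  · exact hm
  · exact hp

theorem cube_add (n : ℕ) : n + 1 ∣ n ^ 3 + 1 := by
  simpa using Odd.nat_add_dvd_pow_add_pow n 1 (by decide : Odd 3)

theorem cube_sub (n : ℕ) : n - 1 ∣ n ^ 3 - 1 := by
  simpa using Nat.sub_dvd_pow_sub_pow n 1 3

theorem sq_sub (n : ℕ) : n ^ 2 - 1 = (n + 1) * (n - 1) := by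
  simpa using Nat.sq_sub_sq n 1

theorem quart_sub (n : ℕ) : n ^ 4 - 1 = (n ^ 2 + 1) * (n ^ 2 - 1) := by
  have := Nat.sq_sub_sq (n ^ 2) 1
  rwa [← pow_mul, one_pow] at this

/-- Either the room is filled by one label or some entry of the table covers everything. -/
theorem cover {p n e : ℕ} (hp : p.Prime) (hp2 : p ≠ 2) (hn : Odd n)
    (he : e = 0 ∨ p ^ (e - 1) ≤ 7) {s : Finset Lab} (hs : ∑ x ∈ s, wt x ≤ room p e) :
    (∃ l, s = {l} ∧ wt l = room p e ∧ Tab p n e ((n ^ room p e + 1) / 2) ∧ Tab p n e ((n ^ room p e - 1) / 2)) ∨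
      ∃ T, Tab p n e T ∧ ∀ l ∈ s, expo n l ∣ T := by
  have h1 : 2 ∣ n + 1 := by simpa using two_dvd_pow_add_one hn 1
  have h1' : 2 ∣ n - 1 := by simpa using two_dvd_pow_sub_one hn 1
  rcases Nat.lt_trichotomy e 1 with h0 | h0 | h0
  · obtain rfl : e = 0 := by omega
    have hK : room p 0 = 4 := rfl
    rw [hK] at hs ⊢
    by_cases h4 : ∃ l ∈ s, 4 ≤ wt l
    · obtain ⟨l, hl, hw⟩ := h4
      obtain ⟨e1, e2⟩ := single_of_full hs hl hw
      exact Or.inl ⟨l, e1, e2, Or.inl ⟨rfl, Or.inl rfl⟩, Or.inl ⟨rfl, Or.inr (Or.inl rfl)⟩⟩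
    push Not at h4
    refine Or.inr ?_
    by_cases h3 : ∃ l ∈ s, wt l = 3
    · obtain ⟨l, hl, hw⟩ := h3
      have hrest : ∀ m ∈ s, m ≠ l → wt m = 1 := fun m hm hne => by
        have := wt_add_le hm hl hne; have := wt_pos m; omega
      rcases hb : l.1 with _ | _
      · refine ⟨(n ^ 3 + 1) * ((n - 1) / 2), Or.inl ⟨rfl, Or.inr (Or.inr (Or.inl rfl))⟩, fun m hm => ?_⟩
        by_cases hne : m = l
        · subst hne; simp [expo, hb, hw]
        · refine wt1_dvd ((cube_add n).mul_right _) ?_ (hrest m hm hne)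
          rw [← Nat.mul_div_assoc _ h1', mul_comm]
          exact dvd_half_mul (two_dvd_pow_add_one hn 3)
      · refine ⟨(n ^ 3 - 1) * ((n + 1) / 2), Or.inl ⟨rfl, Or.inr (Or.inr (Or.inr rfl))⟩, fun m hm => ?_⟩
        by_cases hne : m = l
        · subst hne; simp [expo, hb, hw]
        · refine wt1_dvd ?_ ((cube_sub n).mul_right _) (hrest m hm hne)
          rw [← Nat.mul_div_assoc _ h1, mul_comm]
          exact dvd_half_mul (two_dvd_pow_sub_one hn 3)
    push Not at h3
    refine ⟨(n ^ 4 - 1) / 2, Or.inl ⟨rfl, Or.inr (Or.inl rfl)⟩, fun l hl => ?_⟩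
    have hw : wt l = 1 ∨ wt l = 2 := by
      have := h4 l hl; have := h3 l hl; have := wt_pos l; omega
    have hsub : n ^ 2 - 1 ∣ (n ^ 4 - 1) / 2 := by
      rw [quart_sub, mul_comm]
      exact dvd_half_mul (two_dvd_pow_add_one hn 2)
    rcases hw with hw | hw
    · exact wt1_dvd ((Dvd.intro _ (sq_sub n).symm).trans hsub) ((Dvd.intro_left _ (sq_sub n).symm).trans hsub) hw
    · unfold expo
      rw [hw]
      split
      · exact hsub
      · rw [quart_sub]
        exact dvd_half_mul (two_dvd_pow_sub_one hn 2)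
  · subst h0
    have hK : room p 1 = 3 := by simp [room]
    rw [hK] at hs ⊢
    by_cases h3 : ∃ l ∈ s, 3 ≤ wt l
    · obtain ⟨l, hl, hw⟩ := h3
      obtain ⟨e1, e2⟩ := single_of_full hs hl hw
      exact Or.inl ⟨l, e1, e2, Or.inr (Or.inl ⟨rfl, Or.inl rfl⟩), Or.inr (Or.inl ⟨rfl, Or.inr (Or.inl rfl)⟩)⟩
    push Not at h3
    refine Or.inr ?_
    by_cases h2 : ∃ l ∈ s, wt l = 2 ∧ l.1 = false
    · obtain ⟨l, hl, hw, hb⟩ := h2
      have hrest : ∀ m ∈ s, m ≠ l → wt m = 1 := fun m hm hne => by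
        have := wt_add_le hm hl hne; have := wt_pos m; omega
      have he2 : expo n l ∣ (n ^ 2 + 1) / 2 * (n + 1) ∧ expo n l ∣ (n ^ 2 + 1) / 2 * (n - 1) := by
        have hd := two_dvd_pow_add_one hn 2
        simp only [expo, hb, hw, Bool.false_eq_true, if_false]
        rw [← Nat.mul_div_right_comm hd, ← Nat.mul_div_right_comm hd]
        exact ⟨dvd_half_mul h1, dvd_half_mul h1'⟩
      by_cases hm : ∃ m ∈ s, wt m = 1 ∧ m.1 = false
      · obtain ⟨m, hm, hwm, hbm⟩ := hm
        refine ⟨_, Or.inr (Or.inl ⟨rfl, Or.inr (Or.inr (Or.inl rfl))⟩), fun x hx => ?_⟩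
        by_cases hxl : x = l
        · subst hxl; exact he2.1
        by_cases hxm : x = m
        · subst hxm; simp [expo, hbm, hwm]
        exfalso
        have hsub : ({x, l, m} : Finset Lab) ⊆ s :=
          Finset.insert_subset hx (Finset.insert_subset hl (Finset.singleton_subset_iff.2 hm))
        have := Finset.sum_le_sum_of_subset (f := wt) hsub
        rw [Finset.sum_insert (by simp [hxl, hxm]), Finset.sum_pair (fun e => by rw [e] at hw; omega)] at this
        have := wt_pos x
        omega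
      push Not at hm
      refine ⟨_, Or.inr (Or.inl ⟨rfl, Or.inr (Or.inr (Or.inr (Or.inl rfl)))⟩), fun x hx => ?_⟩
      by_cases hxl : x = l
      · subst hxl; exact he2.2
      · simp [expo, hm x hx (hrest x hx hxl), hrest x hx hxl]
    push Not at h2
    refine ⟨n ^ 2 - 1, Or.inr (Or.inl ⟨rfl, Or.inr (Or.inr (Or.inr (Or.inr rfl)))⟩), fun l hl => ?_⟩
    have hw : wt l = 1 ∨ wt l = 2 := by
      have := h3 l hl; have := wt_pos l; omega
    rcases hw with hw | hw
    · exact wt1_dvd (Dvd.intro _ (sq_sub n).symm) (Dvd.intro_left _ (sq_sub n).symm) hw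
    · simp [expo, hw, h2 l hl hw]
  · have hP := he.resolve_left (by omega)
    have hp3 : 3 ≤ p := by have := hp.two_le; omega
    obtain rfl : e = 2 := by
      by_contra hne
      have : 3 ^ 2 ≤ p ^ (e - 1) :=
        (Nat.pow_le_pow_left hp3 2).trans (Nat.pow_le_pow_right (by omega) (by omega))
      omega
    simp only [Nat.add_one_sub_one, pow_one] at hP
    have hK : room p 2 = (7 - p) / 2 := by simp [room]
    rw [hK] at hs ⊢
    interval_cases p
    · by_cases h2 : ∃ l ∈ s, 2 ≤ wt l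
      · obtain ⟨l, hl, hw⟩ := h2
        obtain ⟨e1, e2⟩ := single_of_full (K := 2) hs hl hw
        exact Or.inl ⟨l, e1, e2, Or.inr (Or.inr (Or.inl ⟨rfl, rfl, Or.inl rfl⟩)),
          Or.inr (Or.inr (Or.inl ⟨rfl, rfl, Or.inr rfl⟩))⟩
      push Not at h2
      refine Or.inr ⟨(n ^ 2 - 1) / 2, Or.inr (Or.inr (Or.inl ⟨rfl, rfl, Or.inr rfl⟩)), fun l hl => ?_⟩
      refine wt1_dvd ?_ ?_ (by have := h2 l hl; have := wt_pos l; omega)
      · rw [sq_sub]; exact dvd_half_mul h1'
      · rw [sq_sub, mul_comm]; exact dvd_half_mul h1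
    · exact absurd hp (by decide)
    · rcases s.eq_empty_or_nonempty with rfl | ⟨l, hl⟩
      · exact Or.inr ⟨(n + 1) / 2, Or.inr (Or.inr (Or.inr (Or.inl ⟨rfl, rfl, Or.inl rfl⟩))), by simp⟩
      obtain ⟨e1, e2⟩ := single_of_full (K := 1) hs hl (wt_pos l)
      exact Or.inl ⟨l, e1, e2, Or.inr (Or.inr (Or.inr (Or.inl ⟨rfl, rfl, Or.inl (by norm_num)⟩))),
        Or.inr (Or.inr (Or.inr (Or.inl ⟨rfl, rfl, Or.inr (by norm_num)⟩)))⟩
    · exact absurd hp (by decide)
    · refine Or.inr ⟨1, Or.inr (Or.inr (Or.inr (Or.inr ⟨rfl, rfl, rfl⟩))), fun l hl => ?_⟩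
      have := Finset.single_le_sum (f := wt) (fun x _ => Nat.zero_le _) hl
      have := wt_pos l
      omega

variable {F : Type u} [Field F] [Fintype F]

local notation "q" => Fintype.card F

theorem odd_q (h2 : (2 : F) ≠ 0) : Odd q :=
  Nat.odd_iff.2 (FiniteField.odd_card_of_char_ne_two fun h => h2 (by
    have h' := ringChar.Nat.cast_ringChar (R := F)
    rw [h] at h'
    exact_mod_cast h'))

variable {V : Type v} [AddCommGroup V] [Module F V] [FiniteDimensional F V]
  {B : LinearMap.BilinForm F V} {S S' : Module.End F V} {L : ℕ}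

theorem vanish_prod (S M : Module.End F V) (T : Finset F[X])
    (hT : ((T : Finset F[X]) : Set F[X]).Pairwise IsCoprime) (h : ∀ f ∈ T, ∀ x ∈ Z S f, M x = 0) :
    ∀ x ∈ Z S (∏ f ∈ T, f), M x = 0 := by
  classical
  induction T using Finset.induction with
  | empty => intro x hx; rw [Z, Finset.prod_empty, map_one] at hx; rw [show x = 0 from hx, map_zero]
  | insert a t ha ih =>
    intro x hx
    rw [Finset.prod_insert ha, Z, ← sup_ker_aeval_eq_ker_aeval_mul_of_coprime S (IsCoprime.prod_right fun f hf =>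
      hT (Finset.mem_insert_self a t) (Finset.mem_insert_of_mem hf) fun e => ha (e ▸ hf))] at hx
    obtain ⟨y, hy, z, hz, rfl⟩ := Submodule.mem_sup.1 hx
    rw [map_add, h a (Finset.mem_insert_self a t) y hy,
      ih (hT.mono (by simp)) (fun f hf => h f (Finset.mem_insert_of_mem hf)) z hz, add_zero]

theorem Semi.exists_ne (h : Semi B S S' L) (M : Module.End F V) (hM : M ≠ 0) :
    ∃ f ∈ fac S, ∃ y ∈ Z S f, M y ≠ 0 := by
  by_contra hc
  push Not at hc
  refine hM (LinearMap.ext fun x => ?_)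
  refine vanish_prod S M _ h.fac_pairwise hc x ?_
  rw [← h.minpoly_eq_prod, mem_Z, minpoly.aeval]
  rfl

/-- A common exponent of the factors is an exponent of the isometry. -/
theorem Semi.pow_eq_one (h : Semi B S S' L) {T : ℕ} (hT : ∀ f ∈ moved S, f ∣ X ^ T - 1) : S ^ T = 1 := by
  classical
  have hd : minpoly F S ∣ X ^ T - 1 := by
    rw [h.minpoly_eq_prod]
    refine Finset.prod_dvd_of_coprime h.fac_pairwise fun f hf => ?_
    by_cases h1 : f = X - C 1
    · rw [h1, dvd_iff_isRoot]; simp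
    · exact hT f (Finset.mem_erase.2 ⟨h1, hf⟩)
  have := (minpoly.dvd_iff).1 hd
  simpa [sub_eq_zero] using this

theorem lab_neg_one : lab (X - C (-1) : F[X]) = ((false, 0) : Lab) := by
  unfold lab
  rw [if_pos rfl]

/-- The moved dimension bounds the weights of the labels. -/
theorem Semi.weight_le (h : Semi B S S' L) (hdet : LinearMap.det S = 1) (hdim : movedDim S ≤ 8) :
    2 * ∑ l ∈ (moved S).image lab, wt l ≤ movedDim S ∧
      ∀ f₀ ∈ moved S, ∀ m : ℕ, 2 * wt (lab f₀) + m ≤ (∑ f ∈ (moved S).filter (lab · = lab f₀), finrank F (Z S f)) →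
        2 * ∑ l ∈ (moved S).image lab, wt l + m ≤ movedDim S := by
  classical
  have hfib : ∀ l ∈ (moved S).image lab, 2 * wt l ≤ ∑ f ∈ (moved S).filter (lab · = l), finrank F (Z S f) := by
    intro l hl
    obtain ⟨f, hf, rfl⟩ := Finset.mem_image.1 hl
    obtain ⟨-, hs, hls, hd⟩ := h.moved_data hdet hdim hf
    obtain ⟨hirr, -, -, -, hpos⟩ := h.mem_fac (Finset.mem_of_mem_erase hf)
    have hone : f ∈ (moved S).filter (lab · = lab f) := Finset.mem_filter.2 ⟨hf, rfl⟩
    have hle := Finset.single_le_sum (f := fun g => finrank F (Z S g)) (fun g _ => Nat.zero_le _) hone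
    obtain ⟨y, hy⟩ := Module.finrank_pos_iff_exists_ne_zero.1 hpos
    have hdeg := mul_natDegree_le (N := (0 : Module.End F V)) (Commute.zero_left S) hirr (j := 0) y.2
      (by simpa using hy) (K := 1) (fun x _ => by simp)
    rcases hd with ⟨-, hw, hev⟩ | ⟨-, -, hw⟩ | ⟨-, hne, hw⟩
    · obtain ⟨c, hc⟩ := hev
      omega
    · omega
    · have hsub := Finset.sum_le_sum_of_subset (f := fun g => finrank F (Z S g))
        (show ({f, SpectrumSp8.star f} : Finset F[X]) ⊆ (moved S).filter (lab · = lab f) from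
          Finset.insert_subset hone (Finset.singleton_subset_iff.2 (Finset.mem_filter.2 ⟨hs, hls⟩)))
      rw [Finset.sum_pair (Ne.symm hne), h.finrank_star hirr.ne_zero] at hsub
      omega
  have hD : movedDim S = ∑ l ∈ (moved S).image lab, ∑ f ∈ (moved S).filter (lab · = l), finrank F (Z S f) :=
    (Finset.sum_fiberwise_of_maps_to (fun f hf => Finset.mem_image_of_mem lab hf) _).symm
  refine ⟨by rw [hD, Finset.mul_sum]; exact Finset.sum_le_sum hfib, fun f₀ hf₀ m hm => ?_⟩
  have hl := Finset.mem_image_of_mem lab hf₀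
  rw [hD, Finset.mul_sum, ← Finset.add_sum_erase _ _ hl, ← Finset.add_sum_erase _ _ hl]
  have := Finset.sum_le_sum (s := ((moved S).image lab).erase (lab f₀)) fun l hl => hfib l (Finset.mem_of_mem_erase hl)
  omega

variable {ι : Type} [Fintype ι] [DecidableEq ι] {Q : QuadraticForm F (ι → F)}

/-- An isometry as an endomorphism. -/
noncomputable def endHom : Cfsg.isometryGroup F (⇑Q) →* Module.End F (ι → F) :=
  ((Matrix.toLinAlgEquiv' (R := F) (n := ι)).toAlgHom.toMonoidHom).comp (Classes.matHom Q)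

theorem endHom_apply (g : Cfsg.isometryGroup F (⇑Q)) (x : ι → F) : endHom g x = act Q g x := by
  simp [endHom, Classes.matHom, act]

theorem endHom_injective : Function.Injective (endHom (Q := Q)) := fun g g' e =>
  Subtype.ext (Units.ext ((Matrix.toLinAlgEquiv' (R := F) (n := ι)).injective e))

theorem det_endHom (g : Cfsg.isometryGroup F (⇑Q)) : LinearMap.det (endHom g) = Classes.detHom Q g :=
  LinearMap.det_toLin' _

/-- When one orbit fills the moved space its order divides half of the order of a torus. -/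
theorem half {g : Cfsg.isometryGroup F (⇑Q)} (hsp : spinSign Q 1 g = 1) {S' : Module.End F (ι → F)}
    (hQ : (QuadraticMap.polarBilin Q).Nondegenerate)
    (h : Semi (QuadraticMap.polarBilin Q) (endHom g) S' L) (hord : orderOf g = L) {k : ℕ} (hk : 1 ≤ k)
    (hD : movedDim (endHom g) = 2 * k)
    (horb : ∀ f ∈ moved (endHom g), ∀ f' ∈ moved (endHom g), ∀ j : ℕ, f ∣ X ^ j - 1 → f' ∣ X ^ j - 1) :
    L ∣ (q ^ k + 1) / 2 ∨ L ∣ (q ^ k - 1) / 2 := by
  classical
  set S := endHom g with hS
  set B := QuadraticMap.polarBilin Q with hB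
  have hord' : orderOf S = L := by rw [hS, orderOf_injective _ endHom_injective, hord]
  have hL : 0 < L := Nat.pos_of_ne_zero fun e => h.coe (by rw [e, Nat.cast_zero])
  set m := ∏ f ∈ moved S, f with hm
  set U := Z S m with hU
  set R := Z S (X - C (1 : F)) with hR
  have hcop : IsCoprime m (X - C (1 : F)) := IsCoprime.prod_left fun f hf => by
    obtain ⟨hne, hf'⟩ := Finset.mem_erase.1 hf
    obtain ⟨hirr, hmon, -⟩ := h.mem_fac hf'
    exact hirr.coprime_iff_not_dvd.2 fun hd => hne (eq_of_monic_of_associated hmon (monic_X_sub_C _)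
      (hirr.associated_of_dvd (irreducible_X_sub_C _) hd))
  have hcompl : IsCompl U R := by
    refine ⟨disjoint_ker_aeval_of_isCoprime S hcop, codisjoint_iff.2 ?_⟩
    rw [hU, hR, Z, Z, sup_ker_aeval_eq_ker_aeval_mul_of_coprime S hcop, LinearMap.ker_eq_top,
      ← minpoly.dvd_iff, h.minpoly_eq_prod, mul_comm,
      ← Finset.prod_insert (f := fun f : F[X] => f) (s := moved S) (Finset.notMem_erase _ _)]
    exact Finset.prod_dvd_prod_of_subset _ _ _ fun f hf => by
      by_cases h1 : f = X - C 1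
      · exact Finset.mem_insert.2 (Or.inl h1)
      · exact Finset.mem_insert_of_mem (Finset.mem_erase.2 ⟨h1, hf⟩)
  let E := Submodule.prodEquivOfIsCompl U R hcompl
  have hfixS : ∀ r ∈ R, S r = r := fun r hr => by
    have := mem_Z.1 hr
    simpa [sub_eq_zero] using this
  have horth : ∀ u ∈ U, ∀ r ∈ R, B u r = 0 := by
    intro u hu r hr
    obtain ⟨a, b, hab⟩ := hcop
    have e := congrArg (fun P => aeval S P u) hab
    simp only [map_add, LinearMap.add_apply, map_mul, Module.End.mul_apply, mem_Z.1 hu, map_zero, zero_add,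
      map_one, Module.End.one_apply] at e
    rw [← Module.End.mul_apply, ← map_mul, mul_comm, map_mul, Module.End.mul_apply] at e
    rw [← e]
    have hS'r : S' r = r := by
      conv_lhs => rw [← hfixS r hr]
      rw [← Module.End.mul_apply, h.inv', Module.End.one_apply]
    simp only [map_sub, aeval_X, aeval_C, map_one, LinearMap.sub_apply, Module.End.one_apply, h.adj, hS'r, sub_self]
  have hQE : ∀ (y : U) (r : R), Q (E (y, r)) = Q y.1 + Q r.1 := fun y r => by
    show Q (y.1 + r.1) = _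
    have hp : QuadraticMap.polar Q y.1 r.1 = 0 := horth y.1 y.2 r.1 r.2
    rw [QuadraticMap.polar] at hp
    linear_combination hp
  have hSU : ∀ y ∈ U, S y ∈ U := fun y hy => Z_commute (Commute.refl S) hy
  let T : U ≃ₗ[F] U := LinearEquiv.ofBijective (S.restrict hSU) (by
    have hinj : Function.Injective (S.restrict hSU) := fun a b e => Subtype.ext (by
      have e1 := congrArg S' (congrArg Subtype.val e)
      simp only [LinearMap.restrict_coe_apply, ← Module.End.mul_apply, h.inv', Module.End.one_apply] at e1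
      exact e1)
    exact ⟨hinj, LinearMap.surjective_of_injective hinj⟩)
  have hTv : ∀ (j : ℕ) (y : U), ((T ^ j) y).1 = (S ^ j) y.1 := by
    intro j
    induction j with
    | zero => intro y; rfl
    | succ j ih => intro y; rw [pow_succ', pow_succ', LinearEquiv.mul_apply, Module.End.mul_apply, ← ih]; rfl
  have hfree : ∀ (y : U) (j : ℕ), y ≠ 0 → (T ^ j) y = y → L ∣ j := by
    intro y j hy hj
    have hSy : (S ^ j) y.1 = y.1 := by rw [← hTv, hj]
    obtain ⟨f, hf, hfd⟩ : ∃ f ∈ moved S, f ∣ X ^ j - 1 := by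
      by_contra hc
      push Not at hc
      refine hy (Subtype.ext (eq_zero_of_coprime (IsCoprime.prod_left fun f hf =>
        (h.mem_fac (Finset.mem_of_mem_erase hf)).1.coprime_iff_not_dvd.2 (hc f hf)) y.2 ?_))
      simp [hSy]
    rw [← hord']
    exact orderOf_dvd_of_pow_eq_one (h.pow_eq_one fun f' hf' => horb f hf f' hf' j hfd)
  have hper : T ^ L = 1 := LinearEquiv.ext fun y => Subtype.ext (by rw [hTv, h.pow]; rfl)
  let Q₁ : QuadraticForm F U := Q.comp U.subtype
  have hQ₁ : (QuadraticMap.polarBilin Q₁).Nondegenerate := by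
    have key : ∀ x : U, (∀ y : U, B x.1 y.1 = 0) → x = 0 := fun x hx => Subtype.ext (hQ.1 x.1 fun z => by
      obtain ⟨⟨y, r⟩, rfl⟩ := E.surjective z
      show B x.1 (y.1 + r.1) = 0
      rw [map_add, hx, horth x.1 x.2 r.1 r.2, add_zero])
    have hpol : ∀ x y : U, QuadraticMap.polarBilin Q₁ x y = B x.1 y.1 := fun x y => by
      simp [Q₁, hB, QuadraticMap.polarBilin_apply_apply, QuadraticMap.polar]
    exact ⟨fun x hx => key x fun y => by rw [← hpol]; exact hx y,
      fun x hx => key x fun y => by rw [h.symm, ← hpol]; exact hx y⟩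
  have hfin : finrank F U = 2 * k := by
    rw [← hD, movedDim, hU, hm, finrank_Z_prod S (moved S) (h.fac_pairwise.mono (by simp [moved]))]
  haveI : Fintype U := Fintype.ofFinite _
  obtain ⟨ε, hε, hsign⟩ := exists_sign h.two hk hfin Q₁ hQ₁
  have hc := card_norm_one hfin hsign
  set N := Nat.card {x : U // Q₁ x = 1}
  have hTQ : ∀ y, Q₁ (T y) = Q₁ y := fun y => by
    show Q (S y.1) = Q y.1
    rw [hS, endHom_apply]
    exact Q_act g y.1
  -- the count
  obtain ⟨M, hM, hNM, hMT⟩ : ∃ M, Even M ∧ N = q ^ (k - 1) * M ∧ (M = q ^ k + 1 ∨ M = q ^ k - 1) := by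
    have hq : 0 < q := Fintype.card_pos
    have e : ∀ M : ℕ, (M : ℤ) = (q : ℤ) ^ k - ε → N = q ^ (k - 1) * M := fun M hM => by
      have hq' : (q : ℤ) ≠ 0 := by exact_mod_cast hq.ne'
      have : (N : ℤ) = (q : ℤ) ^ (k - 1) * (M : ℤ) := mul_left_cancel₀ hq' (by
        rw [hc, ← mul_assoc, ← pow_succ', show k - 1 + 1 = k by omega, hM, two_mul, pow_add]
        ring)
      exact_mod_cast this
    have hodd := odd_q h.two
    rcases hε with rfl | rfl
    · refine ⟨q ^ k - 1, Nat.Odd.sub_odd hodd.pow odd_one, e _ ?_, Or.inr rfl⟩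
      push_cast [Nat.one_le_pow k q hq]
      ring
    · exact ⟨q ^ k + 1, hodd.pow.add_one, e _ (by push_cast; ring), Or.inl rfl⟩
  have hLN : L ∣ N := by
    let σ : Equiv.Perm {x : U // Q₁ x = 1} := (T.toEquiv.subtypeEquiv fun y => by
      show _ ↔ Q₁ (T y) = 1
      rw [hTQ])
    have hσ : ∀ (j : ℕ) (y : {x : U // Q₁ x = 1}), ((σ ^ j) y).1 = (T ^ j) y.1 := by
      intro j
      induction j with
      | zero => intro y; rfl
      | succ j ih => intro y; rw [pow_succ', pow_succ', Equiv.Perm.mul_apply, LinearEquiv.mul_apply, ← ih]; rfl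
    refine dvd_card_of_free σ (Equiv.ext fun y => Subtype.ext ?_) fun y j hj => hfree y.1 j (fun e => ?_) ?_
    · rw [hσ, hper]; rfl
    · have := y.2
      rw [e, map_zero] at this
      exact zero_ne_one this
    · rw [← hσ, hj]
  have hLq : Nat.Coprime L q := by
    obtain ⟨p, hp⟩ := CharP.exists F
    haveI := Fact.mk (CharP.char_is_prime F p)
    obtain ⟨r, -, hr⟩ := FiniteField.card F p
    rw [hr]
    refine Nat.Coprime.pow_right _ (((Fact.out : p.Prime).coprime_iff_not_dvd.2 fun hd => h.coe ?_).symm)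
    exact (CharP.cast_eq_zero_iff F p L).2 hd
  have hLM : L ∣ M := (hLq.pow_right (k - 1)).dvd_of_dvd_mul_left (hNM ▸ hLN)
  by_cases hhalf : L ∣ M / 2
  · rcases hMT with rfl | rfl
    · exact Or.inl hhalf
    · exact Or.inr hhalf
  exfalso
  obtain ⟨c, hc'⟩ := hLM
  have hcodd : Odd c := by
    rcases Nat.even_or_odd c with ⟨d, rfl⟩ | ho
    · exact absurd (Dvd.intro d (by rw [hc', ← two_mul, Nat.mul_left_comm, Nat.mul_div_cancel_left _ two_pos])) hhalf
    · exact ho
  have hLev : Even L := by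
    rw [hc', Nat.even_mul] at hM
    exact hM.resolve_right (Nat.not_even_iff_odd.2 hcodd)
  have hneg := spinSign_eq_neg h.two g E (fun y : U => Q y.1) (fun r : R => Q r.1) hQE
    (fun r => by simp) (by simp) (by simp) T hTQ (fun y r => by
      show act Q g (y.1 + r.1) = S y.1 + r.1
      rw [← endHom_apply, ← hS, map_add, hfixS r.1 r.2])
    hLev hL hper hfree ⟨q ^ (k - 1) * c, ((odd_q h.two).pow).mul hcodd, by
      show N = _
      rw [hNM, hc']; ring⟩
  rw [hsp] at hneg
  exact absurd hneg (by decide)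

/-- The orders. -/
theorem upper {p : ℕ} [CharP F p] (hp2 : p ≠ 2) (hι : Fintype.card ι = 9)
    (hQ : (QuadraticMap.polarBilin Q).Nondegenerate) {g : Cfsg.isometryGroup F (⇑Q)}
    (hg : g ∈ Cfsg.Omega F (⇑Q)) {L a : ℕ} (hord : orderOf g = L * p ^ a) (hL : ¬ p ∣ L) {e : ℕ}
    (he : e = a ∨ (e = a + 1 ∧ p ^ a + 1 ≤ finrank F (Z (endHom (g ^ p ^ a)) (X - C (1 : F))))) :
    InSpec p q (L * p ^ e) := by
  classical
  have hp : p.Prime := CharP.char_is_prime F p
  haveI := Fact.mk hp
  have hpodd : Odd p := hp.odd_of_ne_two hp2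
  have h2 : (2 : F) ≠ 0 := by
    intro h
    have : p ∣ 2 := (CharP.cast_eq_zero_iff F p 2).1 (by exact_mod_cast h)
    exact hp2 ((Nat.prime_dvd_prime_iff_eq hp Nat.prime_two).1 this)
  haveI : CharP (Module.End F (ι → F)) p := charP_of_injective_ringHom
    (f := algebraMap F (Module.End F (ι → F))) (by
      haveI : Nontrivial (ι → F) := Module.nontrivial_of_finrank_pos (R := F)
        (by rw [finrank_fintype_fun_eq_card, hι]; norm_num)
      exact RingHom.injective _) p
  obtain ⟨hd1, hs1⟩ := (Classes.mem_omega_iff h2 hQ (by omega) g).1 hg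
  have hL0 : L ≠ 0 := fun h => hL (h ▸ dvd_zero p)
  set g₁ := g ^ p ^ a with hg₁
  set S := endHom g₁ with hS
  set B := QuadraticMap.polarBilin Q with hB
  have hadj : ∀ (k : Cfsg.isometryGroup F (⇑Q)) x y, B (endHom k x) y = B x (endHom k⁻¹ y) := fun k x y => by
    simp only [hB, QuadraticMap.polarBilin_apply_apply, endHom_apply]
    exact pf_act_left k x y
  have hordS : orderOf g₁ = L := by
    rw [hg₁, orderOf_pow' g (pow_ne_zero a hp.ne_zero), hord, Nat.gcd_eq_right (Dvd.intro_left _ rfl),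
      Nat.mul_div_cancel _ (pow_pos hp.pos a)]
  have hSemi : Semi B S (endHom g₁⁻¹) L :=
    { nd := hQ
      symm := fun x y => by simp [hB, QuadraticMap.polarBilin_apply_apply, QuadraticMap.polar_comm]
      adj := hadj g₁
      inv := by rw [hS, ← map_mul, mul_inv_cancel, map_one]
      inv' := by rw [hS, ← map_mul, inv_mul_cancel, map_one]
      pow := by rw [hS, ← map_pow, ← hordS, pow_orderOf_eq_one, map_one]
      two := h2
      coe := fun h => hL ((CharP.cast_eq_zero_iff F p L).1 h) }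
  have hdet : LinearMap.det S = 1 := by
    rw [hS, det_endHom, hg₁, map_pow, hd1, one_pow]
  have hz := hSemi.even_neg hdet
  have hpar := hSemi.even_add
  have hsum := hSemi.dim_sum
  rw [finrank_fintype_fun_eq_card, hι] at hpar hsum
  set d := finrank F (Z S (X - C (1 : F))) with hd
  set D := movedDim S with hDdef
  have hdodd : Odd d := by
    obtain ⟨i, hi⟩ := hz; obtain ⟨j, hj⟩ := hpar
    exact Nat.odd_iff.2 (by omega)
  have hdmod := Nat.odd_iff.1 hdodd
  have hD8 : D ≤ 8 := by omega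
  obtain ⟨hw, hwm⟩ := hSemi.weight_le hdet hD8
  set s := (moved S).image lab with hs
  -- the bound on the weights
  have hordS' : orderOf S = L := by rw [hS, orderOf_injective _ endHom_injective, hordS]
  have htwo : moved S ⊆ {X - C (-1 : F)} → L ∣ 2 := fun hsub => by
    rw [← hordS']
    refine orderOf_dvd_of_pow_eq_one (hSemi.pow_eq_one fun f hf => ?_)
    rw [Finset.mem_singleton.1 (hsub hf), dvd_iff_isRoot]
    simp
  obtain ⟨hroom, hfull, heP⟩ : 2 * ∑ l ∈ s, wt l ≤ 2 * room p e ∧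
      (∀ l, s = {l} → wt l = room p e → D ≤ 2 * room p e ∨ L ∣ 2) ∧ (e = 0 ∨ p ^ (e - 1) ≤ 7) := by
    rcases Nat.eq_zero_or_pos e with rfl | hepos
    · have : room p 0 = 4 := rfl
      rw [this]
      exact ⟨by omega, fun l _ _ => Or.inl hD8, Or.inl rfl⟩
    set P := p ^ (e - 1) with hP
    have hPodd : P % 2 = 1 := Nat.odd_iff.1 hpodd.pow
    have hroom : 2 * room p e = 7 - P := by
      have : room p e = (7 - P) / 2 := by rw [room, if_neg hepos.ne']
      omega
    rw [hroom]
    -- enough fixed vectors or a moved block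
    obtain hcase | ⟨f₀, hf₀, y, hy, hne⟩ : P + 2 ≤ d ∨
        ∃ f₀ ∈ moved S, ∃ y ∈ Z S f₀, ((endHom (g ^ L) - 1) ^ P) y ≠ 0 := by
      rcases he with rfl | ⟨rfl, hde⟩
      swap
      · left
        have hde' : p ^ a + 1 ≤ d := hde
        have hpa : (p ^ a) % 2 = 1 := Nat.odd_iff.1 hpodd.pow
        simp only [hP, Nat.add_sub_cancel]
        omega
      set U := endHom (g ^ L) with hU
      have hUS : Commute (U - 1) S := by
        have : Commute (g ^ L) g₁ := (Commute.refl g).pow_pow _ _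
        exact ((this.map endHom).sub_left (Commute.one_left _))
      have hK : (U - 1) ^ p ^ e = 0 := by
        rw [sub_pow_char_pow_of_commute (p := p) (n := e) (Commute.one_right U), one_pow, sub_eq_zero, hU, ← map_pow, ← pow_mul,
          ← hord, pow_orderOf_eq_one, map_one]
      have hne : (U - 1) ^ P ≠ 0 := by
        rw [hP, sub_pow_char_pow_of_commute (p := p) (n := (e - 1)) (Commute.one_right U), one_pow, ne_eq, sub_eq_zero, hU,
          ← map_pow, ← pow_mul, ← map_one (endHom (Q := Q))]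
        intro e1
        have h1 := orderOf_dvd_of_pow_eq_one (endHom_injective e1)
        rw [hord] at h1
        have := Nat.le_of_dvd (pow_pos hp.pos _) ((Nat.mul_dvd_mul_iff_left (Nat.pos_of_ne_zero hL0)).1 h1)
        have : p ^ (e - 1) < p ^ e := Nat.pow_lt_pow_right hp.one_lt (by omega)
        omega
      obtain ⟨f, hf, y, hy, hyne⟩ := hSemi.exists_ne _ hne
      by_cases h1 : f = X - C 1
      · left
        subst h1
        have := mul_natDegree_le hUS (irreducible_X_sub_C _) hy hyne (K := p ^ e) (fun x _ => by rw [hK]; rfl)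
        rw [natDegree_X_sub_C, one_mul, ← hd] at this
        omega
      · exact Or.inr ⟨f, Finset.mem_erase.2 ⟨h1, hf⟩, y, hy, hyne⟩
    · exact ⟨by omega, fun l _ _ => Or.inl (by omega), Or.inr (by omega)⟩
    set U := endHom (g ^ L) with hU
    have hUS : Commute U S := ((Commute.refl g).pow_pow _ _).map endHom
    have hK : (U - 1) ^ p ^ a = 0 := by
      rw [sub_pow_char_pow_of_commute (p := p) (n := a) (Commute.one_right U), one_pow, sub_eq_zero, hU, ← map_pow, ← pow_mul,
        ← hord, pow_orderOf_eq_one, map_one]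
    obtain ⟨hirr, -, -, -, -⟩ := hSemi.mem_fac (Finset.mem_of_mem_erase hf₀)
    obtain ⟨-, hs0, hls0, hdata⟩ := hSemi.moved_data hdet hD8 hf₀
    have hlow := mul_natDegree_le (hUS.sub_left (Commute.one_left _)) hirr hy hne (K := p ^ a)
      (fun x _ => by rw [hK]; rfl)
    set W := ∑ f ∈ (moved S).filter (lab · = lab f₀), finrank F (Z S f) with hW
    have hone : f₀ ∈ (moved S).filter (lab · = lab f₀) := Finset.mem_filter.2 ⟨hf₀, rfl⟩
    have hle : finrank F (Z S f₀) ≤ W :=
      Finset.single_le_sum (f := fun f => finrank F (Z S f)) (fun f _ => Nat.zero_le _) hone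
    have hWD : W ≤ D := Finset.sum_le_sum_of_subset (Finset.filter_subset _ _)
    have hwl := wt_pos (lab f₀)
    rcases hdata with ⟨hm1, hwt, hev⟩ | hother
    · have hz3 : P + 3 ≤ finrank F (Z S f₀) := by
        obtain ⟨c, hc⟩ := hev
        rw [hm1, natDegree_X_sub_C, one_mul] at hlow
        rw [hm1] at hc ⊢
        by_contra hlt
        have := hSemi.skew_top (U := U) (U' := endHom (g ^ L)⁻¹) (hadj _)
          (by rw [hU, ← map_mul, mul_inv_cancel, map_one]) (by rw [hU, ← map_mul, inv_mul_cancel, map_one])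
          hUS hK rfl ⟨c, hc⟩ (by omega) y (hm1 ▸ hy)
        rw [show finrank F (Z S (X - C (-1 : F))) - 1 = P by omega] at this
        exact hne this
      have h9 := hwm f₀ hf₀ (P + 1) (by omega)
      refine ⟨by omega, fun l hl hlw => ?_, Or.inr (by omega)⟩
      right
      refine htwo fun f hf => ?_
      by_contra hne'
      have hfl : f ∈ (moved S).filter (lab · = lab f₀) := Finset.mem_filter.2 ⟨hf, by
        have e1 : lab f ∈ s := Finset.mem_image_of_mem lab hf
        have e2 : lab f₀ ∈ s := Finset.mem_image_of_mem lab hf₀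
        rw [hl, Finset.mem_singleton] at e1 e2
        rw [e1, e2]⟩
      have h2' := Finset.sum_le_sum_of_subset (f := fun f => finrank F (Z S f))
        (show ({f₀, f} : Finset F[X]) ⊆ (moved S).filter (lab · = lab f₀) from
          Finset.insert_subset hone (Finset.singleton_subset_iff.2 hfl))
      rw [Finset.sum_pair (fun e => hne' (Finset.mem_singleton.2 (e.symm.trans hm1)))] at h2'
      have := (hSemi.mem_fac (Finset.mem_of_mem_erase hf)).2.2.2.2
      have e3 : lab f₀ = l := by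
        have := Finset.mem_image_of_mem lab hf₀
        rwa [← hs, hl, Finset.mem_singleton] at this
      rw [e3] at hwt
      omega
    · have hW2 : 2 * wt (lab f₀) * (P + 1) ≤ W := by
        rcases hother with ⟨-, -, hdeg⟩ | ⟨-, hne', hdeg⟩
        · rw [hdeg] at hlow; omega
        · rw [hdeg] at hlow
          have h2' := Finset.sum_le_sum_of_subset (f := fun f => finrank F (Z S f))
            (show ({f₀, SpectrumSp8.star f₀} : Finset F[X]) ⊆ (moved S).filter (lab · = lab f₀) from
              Finset.insert_subset hone (Finset.singleton_subset_iff.2 (Finset.mem_filter.2 ⟨hs0, hls0⟩)))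
          rw [Finset.sum_pair (Ne.symm hne'), hSemi.finrank_star hirr.ne_zero, ← hW] at h2'
          rw [mul_assoc]
          omega
      have h2P : 2 * P ≤ 2 * wt (lab f₀) * P := Nat.mul_le_mul_right P (by omega)
      have hexp : 2 * wt (lab f₀) * (P + 1) = 2 * wt (lab f₀) * P + 2 * wt (lab f₀) := by ring
      have h9 := hwm f₀ hf₀ (2 * wt (lab f₀) * P) (by omega)
      refine ⟨by omega, fun l hl hlw => ?_, Or.inr (by omega)⟩
      exfalso
      have e3 : lab f₀ = l := by
        have := Finset.mem_image_of_mem lab hf₀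
        rwa [← hs, hl, Finset.mem_singleton] at this
      rw [e3] at hW2
      have hP' : P ≤ 7 := by omega
      interval_cases P <;> omega
  rcases cover hp hp2 (odd_q h2) heP (show ∑ l ∈ s, wt l ≤ room p e by omega) with ⟨l, hl, hlw, ht1, ht2⟩ | ⟨T, hT, hTe⟩
  · have hkpos : 1 ≤ room p e := hlw ▸ wt_pos l
    suffices h : L ∣ (q ^ room p e + 1) / 2 ∨ L ∣ (q ^ room p e - 1) / 2 by
      rcases h with h | h
      · exact ⟨e, _, ht1, Nat.mul_dvd_mul_right h _⟩
      · exact ⟨e, _, ht2, Nat.mul_dvd_mul_right h _⟩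
    have hL2 : L ∣ 2 → L ∣ (q ^ room p e + 1) / 2 ∨ L ∣ (q ^ room p e - 1) / 2 := fun h => by
      have hodd := Nat.odd_iff.1 ((odd_q h2).pow (n := room p e))
      rcases Nat.even_or_odd ((q ^ room p e + 1) / 2) with hev | hod
      · exact Or.inl (h.trans hev.two_dvd)
      · exact Or.inr (h.trans (Nat.dvd_of_mod_eq_zero (by have := Nat.odd_iff.1 hod; omega)))
    rcases hfull l hl hlw with hDle | h
    swap
    · exact hL2 h
    rw [hl, Finset.sum_singleton, hlw] at hw
    have hDeq : D = 2 * room p e := by omega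
    have hall : ∀ f ∈ moved S, lab f = l := fun f hf => by
      have := Finset.mem_image_of_mem lab hf
      rwa [← hs, hl, Finset.mem_singleton] at this
    obtain ⟨f₀, hf₀, -⟩ := Finset.mem_image.1 (show l ∈ s by rw [hl]; exact Finset.mem_singleton_self l)
    by_cases hm1 : X - C (-1 : F) ∈ moved S
    · refine hL2 (htwo fun f hf => Finset.mem_singleton.2 ?_)
      by_contra hne
      obtain ⟨-, -, -, hdat⟩ := hSemi.moved_data hdet hD8 hm1
      rcases hdat with ⟨-, hwt, hev⟩ | ⟨h', -⟩ | ⟨h', -⟩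
      swap
      · exact h' rfl
      swap
      · exact h' rfl
      have h2' := Finset.sum_le_sum_of_subset (f := fun f => finrank F (Z S f))
        (show ({X - C (-1 : F), f} : Finset F[X]) ⊆ moved S from
          Finset.insert_subset hm1 (Finset.singleton_subset_iff.2 hf))
      rw [Finset.sum_pair (Ne.symm hne)] at h2'
      have hp1 := (hSemi.mem_fac (Finset.mem_of_mem_erase hf)).2.2.2.2
      have hp2 := (hSemi.mem_fac (Finset.mem_of_mem_erase hm1)).2.2.2.2
      rw [hall _ hm1, hlw] at hwt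
      obtain ⟨c, hc⟩ := hev
      change _ ≤ D at h2'
      omega
    refine half (L := L) ?_ hQ hSemi hordS hkpos hDeq ?_
    · rw [hg₁, map_pow, hs1, one_pow]
    intro f hf f' hf' j hj
    obtain ⟨hirr, hmon, -, h0, hpos⟩ := hSemi.mem_fac (Finset.mem_of_mem_erase hf)
    obtain ⟨-, hstar, -, hdat⟩ := hSemi.moved_data hdet hD8 hf
    obtain ⟨y, hy⟩ := Module.finrank_pos_iff_exists_ne_zero.1 hpos
    have hlow := mul_natDegree_le (N := (0 : Module.End F (ι → F))) (Commute.zero_left S) hirr (j := 0) y.2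
      (by simpa using hy) (K := 1) (fun x _ => by simp)
    have hstj : SpectrumSp8.star f ∣ X ^ j - 1 :=
      (SpectrumSp8.associated_star hirr.ne_zero).dvd.trans (dvd_pow_reverse hj)
    by_contra hnd
    have hne1 : f' ≠ f := fun e => hnd (e ▸ hj)
    have hne2 : f' ≠ SpectrumSp8.star f := fun e => hnd (e ▸ hstj)
    have hp' := (hSemi.mem_fac (Finset.mem_of_mem_erase hf')).2.2.2.2
    rw [hall f hf, hlw] at hdat
    rcases hdat with ⟨e, -⟩ | ⟨-, hse, hdeg⟩ | ⟨-, hse, hdeg⟩
    · exact hm1 (e ▸ hf)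
    · have h2' := Finset.sum_le_sum_of_subset (f := fun f => finrank F (Z S f))
        (show ({f', f} : Finset F[X]) ⊆ moved S from Finset.insert_subset hf' (Finset.singleton_subset_iff.2 hf))
      rw [Finset.sum_pair hne1] at h2'
      change _ ≤ D at h2'
      omega
    · have h2' := Finset.sum_le_sum_of_subset (f := fun f => finrank F (Z S f))
        (show ({f', f, SpectrumSp8.star f} : Finset F[X]) ⊆ moved S from
          Finset.insert_subset hf' (Finset.insert_subset hf (Finset.singleton_subset_iff.2 hstar)))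
      rw [Finset.sum_insert (by simp [hne1, hne2]), Finset.sum_pair (Ne.symm hse),
        hSemi.finrank_star hirr.ne_zero] at h2'
      change _ ≤ D at h2'
      omega
  · refine ⟨e, T, hT, Nat.mul_dvd_mul_right ?_ _⟩
    rw [← hordS']
    refine orderOf_dvd_of_pow_eq_one (hSemi.pow_eq_one fun f hf => ?_)
    obtain ⟨hdvd, -⟩ := hSemi.moved_data hdet hD8 hf
    obtain ⟨c, hc⟩ := hTe (lab f) (Finset.mem_image_of_mem lab hf)
    rw [hc, pow_mul]
    exact hdvd.trans (sub_one_dvd_pow_sub_one _ _)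

end CfsgLib.CharDegrees.SpectrumO9
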