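import Cfsg.Agent.Lib.SpectrumSp8.Recip
import Cfsg.Agent.Lib.Omega.SkewNilpotent
import Mathlib.FieldTheory.Separable

/-!
Semisimple isometries: the kernels of the irreducible factors, their duality and their dimensions.
-/

set_option autoImplicit false
set_option linter.unusedSectionVars false

namespace CfsgLib.CharDegrees.SpectrumO9

open Polynomial Module

universe u v

variable {F : Type u} [Field F] {V : Type v} [AddCommGroup V] [Module F V] [FiniteDimensional F V]

theorem aeval_reflect' {A : Type*} [Ring A] [Algebra F A] {M N : A} (hMN : M * N = 1) (hNM : N * M = 1) (d : ℕ)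
    (p : F[X]) (hp : p.natDegree ≤ d) : aeval M (reflect d p) = M ^ d * aeval N p := by
  refine Polynomial.induction_with_natDegree_le (fun p => aeval M (reflect d p) = M ^ d * aeval N p) d (by simp)
    (fun n r hr hn => ?_) (fun f g hfg hgd hf hg => ?_) p hp
  · beta_reduce
    have hc : Commute M N := hMN.trans hNM.symm
    rw [reflect_C_mul_X_pow, revAt_le hn, map_mul, map_mul, aeval_C, aeval_C, map_pow, map_pow, aeval_X, aeval_X,
      ← Algebra.smul_def, ← Algebra.smul_def, mul_smul_comm]
    congr 1
    conv_rhs => rw [← Nat.sub_add_cancel hn, pow_add, mul_assoc, ← hc.mul_pow, hMN, one_pow, mul_one]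
  · beta_reduce at hf hg ⊢
    rw [reflect_add, map_add, map_add, mul_add, hf, hg]

theorem adj_aeval {B : LinearMap.BilinForm F V} {S S' : Module.End F V} (h : ∀ x y, B (S x) y = B x (S' y))
    (p : F[X]) : ∀ x y, B (aeval S p x) y = B x (aeval S' p y) := by
  induction p using Polynomial.induction_on' with
  | add p r hp hr => intro x y; simp [hp, hr]
  | monomial n c =>
    have hn : ∀ (n : ℕ) (x y : V), B ((S ^ n) x) y = B x ((S' ^ n) y) := by
      intro n
      induction n with
      | zero => intro x y; rfl
      | succ n ih =>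
        intro x y
        rw [pow_succ, Module.End.mul_apply, ih, h, pow_succ', Module.End.mul_apply]
    intro x y
    simp [aeval_monomial, ← Algebra.smul_def, hn]

/-- The kernel of the polynomial `p` at `S`. -/
noncomputable abbrev Z (S : Module.End F V) (p : F[X]) : Submodule F V := LinearMap.ker (aeval S p)

theorem mem_Z {S : Module.End F V} {p : F[X]} {x : V} : x ∈ Z S p ↔ aeval S p x = 0 := LinearMap.mem_ker

theorem Z_commute {S N : Module.End F V} (hc : Commute N S) {p : F[X]} {x : V} (hx : x ∈ Z S p) :
    N x ∈ Z S p := by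
  have h : Commute N (aeval S p) := Algebra.commute_of_mem_adjoin_singleton_of_commute
    (aeval_mem_adjoin_singleton F S) hc
  rw [mem_Z, ← Module.End.mul_apply, ← h.eq, Module.End.mul_apply, mem_Z.1 hx, map_zero]

theorem eq_zero_of_coprime {S : Module.End F V} {p r : F[X]} (h : IsCoprime p r) {x : V} (hp : aeval S p x = 0)
    (hr : aeval S r x = 0) : x = 0 :=
  (Submodule.mem_bot F).1 ((disjoint_ker_aeval_of_isCoprime S h).le_bot ⟨hp, hr⟩)

theorem finrank_Z_prod (S : Module.End F V) (T : Finset F[X])
    (hT : ((T : Finset F[X]) : Set F[X]).Pairwise IsCoprime) :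
    finrank F (Z S (∏ f ∈ T, f)) = ∑ f ∈ T, finrank F (Z S f) := by
  classical
  induction T using Finset.induction with
  | empty =>
    rw [Finset.prod_empty, Finset.sum_empty, Z, map_one]
    exact Submodule.finrank_eq_zero.2 (Submodule.eq_bot_iff _ |>.2 fun x hx => hx)
  | insert a t ha ih =>
    rw [Finset.prod_insert ha, Finset.sum_insert ha]
    have hc : IsCoprime a (∏ f ∈ t, f) := IsCoprime.prod_right fun f hf =>
      hT (Finset.mem_insert_self a t) (Finset.mem_insert_of_mem hf) fun e => ha (e ▸ hf)
    rw [← ih (hT.mono (by simp)), Z, ← sup_ker_aeval_eq_ker_aeval_mul_of_coprime S hc]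
    have h := Submodule.finrank_sup_add_finrank_inf_eq (Z S a) (Z S (∏ f ∈ t, f))
    rw [(disjoint_ker_aeval_of_isCoprime S hc).eq_bot, finrank_bot, add_zero] at h
    exact h

/-- A non-zero power of a commuting nilpotent map on the kernel of an irreducible polynomial of degree `d` takes
up `d` dimensions for each of its steps. -/
theorem mul_natDegree_le {S N : Module.End F V} (hc : Commute N S) {f : F[X]} (hf : Irreducible f) :
    ∀ {j : ℕ}, ∀ {y : V}, y ∈ Z S f → (N ^ j) y ≠ 0 → ∀ {K : ℕ}, (∀ x ∈ Z S f, (N ^ K) x = 0) →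
      f.natDegree * (j + 1) ≤ finrank F (Z S f) := by
  classical
  intro j y hy hne K hK
  -- `e` is the exact index of `N` on the kernel
  have hex : ∃ e, ∀ x ∈ Z S f, (N ^ e) x = 0 := ⟨K, hK⟩
  set e := Nat.find hex with he
  have hje : j < e := by
    by_contra h
    obtain ⟨c, hc'⟩ := Nat.exists_eq_add_of_le (not_lt.1 h)
    apply hne
    rw [hc', add_comm, pow_add, Module.End.mul_apply, Nat.find_spec hex y hy, map_zero]
  have hpow : ∀ i, Commute (N ^ i) S := fun i => hc.pow_left i
  let W : ℕ → Submodule F V := fun i => Z S f ⊓ LinearMap.ker (N ^ i)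
  have hstep : ∀ i < e, f.natDegree + finrank F (W i) ≤ finrank F (W (i + 1)) := by
    intro i hi
    obtain ⟨x, hx, hxne⟩ : ∃ x ∈ Z S f, (N ^ (e - 1)) x ≠ 0 := by
      have h := Nat.find_min hex (show e - 1 < e by omega)
      push Not at h
      exact h
    set z := (N ^ (e - (i + 1))) x with hz
    have hzW : z ∈ W (i + 1) := ⟨Z_commute (hpow _) hx, by
      show (N ^ (i + 1)) z = 0
      rw [hz, ← Module.End.mul_apply, ← pow_add, show i + 1 + (e - (i + 1)) = e by omega]
      exact Nat.find_spec hex x hx⟩
    have hiz : (N ^ i) z ≠ 0 := by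
      rw [hz, ← Module.End.mul_apply, ← pow_add, show i + (e - (i + 1)) = e - 1 by omega]
      exact hxne
    let φ : Polynomial.degreeLT F f.natDegree →ₗ[F] V :=
      (LinearMap.applyₗ ((N ^ i) z)).comp ((aeval S).toLinearMap.comp (Submodule.subtype _))
    have hφ : Function.Injective φ := (injective_iff_map_eq_zero φ).2 fun P hP => by
      by_contra hne
      have hne' : (P : F[X]) ≠ 0 := fun h => hne (Subtype.ext h)
      have hdeg : (P : F[X]).natDegree < f.natDegree :=
        (natDegree_lt_iff_degree_lt hne').2 (Polynomial.mem_degreeLT.1 P.2)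
      exact hiz (eq_zero_of_coprime (hf.coprime_iff_not_dvd.2 fun h => by
        have h' : f.natDegree ≤ (P : F[X]).natDegree := natDegree_le_of_dvd h hne'; omega) (mem_Z.1 (Z_commute (hpow i) hzW.1)) hP)
    let g : W (i + 1) →ₗ[F] V := (N ^ i).comp (Submodule.subtype _)
    have hrange : LinearMap.range φ ≤ LinearMap.range g := by
      rintro _ ⟨P, rfl⟩
      refine ⟨⟨aeval S (P : F[X]) z, ?_, ?_⟩, ?_⟩
      · exact Z_commute (S := S) ((Algebra.commute_of_mem_adjoin_self (aeval_mem_adjoin_singleton F S)).symm) hzW.1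
      · show (N ^ (i + 1)) (aeval S (P : F[X]) z) = 0
        rw [← Module.End.mul_apply, (Algebra.commute_of_mem_adjoin_singleton_of_commute
          (aeval_mem_adjoin_singleton F S) (hpow (i + 1))).eq, Module.End.mul_apply,
          show (N ^ (i + 1)) z = 0 from hzW.2, map_zero]
      · show (N ^ i) (aeval S (P : F[X]) z) = aeval S (P : F[X]) ((N ^ i) z)
        rw [← Module.End.mul_apply, (Algebra.commute_of_mem_adjoin_singleton_of_commute
          (aeval_mem_adjoin_singleton F S) (hpow i)).eq, Module.End.mul_apply]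
    have h1 : f.natDegree ≤ finrank F (LinearMap.range g) := by
      have := (Polynomial.degreeLTEquiv F f.natDegree).finrank_eq
      rw [finrank_fintype_fun_eq_card, Fintype.card_fin] at this
      rw [← this, ← LinearMap.finrank_range_of_inj hφ]
      exact Submodule.finrank_mono hrange
    have h2 : finrank F (W i) ≤ finrank F (LinearMap.ker g) := by
      refine LinearMap.finrank_le_finrank_of_injective (f := (⟨⟨fun w => ⟨⟨w.1, w.2.1, ?_⟩, ?_⟩,
        fun a b => rfl⟩, fun c a => rfl⟩ : W i →ₗ[F] LinearMap.ker g))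
        (fun a b h => Subtype.ext (congrArg (fun w : LinearMap.ker g => (w.1 : V)) h))
      · show (N ^ (i + 1)) w.1 = 0
        rw [pow_succ', Module.End.mul_apply, show (N ^ i) w.1 = 0 from w.2.2, map_zero]
      · exact w.2.2
    have h3 := LinearMap.finrank_range_add_finrank_ker g
    omega
  have hall : ∀ i ≤ e, f.natDegree * i ≤ finrank F (W i) := by
    intro i hi
    induction i with
    | zero => simp
    | succ i ih =>
      have := hstep i (by omega)
      have := ih (by omega)
      rw [mul_add, mul_one]
      omega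
  calc f.natDegree * (j + 1) ≤ f.natDegree * e := Nat.mul_le_mul_left _ hje
    _ ≤ finrank F (W e) := hall e le_rfl
    _ ≤ finrank F (Z S f) := Submodule.finrank_mono inf_le_left

/-- A semisimple isometry with its inverse. -/
structure Semi (B : LinearMap.BilinForm F V) (S S' : Module.End F V) (L : ℕ) : Prop where
  nd : B.Nondegenerate
  symm : ∀ x y, B x y = B y x
  adj : ∀ x y, B (S x) y = B x (S' y)
  inv : S * S' = 1
  inv' : S' * S = 1
  pow : S ^ L = 1
  two : (2 : F) ≠ 0
  coe : (L : F) ≠ 0

variable {B : LinearMap.BilinForm F V} {S S' : Module.End F V} {L : ℕ}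

theorem Semi.inj (h : Semi B S S' L) (x : V) (hx : S x = 0) : x = 0 := by
  rw [show x = (S' * S) x by rw [h.inv']; rfl, Module.End.mul_apply, hx, map_zero]

theorem Semi.inj' (h : Semi B S S' L) (x : V) (hx : S' x = 0) : x = 0 := by
  rw [show x = (S * S') x by rw [h.inv]; rfl, Module.End.mul_apply, hx, map_zero]

theorem Semi.minpoly_dvd (h : Semi B S S' L) : minpoly F S ∣ X ^ L - 1 :=
  minpoly.dvd F S (by simp [h.pow])

theorem Semi.squarefree (h : Semi B S S' L) : Squarefree (minpoly F S) :=
  Squarefree.squarefree_of_dvd h.minpoly_dvd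
    ((Polynomial.separable_X_pow_sub_C (1 : F) h.coe one_ne_zero).squarefree.squarefree_of_dvd (by rw [map_one]))

theorem finrank_ker_adjoint (hnd : B.Nondegenerate) (hsym : ∀ x y, B x y = B y x) {T T' : Module.End F V}
    (h : ∀ x y, B (T x) y = B x (T' y)) : finrank F (LinearMap.ker T) = finrank F (LinearMap.ker T') := by
  have key : ∀ {T T' : Module.End F V}, (∀ x y, B (T x) y = B x (T' y)) →
      finrank F (LinearMap.ker T') ≤ finrank F (LinearMap.ker T) := by
    intro T T' h
    have hle : LinearMap.ker T' ≤ B.orthogonal (LinearMap.range T) := by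
      intro y hy
      rw [LinearMap.BilinForm.mem_orthogonal_iff]
      rintro _ ⟨x, rfl⟩
      show B (T x) y = 0
      rw [h, LinearMap.mem_ker.1 hy, map_zero]
    have h1 := Submodule.finrank_mono hle
    rw [LinearMap.BilinForm.finrank_orthogonal hnd] at h1
    have h2 := LinearMap.finrank_range_add_finrank_ker T
    omega
  exact le_antisymm (key (T := T') (T' := T) fun x y => by rw [hsym, ← h, hsym]) (key h)

theorem Semi.finrank_reverse (h : Semi B S S' L) (p : F[X]) :
    finrank F (Z S p.reverse) = finrank F (Z S p) := by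
  rw [finrank_ker_adjoint h.nd h.symm (T := aeval S p) (adj_aeval h.adj p)]
  refine congrArg (fun W : Submodule F V => finrank F W) ?_
  ext x
  rw [Z, LinearMap.mem_ker, LinearMap.mem_ker, reverse, aeval_reflect' h.inv h.inv' _ _ le_rfl, Module.End.mul_apply]
  refine ⟨fun e => ?_, fun e => by rw [e, map_zero]⟩
  have : ∀ (n : ℕ) (y : V), (S ^ n) y = 0 → y = 0 := by
    intro n
    induction n with
    | zero => intro y hy; exact hy
    | succ n ih => intro y hy; rw [pow_succ', Module.End.mul_apply] at hy; exact ih y (h.inj _ hy)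
  exact this _ _ e

theorem Semi.finrank_star (h : Semi B S S' L) {f : F[X]} (hf : f ≠ 0) :
    finrank F (Z S (SpectrumSp8.star f)) = finrank F (Z S f) := by
  rw [← h.finrank_reverse f]
  refine congrArg (fun W : Submodule F V => finrank F W) ?_
  have hc : f.reverse.leadingCoeff⁻¹ ≠ 0 :=
    inv_ne_zero (leadingCoeff_ne_zero.2 fun e => hf (reverse_eq_zero.1 e))
  ext x
  rw [Z, LinearMap.mem_ker, Z, LinearMap.mem_ker, SpectrumSp8.star, mul_comm, map_mul, aeval_C,
    ← Algebra.smul_def, LinearMap.smul_apply, smul_eq_zero_iff_right hc]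

/-- The fixed space and the space of eigenvalue `-1` have dimensions of the parity of the whole. -/
theorem Semi.even_add (h : Semi B S S' L) :
    Even (finrank F (Z S (X - C (1 : F))) + finrank F (Z S (X - C (-1 : F))) + finrank F V) := by
  have hS' : ∀ x y, B (S' x) y = B x (S y) := fun x y => by rw [h.symm, ← h.adj, h.symm]
  have hev := Omega.even_finrank_range_of_skew h.two B h.symm (fun u hu => h.nd.1 u hu) (S - S') fun x y => by
    simp only [LinearMap.sub_apply, map_sub, h.adj, hS']
    ring
  have hker : LinearMap.ker (S - S') = Z S ((X - C (1 : F)) * (X - C (-1 : F))) := by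
    ext x
    rw [LinearMap.mem_ker, mem_Z, map_neg, sub_neg_eq_add, map_mul, Module.End.mul_apply]
    simp only [map_sub, map_add, aeval_X, aeval_C, Algebra.algebraMap_self, RingHom.id_apply, map_one,
      LinearMap.sub_apply, LinearMap.add_apply, Module.End.one_apply]
    have e2 : S (S' x) = x := by rw [← Module.End.mul_apply, h.inv]; rfl
    constructor
    · intro e
      rw [sub_eq_zero] at e
      have : S (S x) = x := by rw [e, e2]
      rw [this]; abel
    · intro e
      refine h.inj _ ?_
      rw [map_sub, e2]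
      linear_combination (norm := abel) e
  have hcop : IsCoprime (X - C (1 : F)) (X - C (-1 : F)) :=
    isCoprime_X_sub_C_of_isUnit_sub (isUnit_iff_ne_zero.2 (by
      rw [sub_neg_eq_add, one_add_one_eq_two]; exact h.two))
  have h1 := LinearMap.finrank_range_add_finrank_ker (S - S')
  rw [hker, Z, ← sup_ker_aeval_eq_ker_aeval_mul_of_coprime S hcop] at h1
  have h2 := Submodule.finrank_sup_add_finrank_inf_eq (Z S (X - C (1 : F))) (Z S (X - C (-1 : F)))
  rw [(disjoint_ker_aeval_of_isCoprime S hcop).eq_bot, finrank_bot, add_zero] at h2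
  rw [Nat.even_add] at *
  rw [← h1, ← h2]
  simp [Nat.even_add, hev]

/-- An isometry of determinant one has an eigenspace for `-1` of even dimension. -/
theorem Semi.even_neg (h : Semi B S S' L) (hdet : LinearMap.det S = 1) :
    Even (finrank F (Z S (X - C (-1 : F)))) := by
  set z := X - C (-1 : F) with hz
  obtain ⟨r, hr⟩ : ∃ r, Z S z ⊔ LinearMap.range (aeval S z) = r ∧ r = ⊤ := by
    refine ⟨_, rfl, ?_⟩
    rw [eq_top_iff]
    intro x _
    by_cases hdvd : z ∣ minpoly F S
    · obtain ⟨c, hc⟩ := hdvd
      have hcop : IsCoprime z c := by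
        refine (irreducible_X_sub_C (-1 : F)).coprime_iff_not_dvd.2 fun hd => ?_
        obtain ⟨e, rfl⟩ := hd
        exact (irreducible_X_sub_C (-1 : F)).not_isUnit (h.squarefree _ ⟨e, by rw [hc]; ring⟩)
      obtain ⟨a, b, hab⟩ := hcop
      have e := congrArg (fun P => aeval S P x) hab
      simp only [map_add, LinearMap.add_apply, map_one, Module.End.one_apply] at e
      rw [← e, add_comm]
      refine Submodule.add_mem_sup ?_ ⟨aeval S a x, by rw [← Module.End.mul_apply, ← map_mul, mul_comm]⟩
      rw [mem_Z, ← Module.End.mul_apply, ← map_mul, show z * (b * c) = b * (z * c) by ring, ← hc, map_mul,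
        minpoly.aeval, mul_zero, LinearMap.zero_apply]
    · obtain ⟨a, b, hab⟩ := (irreducible_X_sub_C (-1 : F)).coprime_iff_not_dvd.2 hdvd
      have e := congrArg (fun P => aeval S P x) hab
      simp only [map_add, LinearMap.add_apply, map_mul, minpoly.aeval, mul_zero, LinearMap.zero_apply, add_zero,
        map_one, Module.End.one_apply] at e
      refine Submodule.mem_sup_right ⟨aeval S a x, ?_⟩
      rw [← Module.End.mul_apply, ← map_mul, hz, mul_comm, map_mul]
      exact e
  have hsup := hr.1.trans hr.2
  have hc : IsCompl (Z S z) (LinearMap.range (aeval S z)) := by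
    refine ⟨disjoint_iff.2 ?_, codisjoint_iff.2 hsup⟩
    have h1 : finrank F (LinearMap.range (aeval S z)) + finrank F (Z S z) = finrank F V :=
      LinearMap.finrank_range_add_finrank_ker (aeval S z)
    have h2 := Submodule.finrank_sup_add_finrank_inf_eq (Z S z) (LinearMap.range (aeval S z))
    rw [hsup, finrank_top] at h2
    exact Submodule.finrank_eq_zero.1 (by omega)
  -- the isometry negated on the eigenspace has no eigenvalue `-1`
  set π := Submodule.prodEquivOfIsCompl _ _ hc with hπ
  let D : Module.End F V := π.toLinearMap ∘ₗ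
    ((-LinearMap.id : Module.End F (Z S z)).prodMap LinearMap.id) ∘ₗ π.symm.toLinearMap
  have hD : LinearMap.det D = (-1) ^ finrank F (Z S z) := by
    rw [show D = π.toLinearMap ∘ₗ
      ((-LinearMap.id : Module.End F (Z S z)).prodMap LinearMap.id) ∘ₗ π.symm.toLinearMap from rfl,
      LinearMap.det_conj, LinearMap.det_prodMap, LinearMap.det_id, mul_one, ← neg_one_smul F LinearMap.id,
      LinearMap.det_smul, LinearMap.det_id, mul_one]
  have hDapply : ∀ a ∈ Z S z, ∀ b ∈ LinearMap.range (aeval S z), D (a + b) = -a + b := fun a ha b hb => by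
    have : π.symm (a + b) = (⟨a, ha⟩, ⟨b, hb⟩) :=
      π.symm_apply_eq.2 (Submodule.coe_prodEquivOfIsCompl' (Z S z) _ hc (⟨a, ha⟩, ⟨b, hb⟩)).symm
    show π (((-LinearMap.id : Module.End F (Z S z)).prodMap LinearMap.id) (π.symm (a + b))) = _
    rw [this]
    exact Submodule.coe_prodEquivOfIsCompl' _ _ hc _
  have hSa : ∀ a ∈ Z S z, S a = -a := fun a ha => by
    have := mem_Z.1 ha
    simp [hz] at this
    exact eq_neg_of_add_eq_zero_left this
  have hS'a : ∀ a ∈ Z S z, S' a = -a := fun a ha => by
    have e := congrArg S' (hSa a ha)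
    rw [← Module.End.mul_apply, h.inv', Module.End.one_apply, map_neg] at e
    exact neg_eq_iff_eq_neg.1 e.symm
  have horth : ∀ a ∈ Z S z, ∀ b ∈ LinearMap.range (aeval S z), B a b = 0 := by
    rintro a ha _ ⟨w, rfl⟩
    simp [hz]
    rw [h.symm a (S w), h.adj, hS'a a ha, h.symm a w, map_neg, neg_add_cancel]
  have hSrange : ∀ b ∈ LinearMap.range (aeval S z), S b ∈ LinearMap.range (aeval S z) := by
    rintro _ ⟨w, rfl⟩
    exact ⟨S w, by rw [← Module.End.mul_apply, ← Module.End.mul_apply,
      (Algebra.commute_of_mem_adjoin_self (aeval_mem_adjoin_singleton F S)).eq]⟩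
  have hST : LinearMap.det (S * D) = 1 := by
    have hiso : ∀ x y, B ((S * D) x) ((S * D) y) = B x y := fun x y => by
      obtain ⟨a, ha, b, hb, rfl⟩ := Submodule.mem_sup.1 (hsup.symm ▸ Submodule.mem_top : x ∈ Z S z ⊔ _)
      obtain ⟨c, hc', d, hd, rfl⟩ := Submodule.mem_sup.1 (hsup.symm ▸ Submodule.mem_top : y ∈ Z S z ⊔ _)
      rw [Module.End.mul_apply, Module.End.mul_apply, h.adj, ← Module.End.mul_apply (f := S'), h.inv',
        Module.End.one_apply, hDapply a ha b hb, hDapply c hc' d hd]
      simp [horth a ha d hd, h.symm b c, horth c hc' b hb]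
    have hnone : ∀ x, (S * D) x = -x → x = 0 := fun x hx => by
      obtain ⟨a, ha, b, hb, rfl⟩ := Submodule.mem_sup.1 (hsup.symm ▸ Submodule.mem_top : x ∈ Z S z ⊔ _)
      rw [Module.End.mul_apply, hDapply a ha b hb, map_add, map_neg, hSa a ha, neg_neg, neg_add] at hx
      have h0 : a + a = 0 ∧ S b + b = 0 := by
        have hz0 : a + a + (S b + b) = 0 := by linear_combination (norm := abel) hx
        have := Submodule.disjoint_def.1 hc.disjoint (a + a) (add_mem ha ha)
          (by rw [eq_neg_of_add_eq_zero_left hz0]; exact neg_mem (add_mem (hSrange b hb) hb))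
        exact ⟨this, by rwa [this, zero_add] at hz0⟩
      have hb0 : b = 0 := Submodule.disjoint_def.1 hc.disjoint b
        (by rw [mem_Z]; simpa [hz] using h0.2) hb
      have ha0 : a = 0 := (smul_eq_zero.1 (show (2 : F) • a = 0 by rw [two_smul]; exact h0.1)).resolve_left h.two
      rw [ha0, hb0, add_zero]
    let bs := Module.finBasis F V
    set T := S * D with hT
    have hG : (LinearMap.BilinForm.toMatrix bs B).det ≠ 0 :=
      (LinearMap.BilinForm.nondegenerate_iff_det_ne_zero bs).1 h.nd
    have hSd : LinearMap.det (T + 1) ≠ 0 := fun h0 => by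
      obtain ⟨x, hx, hx0⟩ := (Submodule.ne_bot_iff _).1 (LinearMap.bot_lt_ker_of_det_eq_zero h0).ne'
      exact hx0 (hnone x (eq_neg_of_add_eq_zero_left (by simpa using hx)))
    have key : B.comp (T + 1) T = B.compRight (T + 1) := LinearMap.ext₂ fun x y => by
      show B (T x + x) (T y) = B x (T y + y)
      simp only [map_add, LinearMap.add_apply, hiso]
      ring
    have e := congrArg (fun K => (LinearMap.BilinForm.toMatrix bs K).det) key
    simp only [LinearMap.BilinForm.toMatrix_comp bs bs, LinearMap.BilinForm.toMatrix_compRight, Matrix.det_mul,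
      Matrix.det_transpose, LinearMap.det_toMatrix] at e
    apply mul_left_cancel₀ (mul_ne_zero hSd hG)
    linear_combination e
  rw [map_mul, hdet, one_mul, hD] at hST
  by_contra ho
  rw [(Nat.not_even_iff_odd.1 ho).neg_one_pow] at hST
  exact h.two (by linear_combination -hST)

/-- The `-1` eigenspace of even dimension `n` carries no unipotent block of size `n`. -/
theorem Semi.skew_top (h : Semi B S S' L) {U U' : Module.End F V} (hU : ∀ x y, B (U x) y = B x (U' y))
    (hUU : U * U' = 1) (hUU' : U' * U = 1) (hc : Commute U S) {K : ℕ} (hK : (U - 1) ^ K = 0) {n : ℕ}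
    (hn : finrank F (Z S (X - C (-1 : F))) = n) (hev : Even n) (hn0 : 0 < n) :
    ∀ y ∈ Z S (X - C (-1 : F)), ((U - 1) ^ (n - 1)) y = 0 := by
  set z := X - C (-1 : F) with hz
  have hf : Irreducible z := irreducible_X_sub_C _
  have hU'S : Commute U' S := by
    show U' * S = S * U'
    calc U' * S = U' * (S * U) * U' := by rw [mul_assoc, mul_assoc, hUU, mul_one]
      _ = U' * (U * S) * U' := by rw [hc.eq]
      _ = S * U' := by rw [← mul_assoc, hUU', one_mul]
  have hcUU : Commute U U' := hUU.trans hUU'.symm
  let C' : Module.End F V := 1 + U'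
  have hT : U - U' = (U - 1) * C' := by
    show U - U' = (U - 1) * (1 + U')
    rw [mul_add, mul_one, sub_mul, one_mul, hUU]
    abel
  have hNC : Commute (U - 1) C' :=
    ((Commute.one_right U).add_right hcUU).sub_left ((Commute.one_left _).add_right (Commute.one_left _))
  have hTS : Commute (U - U') S := hc.sub_left hU'S
  have hTK : ∀ x ∈ Z S z, ((U - U') ^ K) x = 0 := fun x _ => by rw [hT, hNC.mul_pow, hK, zero_mul]; rfl
  intro y hy
  by_contra hne
  have hT1 : ((U - U') ^ (n - 1)) y ≠ 0 := by
    -- `1 + U'` is injective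
    have hCi : ∀ x, C' x = 0 → x = 0 := fun x hx => by
      have h1 : U x + x = 0 := by
        have := congrArg U hx
        simpa [C', ← Module.End.mul_apply, hUU, add_comm] using this
      have hm : ∀ j : ℕ, ((U - 1) ^ j) x = ((-2 : F) ^ j) • x := by
        intro j
        induction j with
        | zero => simp
        | succ j ih =>
          rw [pow_succ', Module.End.mul_apply, ih, map_smul, LinearMap.sub_apply, Module.End.one_apply,
            eq_neg_of_add_eq_zero_left h1, pow_succ, mul_smul, neg_smul, two_smul]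
          congr 1
          abel
      have := hm K
      rw [hK, LinearMap.zero_apply] at this
      exact (smul_eq_zero.1 this.symm).resolve_left (pow_ne_zero _ (neg_ne_zero.2 h.two))
    have hCpow : ∀ (j : ℕ) x, (C' ^ j) x = 0 → x = 0 := by
      intro j
      induction j with
      | zero => intro x hx; exact hx
      | succ j ih => intro x hx; rw [pow_succ', Module.End.mul_apply] at hx; exact ih x (hCi _ hx)
    intro e
    rw [hT, hNC.mul_pow, (hNC.pow_pow _ _).eq, Module.End.mul_apply] at e
    exact hne (hCpow _ _ e)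
  set T := U - U' with hTdef
  have hskew : ∀ x w, B (T x) w = -B x (T w) := fun x w => by
    have hU'' : B (U' x) w = B x (U w) := by rw [h.symm, ← hU, h.symm]
    simp only [hTdef, LinearMap.sub_apply, map_sub, hU, hU'']
    ring
  have hskewpow : ∀ (j : ℕ) x w, B ((T ^ j) x) w = (-1) ^ j * B x ((T ^ j) w) := by
    intro j
    induction j with
    | zero => intro x w; simp
    | succ j ih =>
      intro x w
      rw [pow_succ', Module.End.mul_apply, hskew, ih, ← Module.End.mul_apply, ← pow_succ, pow_succ']
      ring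
  -- the last power has a one-dimensional image on the eigenspace
  have hTn : ∀ x ∈ Z S z, (T ^ n) x = 0 := fun x hx => by
    by_contra hne'
    have := mul_natDegree_le hTS hf hx hne' hTK
    rw [hn, hz, natDegree_X_sub_C, one_mul] at this
    omega
  set w := (T ^ (n - 1)) y with hw
  have hwZ : w ∈ Z S z := Z_commute (hTS.pow_left _) hy
  have hodd : Odd (n - 1) := Nat.Even.sub_odd (by omega) hev odd_one
  have hyy : B y w = 0 := by
    have h1 := hskewpow (n - 1) y y
    rw [hodd.neg_one_pow, h.symm, ← hw] at h1
    exact (mul_eq_zero.1 (show (2 : F) * B y w = 0 by linear_combination h1)).resolve_left h.two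
  have hcol : ∀ x ∈ Z S z, ∃ c : F, (T ^ (n - 1)) x = c • w := by
    intro x hx
    let g : Z S z →ₗ[F] V := (T ^ (n - 1)).comp (Submodule.subtype _)
    have hk : n - 1 ≤ finrank F (LinearMap.ker g) := by
      let Y : Fin (n - 1) → LinearMap.ker g := fun i => ⟨⟨(T ^ (i.1 + 1)) y, Z_commute (hTS.pow_left _) hy⟩, by
        show (T ^ (n - 1)) ((T ^ (i.1 + 1)) y) = 0
        rw [← Module.End.mul_apply, ← pow_add, show n - 1 + (i.1 + 1) = i.1 + n by omega, pow_add,
          Module.End.mul_apply, hTn y hy, map_zero]⟩
      have hli : LinearIndependent F Y := by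
        rw [Fintype.linearIndependent_iff]
        intro c hc
        have hc' : ∑ i, c i • (T ^ (i.1 + 1)) y = 0 := by
          have := congrArg (fun v : LinearMap.ker g => ((v.1 : Z S z) : V)) hc
          simpa [Y] using this
        intro i
        induction hi : i.1 using Nat.strong_induction_on generalizing i with
        | _ k ih =>
          subst hi
          have e := congrArg (T ^ (n - 1 - (i.1 + 1))) hc'
          rw [map_sum, map_zero, Finset.sum_eq_single i ?_ (by simp)] at e
          · rw [map_smul, ← Module.End.mul_apply, ← pow_add,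
              show n - 1 - (i.1 + 1) + (i.1 + 1) = n - 1 by omega] at e
            exact (smul_eq_zero.1 e).resolve_right hT1
          · intro j _ hji
            rw [map_smul, ← Module.End.mul_apply, ← pow_add]
            rcases lt_or_gt_of_ne (fun e => hji (Fin.ext e) : j.1 ≠ i.1) with hlt | hlt
            · rw [ih j.1 hlt j rfl, zero_smul]
            · rw [show n - 1 - (i.1 + 1) + (j.1 + 1) = (j.1 - i.1 - 1) + n by omega, pow_add,
                Module.End.mul_apply, hTn y hy, map_zero, smul_zero]
      have := hli.fintype_card_le_finrank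
      simpa using this
    have h1 := LinearMap.finrank_range_add_finrank_ker g
    have hn' : finrank F (Z S z) = n := hn
    have hw' : (⟨w, ⟨⟨y, hy⟩, rfl⟩⟩ : LinearMap.range g) ≠ 0 := fun e => hT1 (congrArg Subtype.val e)
    obtain ⟨c, hc'⟩ := exists_smul_eq_of_finrank_eq_one
      (le_antisymm (show finrank F (LinearMap.range g) ≤ 1 by omega)
        (Module.finrank_pos_iff_exists_ne_zero.2 ⟨_, hw'⟩)) hw'
      (⟨(T ^ (n - 1)) x, ⟨⟨x, hx⟩, rfl⟩⟩ : LinearMap.range g)
    exact ⟨c, (congrArg Subtype.val hc').symm⟩
  -- orthogonal to everything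
  apply hT1
  refine h.nd.1 w fun x => ?_
  have hmem : ∀ x ∈ Z S z, B w x = 0 := fun x hx => by
    obtain ⟨c, hc'⟩ := hcol x hx
    rw [hw, hskewpow, hc', map_smul, hyy]
    simp
  by_cases hdvd : z ∣ minpoly F S
  · obtain ⟨c, hc'⟩ := hdvd
    have hcop : IsCoprime z c := by
      refine hf.coprime_iff_not_dvd.2 fun hd => ?_
      obtain ⟨e, rfl⟩ := hd
      exact hf.not_isUnit (h.squarefree _ ⟨e, by rw [hc']; ring⟩)
    obtain ⟨a, b, hab⟩ := hcop
    have e := congrArg (fun P => aeval S P x) hab
    simp only [map_add, LinearMap.add_apply, map_one, Module.End.one_apply] at e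
    rw [← e, map_add, mul_comm a, map_mul, Module.End.mul_apply, ← h.symm (aeval S z (aeval S a x)) w,
      adj_aeval h.adj, hmem (aeval S (b * c) x) ?_, add_zero]
    · rw [show aeval S' z w = 0 from ?_, map_zero]
      have hSw : S w = -w := eq_neg_of_add_eq_zero_left (by simpa [hz] using mem_Z.1 hwZ)
      have e' := congrArg S' hSw
      rw [← Module.End.mul_apply, h.inv', Module.End.one_apply, map_neg] at e'
      simp [hz, neg_eq_iff_eq_neg.1 e'.symm]
    · rw [mem_Z, ← Module.End.mul_apply, ← map_mul, show z * (b * c) = b * (z * c) by ring, ← hc', map_mul,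
        minpoly.aeval, mul_zero, LinearMap.zero_apply]
  · exact absurd (eq_zero_of_coprime (hf.coprime_iff_not_dvd.2 hdvd) (mem_Z.1 hwZ) (by simp)) hT1

end CfsgLib.CharDegrees.SpectrumO9
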