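import Cfsg.Agent.Lib.CharDegrees.SpectrumO9.Unip
import Cfsg.Agent.Lib.LocalBalanceAut.POmegaOddCent

/-!
The common spectrum of `Ω(9, q)` and the extension of `Ω⁻(8, q)` by its natural module, `q` odd.
-/

set_option autoImplicit false
set_option linter.unusedSectionVars false

namespace CfsgLib.CharDegrees.SpectrumO9

open QuadraticMap Module CfsgLib.OrthGen
open CfsgLib.ReflectionsSpinor.POmegaField (qO)

universe u v

variable {F : Type u} [Field F] [Fintype F] {p : ℕ} [CharP F p]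

local notation "q" => Fintype.card F
local notation "ι8" => ((Fin 3 ⊕ Fin 3) ⊕ Fin 2)

theorem range_orderOf_eq {G : Type v} [Group G] [Finite G] (hup : ∀ x : G, InSpec p q (orderOf x))
    (hlow : ∀ e T, Tab p q e T → ∃ x : G, T * p ^ e ∣ orderOf x) :
    Set.range (orderOf : G → ℕ) = {n | InSpec p q n} := by
  ext n
  constructor
  · rintro ⟨x, rfl⟩
    exact hup x
  · rintro ⟨e, T, hT, hn⟩
    obtain ⟨x, hx⟩ := hlow e T hT
    exact ⟨x ^ (orderOf x / n), orderOf_pow_orderOf_div (orderOf_pos x).ne' (hn.trans hx)⟩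

theorem InSpec.of_dvd {m n : ℕ} (h : InSpec p q n) (hd : m ∣ n) : InSpec p q m := by
  obtain ⟨e, T, hT, hn⟩ := h
  exact ⟨e, T, hT, hd.trans hn⟩

theorem two_ne_zero_of (hp2 : p ≠ 2) : (2 : F) ≠ 0 := by
  intro h
  have : p ∣ 2 := (CharP.cast_eq_zero_iff F p 2).1 (by exact_mod_cast h)
  exact hp2 ((Nat.prime_dvd_prime_iff_eq (CharP.char_is_prime F p) Nat.prime_two).1 this)

theorem geom_split {A : Type v} [Semiring A] (x : A) (n L : ℕ) :
    ∑ i ∈ Finset.range (n * L), x ^ i = (∑ j ∈ Finset.range n, x ^ j) * ∑ k ∈ Finset.range L, (x ^ n) ^ k := by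
  induction L with
  | zero => simp
  | succ L ih =>
    rw [Nat.mul_succ, Finset.sum_range_add, ih, Finset.sum_range_succ _ L, mul_add]
    congr 1
    rw [Finset.sum_mul]
    exact Finset.sum_congr rfl fun j _ => by rw [← pow_mul, ← pow_add, add_comm]

/-- The dimension of the unipotent part. -/
theorem room_add {e T : ℕ} (hp : p.Prime) (hp2 : p ≠ 2) (hT : Tab p q e T) (he : e ≠ 0) :
    2 * room p e + p ^ (e - 1) = 7 := by
  rcases hT with ⟨rfl, -⟩ | ⟨rfl, -⟩ | ⟨rfl, rfl, -⟩ | ⟨rfl, rfl, -⟩ | ⟨rfl, rfl, -⟩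
  · exact absurd rfl he
  all_goals simp [room]

theorem orderOf_facts {U : Type*} [AddCommGroup U] [Module F U] {R : Type*} [AddCommGroup R] [Module F R]
    {ι : Type} [Fintype ι] [DecidableEq ι] {Q : QuadraticForm F (ι → F)} {h : Cfsg.isometryGroup F (⇑Q)}
    (E : (U × R) ≃ₗ[F] (ι → F)) {T : U ≃ₗ[F] U} {S : R ≃ₗ[F] R}
    (hh : ∀ (j : ℕ) y r, act Q (h ^ j) (E (y, r)) = E ((T ^ j) y, (S ^ j) r)) :
    orderOf h = Nat.lcm (orderOf T) (orderOf S) := by
  refine Nat.dvd_antisymm (orderOf_dvd_of_pow_eq_one (ext_act fun x => ?_)) (Nat.lcm_dvd ?_ ?_)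
  · obtain ⟨⟨y, r⟩, rfl⟩ := E.surjective x
    obtain ⟨a, ha⟩ := Nat.dvd_lcm_left (orderOf T) (orderOf S)
    obtain ⟨b, hb⟩ := Nat.dvd_lcm_right (orderOf T) (orderOf S)
    rw [hh, act_one]
    nth_rw 1 [ha]
    rw [hb, pow_mul, pow_mul, pow_orderOf_eq_one, pow_orderOf_eq_one, one_pow, one_pow]
    rfl
  · refine orderOf_dvd_of_pow_eq_one (LinearEquiv.ext fun y => ?_)
    have e := hh (orderOf h) y 0
    rw [pow_orderOf_eq_one, act_one] at e
    exact (congrArg Prod.fst (E.injective e)).symm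
  · refine orderOf_dvd_of_pow_eq_one (LinearEquiv.ext fun r => ?_)
    have e := hh (orderOf h) 0 r
    rw [pow_orderOf_eq_one, act_one] at e
    exact (congrArg Prod.snd (E.injective e)).symm

theorem coprime_pow {L : ℕ} (hL : L.Coprime q) (e : ℕ) : L.Coprime (p ^ e) := by
  haveI := Fact.mk (CharP.char_is_prime F p)
  obtain ⟨r, -, hr⟩ := FiniteField.card F p
  refine Nat.Coprime.pow_right _ (hL.coprime_dvd_right ?_)
  rw [hr]
  exact dvd_pow_self p r.pos.ne'

/-! ### `Ω(9, q)` -/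

theorem nd_qO4 (h2 : (2 : F) ≠ 0) : (polarBilin (qO F 4)).Nondegenerate :=
  Classes.nondegenerate_polarBilin _ (LocalBalanceAut.POmegaOdd.nondeg_qO' h2)

theorem omega_nine_lower (hp2 : p ≠ 2) {e T : ℕ} (hT : Tab p q e T) :
    ∃ h : Cfsg.isometryGroup F (⇑(qO F 4)), h ∈ Cfsg.Omega F (⇑(qO F 4)) ∧ T * p ^ e ∣ orderOf h := by
  classical
  have hp := CharP.char_is_prime F p
  have h2 := two_ne_zero_of (F := F) hp2
  obtain ⟨ε, L, ⟨Q₁, T₁, hQ₁, -, hT₁, hd₁, hord, hcop, hgood⟩, hTL, -, he2, -⟩ := models h2 hT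
  -- the unipotent part
  obtain ⟨n, hn, hn', hnlow⟩ : ∃ s, 2 * room p e + (2 * s + 1) = 9 ∧ 2 * s + 1 ≤ p ^ e ∧
      (1 ≤ e → p ^ (e - 1) < 2 * s + 1) := by
    rcases Nat.eq_zero_or_pos e with rfl | he
    · exact ⟨0, by simp [room], by simp, by simp⟩
    have h := room_add hp hp2 hT he.ne'
    have hodd := Nat.odd_iff.1 ((hp.odd_of_ne_two hp2).pow (n := e - 1))
    refine ⟨(p ^ (e - 1) + 1) / 2, by omega, ?_, fun _ => by omega⟩
    have h3 : 3 ≤ p := by have := hp.two_le; omega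
    have : p ^ e = p ^ (e - 1) * p := by rw [← pow_succ, Nat.sub_add_cancel he]
    nlinarith [Nat.one_le_pow (e - 1) p hp.pos, Nat.div_mul_le_self (p ^ (e - 1) + 1) 2]
  obtain ⟨Q₂, u, hQ₂, hu, hu0, hu1⟩ := exists_unipotent h2 n
  obtain ⟨hup, huo⟩ := unipotent_facts (p := p) hu0 hn'
  have huord := huo (by rwa [Nat.add_sub_cancel]) hnlow
  obtain ⟨E₀, c, -, hc, hE₀⟩ := Classes.exists_equiv_odd (m := 4)
    (V := (Fin (2 * room p e) → F) × (Fin (2 * n + 1) → F)) (by simp; omega) (Q₁.prod Q₂) (nondeg_prod hQ₁ hQ₂)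
  let D : (Unit ⊕ (Fin 4 ⊕ Fin 4) → F) ≃ₗ[F] (Unit ⊕ (Fin 4 ⊕ Fin 4) → F) :=
    LinearEquiv.piCongrRight fun i => LinearEquiv.smulOfUnit (R := F) (M := F)
      (Sum.elim (fun _ => 1) (Sum.elim (fun _ => (Units.mk0 c hc)⁻¹) fun _ => 1) i)
  have hD : ∀ z i, D z i =
      ((Sum.elim (fun _ => 1) (Sum.elim (fun _ => (Units.mk0 c hc)⁻¹) fun _ => 1) i : Fˣ) : F) * z i :=
    fun _ _ => rfl
  have hE : ∀ y r, qO F 4 ((E₀.trans D) (y, r)) = c⁻¹ * Q₁ y + (c⁻¹ • Q₂) r := fun y r => by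
    rw [QuadraticMap.smul_apply, smul_eq_mul, ← mul_add, ← QuadraticMap.prod_apply (Q₁ := Q₁) (Q₂ := Q₂) (y, r),
      hE₀]
    show Cfsg.quadFormOdd 4 F (D (E₀ (y, r))) = _
    simp only [Cfsg.quadFormOdd, hD, Sum.elim_inl, Sum.elim_inr, Units.val_one, one_mul,
      Units.val_inv_eq_inv_val, Units.val_mk0, mul_add, Finset.mul_sum, mul_assoc]
    rw [inv_mul_cancel_left₀ hc]
  obtain ⟨h, hmem, hh⟩ := build hp2 (nd_qO4 h2) (by simp) hT₁ hd₁ hgood
    (E₀.trans D) (inv_ne_zero hc) (c⁻¹ • Q₂) hE u (fun r => by simp [hu]) hup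
  refine ⟨h, hmem, ?_⟩
  rw [orderOf_facts (E₀.trans D) hh, hord, huord, (coprime_pow hcop e).lcm_eq_mul]
  exact Nat.mul_dvd_mul_right hTL _

theorem range_omega_nine (hp2 : p ≠ 2) :
    Set.range (orderOf : Cfsg.POmega F (⇑(qO F 4)) → ℕ) = {n | InSpec p q n} := by
  have h2 := two_ne_zero_of (F := F) hp2
  refine range_orderOf_eq (fun x => ?_) fun e T hT => ?_
  · obtain ⟨⟨g, hg⟩, rfl⟩ := QuotientGroup.mk_surjective x
    obtain ⟨a, L, hL, he⟩ := Nat.exists_eq_pow_mul_and_not_dvd (orderOf_pos g).ne' p (CharP.char_is_prime F p).ne_one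
    refine InSpec.of_dvd (n := L * p ^ a) ?_ ?_
    · exact upper hp2 (by simp) (nd_qO4 h2) hg (he.trans (mul_comm _ _)) hL
        (Or.inl rfl)
    · rw [mul_comm, ← he, ← Subgroup.orderOf_mk g hg]
      exact orderOf_map_dvd (QuotientGroup.mk' _) _
  · obtain ⟨h, hmem, hd⟩ := omega_nine_lower hp2 hT
    refine ⟨QuotientGroup.mk' _ ⟨h, hmem⟩, hd.trans (dvd_of_eq ?_)⟩
    exact ((orderOf_injective (QuotientGroup.mk' _) (fun s t e =>
      LocalBalanceAut.POmegaOdd.cl_injective h2 (m := 4) (by norm_num) e) _).trans (Subgroup.orderOf_mk h hmem)).symm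

/-! ### The semidirect product -/

/-- The minus space with a line added. -/
noncomputable def E9 : ((ι8 → F) × F) ≃ₗ[F] (ι8 ⊕ Unit → F) :=
  (((LinearEquiv.refl F (ι8 → F)).prodCongr (LinearEquiv.funUnique Unit F F).symm)).trans
    (LinearEquiv.sumArrowLequivProdArrow ι8 Unit F F).symm

/-- The nine-dimensional form. -/
noncomputable def Q9 (Q : QuadraticForm F (ι8 → F)) : QuadraticForm F (ι8 ⊕ Unit → F) :=
  (Q.prod (QuadraticMap.sq : QuadraticForm F F)).comp E9.symm.toLinearMap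

theorem Q9_apply (Q : QuadraticForm F (ι8 → F)) (y : ι8 → F) (r : F) : Q9 Q (E9 (y, r)) = Q y + r * r := by
  simp [Q9]

/-- Affine upper bound. -/
theorem affine_upper (hp2 : p ≠ 2) {Q : QuadraticForm F (ι8 → F)} (hQ : (polarBilin Q).Nondegenerate)
    {h : Cfsg.isometryGroup F (⇑Q)} (hh : h ∈ Cfsg.Omega F (⇑Q)) :
    InSpec p q (orderOf h) ∧
      ∀ v, (∑ i ∈ Finset.range (orderOf h), endHom h ^ i) v ≠ 0 → InSpec p q (p * orderOf h) := by
  classical
  haveI := Fact.mk (CharP.char_is_prime F p)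
  have h2 := two_ne_zero_of (F := F) hp2
  choose emb hemb using fun k : Cfsg.isometryGroup F (⇑Q) =>
    exists_ext (Q := Q9 Q) E9 (fun y => Q y) (fun r => r * r) (Q9_apply Q)
      (LinearEquiv.ofLinear (endHom k) (endHom k⁻¹)
        (by show endHom k * endHom k⁻¹ = 1; rw [← map_mul, mul_inv_cancel, map_one])
        (by show endHom k⁻¹ * endHom k = 1; rw [← map_mul, inv_mul_cancel, map_one]))
      (LinearEquiv.refl F F) (fun y => by
        show Q (endHom k y) = Q y
        rw [endHom_apply, Q_act]) (fun r => rfl)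
  let f : Cfsg.isometryGroup F (⇑Q) →* Cfsg.isometryGroup F (⇑(Q9 Q)) :=
    MonoidHom.mk' emb fun k l => ext_act fun x => by
      obtain ⟨⟨y, r⟩, rfl⟩ := E9.surjective x
      rw [act_mul, hemb, hemb, hemb]
      simp [endHom_apply, act_mul]
  have hf : ∀ k y r, act (Q9 Q) (f k) (E9 (y, r)) = E9 (act Q k y, r) := fun k y r => by
    refine (hemb k y r).trans ?_
    simp [endHom_apply]
  have hfinj : Function.Injective f := fun k l e => ext_act fun y => by
    have := hf k y 0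
    rw [e, hf] at this
    exact (congrArg Prod.fst (E9.injective this)).symm
  have hfmem : f h ∈ Cfsg.Omega F (⇑(Q9 Q)) := by
    have h1 := Subgroup.mem_map_of_mem f hh
    rw [Cfsg.Omega, commutator_def, Subgroup.map_commutator] at h1
    exact Subgroup.commutator_mono le_top le_top h1
  have hnd : (polarBilin (Q9 Q)).Nondegenerate :=
    nondeg_congr E9 (fun x => by simp [Q9]) (nondeg_prod hQ (nondeg_sq h2))
  obtain ⟨a, L, hL, he⟩ := Nat.exists_eq_pow_mul_and_not_dvd (orderOf_pos h).ne' p (CharP.char_is_prime F p).ne_one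
  have hord : orderOf (f h) = L * p ^ a := by rw [orderOf_injective f hfinj, he, mul_comm]
  refine ⟨?_, fun v hv => ?_⟩
  · rw [he, mul_comm]
    exact upper hp2 rfl hnd hfmem hord hL (Or.inl rfl)
  have hkey : p ^ a + 1 ≤ finrank F (Z (endHom ((f h) ^ p ^ a)) (Polynomial.X - Polynomial.C (1 : F))) := by
    haveI : CharP (Module.End F (ι8 → F)) p :=
      charP_of_injective_ringHom (f := algebraMap F (Module.End F (ι8 → F))) (RingHom.injective _) p
    set N := endHom h - 1 with hN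
    set S := endHom (h ^ p ^ a) with hS
    set w := (∑ k ∈ Finset.range L, (endHom h ^ p ^ a) ^ k) v with hw
    have hx : (N ^ (p ^ a - 1)) w ≠ 0 := by
      rw [he, geom_split, geom_sum_pow_char (F := F) a] at hv
      exact hv
    have hS1 : endHom h ^ p ^ a = S := by rw [hS, map_pow]
    have hwZ : w ∈ Z S (Polynomial.X - Polynomial.C (1 : F)) := by
      rw [mem_Z]
      have e : S * ∑ k ∈ Finset.range L, S ^ k = ∑ k ∈ Finset.range L, S ^ k := by
        have h0 := mul_geom_sum S L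
        rw [show S ^ L = 1 by rw [hS, ← map_pow, ← pow_mul, ← he, pow_orderOf_eq_one, map_one], sub_self,
          sub_mul, one_mul, sub_eq_zero] at h0
        exact h0
      simp only [map_sub, Polynomial.aeval_X, map_one, LinearMap.sub_apply, Module.End.one_apply]
      rw [hw, hS1, ← Module.End.mul_apply, e, sub_self]
    have hd8 : p ^ a ≤ finrank F (Z S (Polynomial.X - Polynomial.C (1 : F))) := by
      have hc : Commute N S := by
        rw [hS, map_pow]
        exact (((Commute.refl (endHom h)).pow_right _).sub_left (Commute.one_left _))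
      have := mul_natDegree_le hc (Polynomial.irreducible_X_sub_C (1 : F)) hwZ hx (K := p ^ a) (fun x hx => by
        rw [hN, sub_pow_char_pow_of_commute (p := p) (n := a) (Commute.one_right _), one_pow, hS1]
        have := mem_Z.1 hx
        simpa using this)
      rw [Polynomial.natDegree_X_sub_C, one_mul, Nat.sub_add_cancel (Nat.one_le_pow _ _ (Fact.out : p.Prime).pos)]
        at this
      exact this
    have hfix : ∀ y ∈ Z S (Polynomial.X - Polynomial.C (1 : F)), ∀ r : F,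
        E9 (y, r) ∈ Z (endHom ((f h) ^ p ^ a)) (Polynomial.X - Polynomial.C (1 : F)) := fun y hy r => by
      rw [mem_Z] at hy ⊢
      simp only [map_sub, Polynomial.aeval_X, map_one, LinearMap.sub_apply, Module.End.one_apply] at hy ⊢
      rw [← map_pow, endHom_apply, hf, ← endHom_apply, ← hS, sub_eq_zero.1 hy, sub_self]
    let g : (Z S (Polynomial.X - Polynomial.C (1 : F)) × F) →ₗ[F]
        Z (endHom ((f h) ^ p ^ a)) (Polynomial.X - Polynomial.C (1 : F)) :=
      LinearMap.codRestrict _ ((E9 (F := F)).toLinearMap.comp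
          ((Z S (Polynomial.X - Polynomial.C (1 : F))).subtype.prodMap LinearMap.id))
        fun x => by exact hfix x.1.1 x.1.2 x.2
    have hg : Function.Injective g := fun x y e => by
      have := E9.injective (congrArg Subtype.val e)
      exact Prod.ext (Subtype.ext (congrArg Prod.fst this :)) (congrArg Prod.snd this :)
    have := LinearMap.finrank_le_finrank_of_injective hg
    rw [finrank_prod, Module.finrank_self] at this
    omega
  have := upper hp2 rfl hnd hfmem hord hL (e := a + 1) (Or.inr ⟨rfl, hkey⟩)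
  rw [he]
  convert this using 1
  ring

/-- The action. -/
noncomputable abbrev actHom (Q : QuadraticForm F (ι8 → F)) :
    ↥(Cfsg.Omega F (⇑Q)) →* MulAut (Multiplicative (ι8 → F)) :=
  (MulAutMultiplicative (ι8 → F)).symm.toMonoidHom.comp
    ((DistribMulAction.toAddAut (LinearMap.GeneralLinearGroup F (ι8 → F)) (ι8 → F)).comp
      (Matrix.GeneralLinearGroup.toLin.toMonoidHom.comp
        ((Cfsg.isometryGroup F (⇑Q)).subtype.comp (Cfsg.Omega F (⇑Q)).subtype)))

theorem orderOf_affine (Q : QuadraticForm F (ι8 → F)) (v : ι8 → F) (h : ↥(Cfsg.Omega F (⇑Q))) :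
    orderOf (⟨Multiplicative.ofAdd v, h⟩ : Multiplicative (ι8 → F) ⋊[actHom Q] ↥(Cfsg.Omega F (⇑Q))) =
      orderOf h * orderOf (Multiplicative.ofAdd ((∑ i ∈ Finset.range (orderOf h), endHom h.1 ^ i) v)) := by
  have hact : ∀ (k : ↥(Cfsg.Omega F (⇑Q))) (w : ι8 → F),
      actHom Q k (Multiplicative.ofAdd w) = Multiplicative.ofAdd (endHom k.1 w) := fun k w => by
    rw [endHom_apply]; rfl
  have hpow : ∀ n : ℕ, (⟨Multiplicative.ofAdd v, h⟩ : Multiplicative (ι8 → F) ⋊[actHom Q] _) ^ n =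
      ⟨Multiplicative.ofAdd ((∑ i ∈ Finset.range n, endHom h.1 ^ i) v), h ^ n⟩ := by
    intro n
    induction n with
    | zero => exact SemidirectProduct.ext (by simp) (by simp)
    | succ n ih =>
      rw [pow_succ', ih]
      refine SemidirectProduct.ext ?_ (pow_succ' h n).symm
      rw [SemidirectProduct.mul_left]
      simp only [hact]
      rw [← ofAdd_add, geom_sum_succ]
      simp [add_comm]
  set x : Multiplicative (ι8 → F) ⋊[actHom Q] _ := ⟨Multiplicative.ofAdd v, h⟩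
  have h1 : orderOf h ∣ orderOf x := by
    simpa using orderOf_map_dvd SemidirectProduct.rightHom x
  have h2 : x ^ orderOf h =
      SemidirectProduct.inl (Multiplicative.ofAdd ((∑ i ∈ Finset.range (orderOf h), endHom h.1 ^ i) v)) := by
    rw [hpow]
    exact SemidirectProduct.ext rfl (by simp [pow_orderOf_eq_one])
  have h3 : orderOf (x ^ orderOf h) = orderOf x / orderOf h := by
    rw [orderOf_pow' x (orderOf_pos h).ne', Nat.gcd_eq_right h1]
  rw [h2, orderOf_injective _ SemidirectProduct.inl_injective] at h3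
  rw [h3, Nat.mul_div_cancel' h1]

theorem orderOf_vec {w : ι8 → F} (hw : w ≠ 0) : orderOf (Multiplicative.ofAdd w) = p := by
  haveI := Fact.mk (CharP.char_is_prime F p)
  rw [orderOf_ofAdd_eq_addOrderOf]
  refine addOrderOf_eq_prime ?_ hw
  rw [← Nat.cast_smul_eq_nsmul F, CharP.cast_eq_zero, zero_smul]

theorem affine_lower (hp2 : p ≠ 2) {a b : F}
    (hab : ∀ z₁ z₂ : F, z₁ ^ 2 + a * z₁ * z₂ + b * z₂ ^ 2 = 0 → z₁ = 0 ∧ z₂ = 0) {e T : ℕ} (hT : Tab p q e T) :
    ∃ (h : Cfsg.isometryGroup F (⇑(ClassicalForms.qMinus 3 F a b))) (v : ι8 → F),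
      h ∈ Cfsg.Omega F (⇑(ClassicalForms.qMinus 3 F a b)) ∧
        ((e = 0 ∧ v = 0 ∧ T ∣ orderOf h) ∨
          (1 ≤ e ∧ T * p ^ (e - 1) ∣ orderOf h ∧ (∑ i ∈ Finset.range (orderOf h), endHom h ^ i) v ≠ 0)) := by
  classical
  have hp := CharP.char_is_prime F p
  haveI := Fact.mk hp
  have h2 := two_ne_zero_of (F := F) hp2
  have hM : (polarBilin (ClassicalForms.qMinus 3 F a b)).Nondegenerate :=
    Classes.nondegenerate_polarBilin _ (ClassicalForms.nondeg_qMinus hab 3)
  obtain ⟨ε, L, ⟨Q₁, T₁, hQ₁, hs₁, hT₁, hd₁, hord, hcop, hgood⟩, hTL, hε, he2, -⟩ := models h2 hT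
  rcases Nat.eq_zero_or_pos e with rfl | he
  · obtain rfl := hε rfl
    have hr : room p 0 = 4 := rfl
    obtain ⟨E, hE⟩ := exists_equiv_minus h2 (by simp [hr]) Q₁ hQ₁ (by
      intro ψ hψ
      rw [hs₁ ψ hψ, hr]) hab hM
    let E' : ((Fin (2 * room p 0) → F) × (Fin 0 → F)) ≃ₗ[F] (ι8 → F) := LinearEquiv.prodUnique.trans E
    obtain ⟨h, hmem, hh⟩ := build hp2 hM (by simp) hT₁ hd₁ hgood E' one_ne_zero (0 : QuadraticForm F (Fin 0 → F))
      (fun y r => by
        show ClassicalForms.qMinus 3 F a b (E y) = _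
        rw [← hE, one_mul, QuadraticMap.zero_apply, add_zero])
      (LinearEquiv.refl F _) (fun _ => rfl) (a := 0) (by rw [pow_zero, pow_one]; rfl)
    refine ⟨h, 0, hmem, Or.inl ⟨rfl, rfl, hTL.trans ?_⟩⟩
    rw [orderOf_facts E' hh, hord]
    exact Nat.dvd_lcm_left _ _
  have hroom := room_add hp hp2 hT he.ne'
  set P := p ^ (e - 1) with hP
  have hPodd := Nat.odd_iff.1 ((hp.odd_of_ne_two hp2).pow (n := e - 1))
  obtain ⟨s, hs⟩ : ∃ s, 2 * s + 1 = P := ⟨P / 2, by omega⟩
  obtain ⟨Q₂, u, hQ₂, hu, hu0, hu1⟩ := exists_unipotent h2 s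
  obtain ⟨hup, huo⟩ := unipotent_facts (p := p) hu0 (e := e - 1) hs.le
  have huord := huo (by rwa [Nat.add_sub_cancel]) (fun h => by
    rw [hs]; exact Nat.pow_lt_pow_right hp.one_lt (by omega))
  obtain ⟨c, hc, hsign⟩ := exists_flip h2 (m := 4) (by norm_num) (V := (Fin (2 * room p e) → F) × (Fin (2 * s + 1) → F))
    (by simp; omega) (Q₁.prod Q₂) (fun c hc => nondeg_prod (nondeg_prod hQ₁ hQ₂) (nondeg_smul_sq h2 hc))
    (ε := -1) (Or.inr rfl)
  obtain ⟨E, hE⟩ := exists_equiv_minus h2 (by simp; omega) _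
    (nondeg_prod (nondeg_prod hQ₁ hQ₂) (nondeg_smul_sq h2 hc)) hsign hab hM
  let E' : ((Fin (2 * room p e) → F) × ((Fin (2 * s + 1) → F) × F)) ≃ₗ[F] (ι8 → F) :=
    (LinearEquiv.prodAssoc F _ _ _).symm.trans E
  let Q₃ : QuadraticForm F ((Fin (2 * s + 1) → F) × F) := Q₂.prod (c • QuadraticMap.sq)
  let S : ((Fin (2 * s + 1) → F) × F) ≃ₗ[F] _ := u.prodCongr (LinearEquiv.refl F F)
  have hSpow : ∀ (j : ℕ) x, (S ^ j) x = ((u ^ j) x.1, x.2) := by
    intro j
    induction j with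
    | zero => intro x; rfl
    | succ j ih => intro x; rw [pow_succ', LinearEquiv.mul_apply, ih, pow_succ']; rfl
  obtain ⟨h, hmem, hh⟩ := build hp2 hM (by simp) hT₁ hd₁ hgood E' one_ne_zero Q₃ (fun y r => by
      show ClassicalForms.qMinus 3 F a b (E ((y, r.1), r.2)) = _
      rw [← hE]
      simp only [Q₃, QuadraticMap.prod_apply]
      ring)
    S (fun r => by simp [Q₃, S, hu]) (a := e - 1)
    (LinearEquiv.ext fun x => by rw [hSpow, hup]; rfl)
  have hSord : orderOf S = P := by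
    suffices orderOf S = orderOf u from this.trans huord
    refine orderOf_eq_orderOf_iff.2 fun j => ⟨fun e => LinearEquiv.ext fun x => ?_, fun e => LinearEquiv.ext fun x => ?_⟩
    · have := LinearEquiv.congr_fun e (x, 0)
      rw [hSpow] at this
      exact congrArg Prod.fst this
    · rw [hSpow, e]; rfl
  have ho : orderOf h = P * L := by
    rw [orderOf_facts E' hh, hord, hSord, (coprime_pow hcop (e - 1)).lcm_eq_mul, mul_comm]
  haveI : Nontrivial (Fin (2 * s + 1) → F) := Module.nontrivial_of_finrank_pos (R := F) (by simp)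
  obtain ⟨r₀, hr₀⟩ : ∃ r₀, (((u : Module.End F (Fin (2 * s + 1) → F)) - 1) ^ (P - 1)) r₀ ≠ 0 := by
    by_contra hc'
    push Not at hc'
    rw [← hs, Nat.add_sub_cancel] at hc'
    exact hu1 (LinearMap.ext hc')
  refine ⟨h, E' (0, (r₀, 0)), hmem, Or.inr ⟨he, by rw [ho, mul_comm P]; exact Nat.mul_dvd_mul_right hTL _, ?_⟩⟩
  intro h0
  have hterm : ∀ i : ℕ, (endHom h ^ i) (E' (0, (r₀, 0))) = E' (0, (((u : Module.End F (Fin (2 * s + 1) → F)) ^ i) r₀, 0)) := fun i => by
    rw [← map_pow, endHom_apply, hh, hSpow, map_zero]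
    congr 3
    induction i with
    | zero => rfl
    | succ i ih => rw [pow_succ', pow_succ', LinearEquiv.mul_apply, Module.End.mul_apply, ih]; rfl
  rw [LinearMap.sum_apply, Finset.sum_congr rfl fun i _ => hterm i, ← map_sum] at h0
  have h1 := congrArg (fun x => x.2.1) (E'.injective (h0.trans (map_zero E').symm))
  simp only [Prod.snd_sum, Prod.fst_sum, Prod.snd_zero, Prod.fst_zero] at h1
  rw [← LinearMap.sum_apply, ho, geom_split] at h1
  have hup' : ((u : Module.End F (Fin (2 * s + 1) → F))) ^ P = 1 := by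
    haveI : CharP (Module.End F (Fin (2 * s + 1) → F)) p :=
      charP_of_injective_ringHom (f := algebraMap F (Module.End F (Fin (2 * s + 1) → F))) (RingHom.injective _) p
    have h' : ((u : Module.End F (Fin (2 * s + 1) → F)) - 1) ^ P = 0 := pow_eq_zero_of_le hs.le hu0
    rw [hP, sub_pow_char_pow_of_commute (p := p) (n := e - 1) (Commute.one_right _), one_pow, sub_eq_zero,
      ← hP] at h'
    exact h'
  rw [hup', Finset.sum_congr rfl fun k _ => one_pow k, Finset.sum_const, Finset.card_range, nsmul_one,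
    hP, geom_sum_pow_char (F := F) (e - 1), ← hP, Module.End.mul_apply] at h1
  rw [show ((L : Module.End F (Fin (2 * s + 1) → F))) r₀ = (L : F) • r₀ by
      rw [Nat.cast_smul_eq_nsmul]; exact Module.End.natCast_apply _ _, map_smul] at h1
  refine hr₀ ((smul_eq_zero.1 h1).resolve_left fun hL => ?_)
  have hd : p ∣ L := (CharP.cast_eq_zero_iff F p L).1 hL
  have := Nat.eq_one_of_dvd_coprimes (coprime_pow hcop 1) hd (by rw [pow_one])
  exact hp.ne_one this

theorem range_semidirect (hp2 : p ≠ 2) {a b : F}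
    (hab : ∀ z₁ z₂ : F, z₁ ^ 2 + a * z₁ * z₂ + b * z₂ ^ 2 = 0 → z₁ = 0 ∧ z₂ = 0) :
    Set.range (orderOf : Multiplicative (ι8 → F) ⋊[actHom (ClassicalForms.qMinus 3 F a b)]
      ↥(Cfsg.Omega F (⇑(ClassicalForms.qMinus 3 F a b))) → ℕ) = {n | InSpec p q n} := by
  haveI : Finite (Multiplicative (ι8 → F)) := Finite.of_equiv (ι8 → F) Multiplicative.ofAdd
  haveI : Finite (Multiplicative (ι8 → F) ⋊[actHom (ClassicalForms.qMinus 3 F a b)]
      ↥(Cfsg.Omega F (⇑(ClassicalForms.qMinus 3 F a b)))) :=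
    Finite.of_equiv _ SemidirectProduct.equivProd.symm
  refine range_orderOf_eq (fun x => ?_) fun e T hT => ?_
  · obtain ⟨v, h⟩ := x
    obtain ⟨hup, hup'⟩ := affine_upper hp2 (Classes.nondegenerate_polarBilin _ (ClassicalForms.nondeg_qMinus hab 3)) h.2
    rw [← ofAdd_toAdd v, orderOf_affine, ← orderOf_injective (Cfsg.Omega F _).subtype Subtype.val_injective h, Subgroup.subtype_apply]
    by_cases h0 : (∑ i ∈ Finset.range (orderOf h.1), endHom h.1 ^ i) (Multiplicative.toAdd v) = 0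
    · rw [h0, ofAdd_zero, orderOf_one, mul_one]
      exact hup
    · rw [orderOf_vec (p := p) h0, mul_comm]
      exact hup' _ h0
  · obtain ⟨h, v, hmem, hd⟩ := affine_lower hp2 hab hT
    refine ⟨⟨Multiplicative.ofAdd v, ⟨h, hmem⟩⟩, ?_⟩
    rw [orderOf_affine, Subgroup.orderOf_mk]
    rcases hd with ⟨rfl, rfl, hd⟩ | ⟨he, hd, hne⟩
    · rw [pow_zero, mul_one, map_zero, ofAdd_zero, orderOf_one, mul_one]
      exact hd
    · rw [orderOf_vec (p := p) hne, ← Nat.sub_add_cancel he, pow_succ, ← mul_assoc]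
      exact Nat.mul_dvd_mul_right hd p

end CfsgLib.CharDegrees.SpectrumO9
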