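import Cfsg.Agent.Lib.CharDegrees.SpectrumO9.Decomp

/-!
The factors of a semisimple isometry: labels, exponents and weights.
-/

set_option autoImplicit false
set_option linter.unusedSectionVars false

namespace CfsgLib.CharDegrees.SpectrumO9

open Polynomial Module UniqueFactorizationMonoid
open CfsgLib.SpectrumSp8 renaming star → rstar
open CfsgLib.SpectrumSp8 (associated_star monic_star natDegree_star irreducible_reverse dvd_reverse_of_dvd
  reverse_reverse' dvd_of_root_pow dvd_pow_card_sub_one)

universe u v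

/-- Kinds of orbits of factors: `(true, i)` a pair of degree `i + 1`, `(false, i)` self-reciprocal of degree `2 i + 2`. -/
abbrev Lab := Bool × Fin 4

/-- Half of the dimension of an orbit. -/
def wt (l : Lab) : ℕ := l.2.val + 1

/-- The exponent of an orbit. -/
def expo (q : ℕ) (l : Lab) : ℕ := if l.1 then q ^ wt l - 1 else q ^ wt l + 1

variable {F : Type u} [Field F] [Fintype F]

local notation "q" => Fintype.card F

/-- A self-reciprocal irreducible polynomial other than `X ± 1`. -/
theorem self_recip_odd {f : F[X]} (hm : f.Monic) (hf : Irreducible f) (h0 : f.coeff 0 ≠ 0)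
    (hne : f ≠ X - C 1) (hne' : f ≠ X - C (-1)) (hstar : rstar f = f) :
    ∃ i, 1 ≤ i ∧ f.natDegree = 2 * i ∧ f ∣ X ^ (q ^ i + 1) - 1 := by
  classical
  haveI : Fact (Irreducible f) := ⟨hf⟩
  haveI : Module.Finite F (AdjoinRoot f) := (AdjoinRoot.powerBasis hf.ne_zero).finite
  haveI : Finite (AdjoinRoot f) := Module.finite_of_finite F
  letI : Fintype (AdjoinRoot f) := Fintype.ofFinite _
  let K := AdjoinRoot f
  have hd : Module.finrank F K = f.natDegree := by
    rw [(AdjoinRoot.powerBasis hf.ne_zero).finrank, AdjoinRoot.powerBasis_dim]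
  let α : K := AdjoinRoot.root f
  have hα : α ≠ 0 := by
    intro h
    apply h0
    have h1 := AdjoinRoot.eval₂_root f
    change eval₂ _ α f = 0 at h1
    rw [h, eval₂_at_zero] at h1
    exact (map_eq_zero _).mp h1
  letI : Invertible α := invertibleOfNonzero hα
  have hroot : eval₂ (algebraMap F K) α⁻¹ f = 0 := by
    have h1 : f.reverse ∣ f := by
      have := (associated_star hf.ne_zero).symm.dvd
      rwa [hstar] at this
    refine eval₂_eq_zero_of_dvd_of_eval₂_eq_zero _ _ h1 ?_
    have h2 := eval₂_reverse_mul_pow (algebraMap F K) α f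
    rw [invOf_eq_inv] at h2
    have h3 : eval₂ (algebraMap F K) α f = 0 := AdjoinRoot.eval₂_root f
    rw [h3] at h2
    exact (mul_eq_zero.mp h2).resolve_right (pow_ne_zero _ hα)
  let ψ : K →ₐ[F] K := AdjoinRoot.liftAlgHom f (Algebra.ofId F K) α⁻¹ hroot
  have hψ : ψ α = α⁻¹ := AdjoinRoot.liftAlgHom_root f (Algebra.ofId F K) α⁻¹ hroot
  obtain ⟨⟨j, hj⟩, hjψ⟩ := (FiniteField.bijective_frobeniusAlgHom_pow F K).2 ψ
  have hpow : ∀ (n : ℕ) (x : K), (FiniteField.frobeniusAlgHom F K ^ n) x = x ^ q ^ n := by
    intro n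
    induction n with
    | zero => intro x; simp
    | succ n ih =>
      intro x
      rw [pow_succ', AlgHom.mul_apply, ih, FiniteField.coe_frobeniusAlgHom]
      show (x ^ q ^ n) ^ q = x ^ q ^ (n + 1)
      rw [← pow_mul, ← pow_succ]
  have hαj : α ^ q ^ j = α⁻¹ := by
    rw [← hψ, ← hjψ]
    exact (hpow j α).symm
  have hone : FiniteField.frobeniusAlgHom F K ^ (2 * j) = 1 := by
    apply AdjoinRoot.algHom_ext
    show (FiniteField.frobeniusAlgHom F K ^ (2 * j)) α = α
    rw [hpow, two_mul, pow_add, pow_mul, hαj, inv_pow, hαj, inv_inv]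
  have hdvd : Module.finrank F K ∣ 2 * j := by
    rw [← FiniteField.orderOf_frobeniusAlgHom F K]
    exact orderOf_dvd_of_pow_eq_one hone
  rcases Nat.eq_zero_or_pos j with rfl | hjpos
  · exfalso
    rw [pow_zero, pow_one] at hαj
    have h2 : α * α = 1 := by nth_rw 2 [hαj]; exact mul_inv_cancel₀ hα
    have key : ∀ c : F, α = algebraMap F K c → f = X - C c := fun c hc => by
      refine eq_of_monic_of_associated hm (monic_X_sub_C c) (hf.associated_of_dvd (irreducible_X_sub_C c) ?_)
      rw [← AdjoinRoot.mk_eq_zero, map_sub, AdjoinRoot.mk_X, AdjoinRoot.mk_C]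
      exact sub_eq_zero.2 hc
    rcases mul_self_eq_one_iff.1 h2 with h | h
    · exact hne (key 1 (by rw [h, map_one]))
    · exact hne' (key (-1) (by rw [h, map_neg, map_one]))
  · refine ⟨j, hjpos, ?_, ?_⟩
    · rw [← hd]
      obtain ⟨c, hc⟩ := hdvd
      have hlt : j < Module.finrank F K := hj
      rcases c with _ | _ | c
      · omega
      · omega
      · exfalso; nlinarith
    · refine dvd_of_root_pow hf ?_
      show α ^ (q ^ j + 1) = 1
      rw [pow_succ, hαj, inv_mul_cancel₀ hα]

theorem irreducible_star {f : F[X]} (hf : Irreducible f) (h0 : f.coeff 0 ≠ 0) : Irreducible (rstar f) :=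
  (associated_star hf.ne_zero).symm.irreducible (irreducible_reverse hf h0)

theorem star_star {f : F[X]} (hm : f.Monic) (hf : Irreducible f) (h0 : f.coeff 0 ≠ 0) : rstar (rstar f) = f := by
  have h1 := irreducible_star hf h0
  refine eq_of_monic_of_associated (monic_star h1.ne_zero) hm ?_
  refine (associated_star h1.ne_zero).trans ?_
  have h3 : Associated (rstar f).reverse f.reverse.reverse :=
    associated_of_dvd_dvd (dvd_reverse_of_dvd (associated_star hf.ne_zero).dvd)
      (dvd_reverse_of_dvd (associated_star hf.ne_zero).symm.dvd)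
  rwa [reverse_reverse' h0] at h3

theorem star_X_sub_C {c : F} (hc : c * c = 1) : rstar (X - C c) = X - C c := by
  have hc0 : c ≠ 0 := left_ne_zero_of_mul_eq_one hc
  refine eq_of_monic_of_associated (monic_star (X_sub_C_ne_zero c)) (monic_X_sub_C c)
    ((associated_star (X_sub_C_ne_zero c)).trans (Associated.symm ?_))
  refine (irreducible_X_sub_C c).associated_of_dvd
    (irreducible_reverse (irreducible_X_sub_C c) (by simpa using neg_ne_zero.2 hc0)) ?_
  rw [dvd_iff_isRoot]
  letI : Invertible c := invertibleOfRightInverse c c hc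
  have h := eval₂_reverse_mul_pow (RingHom.id F) c (X - C c)
  have hinv : ⅟c = c := rfl
  rw [hinv] at h
  simpa [hc0] using h

theorem dvd_pow_reverse {f : F[X]} {T : ℕ} (h : f ∣ X ^ T - 1) : f.reverse ∣ X ^ T - 1 := by
  rcases Nat.eq_zero_or_pos T with rfl | hT
  · simp
  have hrev : ((X : F[X]) ^ T - 1).reverse = -(X ^ T - 1) := by
    rw [reverse, natDegree_sub_eq_left_of_natDegree_lt (by simpa using hT), natDegree_X_pow, reflect_sub,
      ← one_mul (X ^ T : F[X]), ← C_1, reflect_C_mul_X_pow, reflect_C, revAt_le le_rfl, Nat.sub_self]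
    simp
  have := dvd_reverse_of_dvd h
  rwa [hrev, dvd_neg] at this

variable {V : Type v} [AddCommGroup V] [Module F V] [FiniteDimensional F V]
  {B : LinearMap.BilinForm F V} {S S' : Module.End F V} {L : ℕ}

open scoped Classical in
/-- The monic irreducible factors of the minimal polynomial. -/
noncomputable def fac (S : Module.End F V) : Finset F[X] := (normalizedFactors (minpoly F S)).toFinset

open scoped Classical in
/-- The factors other than `X - 1`. -/
noncomputable def moved (S : Module.End F V) : Finset F[X] := (fac S).erase (X - C 1)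

open scoped Classical in
/-- The label of a factor. -/
noncomputable def lab (f : F[X]) : Lab :=
  if f = X - C (-1) then (false, 0)
  else if rstar f = f then (false, ⟨min (f.natDegree / 2 - 1) 3, by omega⟩)
  else (true, ⟨min (f.natDegree - 1) 3, by omega⟩)

/-- The dimension of the moved part. -/
noncomputable def movedDim (S : Module.End F V) : ℕ := ∑ f ∈ moved S, finrank F (Z S f)

theorem Semi.mem_fac (h : Semi B S S' L) {f : F[X]} (hf : f ∈ fac S) :
    Irreducible f ∧ f.Monic ∧ f ∣ minpoly F S ∧ f.coeff 0 ≠ 0 ∧ 0 < finrank F (Z S f) := by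
  classical
  rw [fac, Multiset.mem_toFinset] at hf
  have h1 := irreducible_of_normalized_factor f hf
  have h2 : f.Monic := (normalize_eq_self_iff_monic h1.ne_zero).1 (normalize_normalized_factor f hf)
  have h3 := dvd_of_mem_normalizedFactors hf
  refine ⟨h1, h2, h3, fun h0 => ?_, ?_⟩
  · obtain ⟨c, hc⟩ := h3.trans h.minpoly_dvd
    have e := congrArg (fun P : F[X] => P.coeff 0) hc
    simp only [coeff_sub, coeff_X_pow, coeff_one_zero, mul_coeff_zero, h0, zero_mul] at e
    have hL : L ≠ 0 := fun e0 => h.coe (by rw [e0, Nat.cast_zero])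
    rw [if_neg (Ne.symm hL), zero_sub, neg_eq_zero] at e
    exact one_ne_zero e
  · rw [Nat.pos_iff_ne_zero]
    intro h0
    obtain ⟨c, hc⟩ := h3
    have hz : aeval S c = 0 := LinearMap.ext fun x => by
      have := congrArg (fun P => aeval S P x) hc
      simp only [minpoly.aeval, LinearMap.zero_apply, map_mul, Module.End.mul_apply] at this
      exact (Submodule.mem_bot F).1 ((Submodule.finrank_eq_zero.1 h0).le (mem_Z.2 this.symm))
    have hm := minpoly.ne_zero (Algebra.IsIntegral.isIntegral (R := F) S)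
    have hc0 : c ≠ 0 := fun e => hm (by rw [hc, e, mul_zero])
    have := natDegree_le_of_dvd (minpoly.dvd F S hz) hc0
    rw [hc, natDegree_mul h1.ne_zero hc0] at this
    have := h1.natDegree_pos
    omega

theorem Semi.fac_pairwise (h : Semi B S S' L) : ((fac S : Finset F[X]) : Set F[X]).Pairwise IsCoprime := by
  intro f hf g hg hne
  obtain ⟨hf1, hf2, -⟩ := h.mem_fac hf
  obtain ⟨hg1, hg2, -⟩ := h.mem_fac hg
  exact hf1.coprime_iff_not_dvd.2 fun hd => hne (eq_of_monic_of_associated hf2 hg2 (hf1.associated_of_dvd hg1 hd))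

theorem Semi.minpoly_eq_prod (h : Semi B S S' L) : minpoly F S = ∏ f ∈ fac S, f := by
  classical
  have hint := Algebra.IsIntegral.isIntegral (R := F) S
  have hnd := (squarefree_iff_nodup_normalizedFactors (minpoly.ne_zero hint)).1 h.squarefree
  rw [fac, Finset.prod_eq_multiset_prod, Multiset.toFinset_val, Multiset.dedup_eq_self.2 hnd, Multiset.map_id']
  rw [prod_normalizedFactors_eq (minpoly.ne_zero hint), (minpoly.monic hint).normalize_eq_self]

theorem Semi.mem_of_finrank (h : Semi B S S' L) {f : F[X]} (hm : f.Monic) (hf : Irreducible f)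
    (hpos : 0 < finrank F (Z S f)) : f ∈ fac S := by
  classical
  have hdvd : f ∣ minpoly F S := by
    by_contra hn
    obtain ⟨x, hx⟩ := Module.finrank_pos_iff_exists_ne_zero.1 hpos
    exact hx (Subtype.ext (eq_zero_of_coprime (hf.coprime_iff_not_dvd.2 hn) x.2 (by simp)))
  rw [fac, Multiset.mem_toFinset]
  obtain ⟨r, hr, hass⟩ := exists_mem_normalizedFactors_of_dvd (minpoly.ne_zero (Algebra.IsIntegral.isIntegral S)) hf hdvd
  rwa [eq_of_monic_of_associated hm ((normalize_eq_self_iff_monic (irreducible_of_normalized_factor r hr).ne_zero).1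
    (normalize_normalized_factor r hr)) hass]

theorem Semi.dim_sum (h : Semi B S S' L) : finrank F (Z S (X - C (1 : F))) + movedDim S = finrank F V := by
  classical
  have htop : Z S (minpoly F S) = ⊤ := by rw [Z, minpoly.aeval, LinearMap.ker_zero]
  have hsum := finrank_Z_prod S (fac S) h.fac_pairwise
  rw [← h.minpoly_eq_prod, htop, finrank_top] at hsum
  rw [hsum, movedDim, moved]
  by_cases hmem : (X - C (1 : F)) ∈ fac S
  · rw [← Finset.add_sum_erase _ _ hmem]
  · rw [Finset.erase_eq_of_notMem hmem]
    simp only [add_eq_right]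
    by_contra hne
    exact hmem (h.mem_of_finrank (monic_X_sub_C _) (irreducible_X_sub_C _) (Nat.pos_of_ne_zero hne))

/-- The data of a moved factor. -/
theorem Semi.moved_data (h : Semi B S S' L) (hdet : LinearMap.det S = 1) (hdim : movedDim S ≤ 8) {f : F[X]}
    (hf : f ∈ moved S) :
    (f ∣ X ^ expo q (lab f) - 1) ∧ rstar f ∈ moved S ∧ lab (rstar f) = lab f ∧
      ((f = X - C (-1) ∧ wt (lab f) = 1 ∧ Even (finrank F (Z S f))) ∨
        (f ≠ X - C (-1) ∧ rstar f = f ∧ f.natDegree = 2 * wt (lab f)) ∨
        (f ≠ X - C (-1) ∧ rstar f ≠ f ∧ f.natDegree = wt (lab f))) := by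
  classical
  obtain ⟨hne, hfac⟩ := Finset.mem_erase.1 hf
  obtain ⟨hirr, hmon, -, h0, hpos⟩ := h.mem_fac hfac
  by_cases hm1 : f = X - C (-1)
  · subst hm1
    have hl : lab (X - C (-1) : F[X]) = (false, 0) := by simp [lab]
    have hs : rstar (X - C (-1) : F[X]) = X - C (-1) := star_X_sub_C (by rw [neg_mul_neg, one_mul])
    refine ⟨?_, by rw [hs]; exact hf, by rw [hs], Or.inl ⟨rfl, by rw [hl]; rfl, h.even_neg hdet⟩⟩
    rw [hl, dvd_iff_isRoot]
    have hq : Even (q ^ wt ((false, 0) : Lab) + 1) := by
      refine Odd.add_one (Odd.pow ?_)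
      refine Nat.odd_iff.2 (FiniteField.odd_card_of_char_ne_two fun h2 => h.two (by
        have h' := ringChar.Nat.cast_ringChar (R := F)
        rw [h2] at h'
        exact_mod_cast h'))
    simp [expo, hq.neg_one_pow]
  have hlow : f.natDegree ≤ finrank F (Z S f) := by
    obtain ⟨y, hy⟩ := Module.finrank_pos_iff_exists_ne_zero.1 hpos
    have := mul_natDegree_le (N := (0 : Module.End F V)) (Commute.zero_left S) hirr (j := 0) y.2
      (by simpa using hy) (K := 1) (fun x _ => by simp)
    simpa using this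
  have hsmem : rstar f ∈ fac S := h.mem_of_finrank (monic_star hirr.ne_zero) (irreducible_star hirr h0)
    (by rw [h.finrank_star hirr.ne_zero]; exact hpos)
  have hback : ∀ c : F, c * c = 1 → rstar f = X - C c → f = X - C c := fun c hc e => by
    rw [← star_star hmon hirr h0, e, star_X_sub_C hc]
  have hs1 : rstar f ∈ moved S := Finset.mem_erase.2 ⟨fun e => hne (hback 1 (one_mul 1) e), hsmem⟩
  have hsm1 : rstar f ≠ X - C (-1) := fun e => hm1 (hback (-1) (by rw [neg_mul_neg, one_mul]) e)
  by_cases hs : rstar f = f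
  · obtain ⟨i, hi, hdeg, hdvd⟩ := self_recip_odd hmon hirr h0 hne hm1 hs
    have h8 := Finset.single_le_sum (f := fun g => finrank F (Z S g)) (fun g _ => Nat.zero_le _) hf
    have hle : finrank F (Z S f) ≤ 8 := le_trans h8 hdim
    have hl : lab f = (false, ⟨min (f.natDegree / 2 - 1) 3, by omega⟩) := by
      rw [lab, if_neg hm1, if_pos hs]
    have hw : wt (lab f) = i := by
      rw [hl]
      show min (f.natDegree / 2 - 1) 3 + 1 = i
      omega
    refine ⟨?_, hs1, by rw [hs], Or.inr (Or.inl ⟨hm1, hs, by rw [hw, hdeg]⟩)⟩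
    rw [expo, hl, if_neg Bool.false_ne_true, ← hl, hw]
    exact hdvd
  · have hss := star_star hmon hirr h0
    have h8 := Finset.sum_le_sum_of_subset (f := fun g => finrank F (Z S g))
      (show ({f, rstar f} : Finset F[X]) ⊆ moved S from
        Finset.insert_subset hf (Finset.singleton_subset_iff.2 hs1))
    rw [Finset.sum_pair (Ne.symm hs), h.finrank_star hirr.ne_zero] at h8
    have h9 : finrank F (Z S f) + finrank F (Z S f) ≤ 8 := le_trans h8 hdim
    have hl : lab f = (true, ⟨min (f.natDegree - 1) 3, by omega⟩) := by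
      rw [lab, if_neg hm1, if_neg hs]
    have hw : wt (lab f) = f.natDegree := by
      rw [hl]
      show min (f.natDegree - 1) 3 + 1 = f.natDegree
      have := hirr.natDegree_pos
      omega
    refine ⟨?_, hs1, ?_, Or.inr (Or.inr ⟨hm1, hs, hw.symm⟩)⟩
    · rw [expo, hl, if_pos rfl, ← hl, hw]
      exact dvd_pow_card_sub_one hirr h0
    · rw [hl, lab, if_neg hsm1, if_neg (by rw [hss]; exact Ne.symm hs)]
      exact Prod.ext rfl (Fin.ext (by simp only; rw [natDegree_star h0]))

end CfsgLib.CharDegrees.SpectrumO9
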