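import Cfsg.Agent.Lib.CharDegrees.SpectrumO9.Sums
import Cfsg.Agent.Lib.CharDegrees.SpectrumO9.Spin
import Mathlib.FieldTheory.Finite.Extension

/-!
Tori of even-dimensional orthogonal spaces over a finite field of odd order and regular unipotent isometries of
odd-dimensional ones.
-/

set_option autoImplicit false
set_option linter.unusedSectionVars false

namespace CfsgLib.CharDegrees.SpectrumO9

open QuadraticMap Module CfsgLib.OrthGen

universe u v w

variable {F : Type u} [Field F] [Fintype F]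

local notation "q" => Fintype.card F

theorem conj_pow {V : Type v} [AddCommGroup V] [Module F V] {W : Type w} [AddCommGroup W] [Module F W]
    (E : V ≃ₗ[F] W) (T : V ≃ₗ[F] V) (j : ℕ) (y : V) :
    (((E.symm.trans T).trans E) ^ j) (E y) = E ((T ^ j) y) := by
  induction j with
  | zero => rfl
  | succ j ih =>
    rw [pow_succ', pow_succ', LinearEquiv.mul_apply, LinearEquiv.mul_apply, ih]
    show E (T (E.symm (E _))) = _
    rw [E.symm_apply_apply]

theorem nondeg_congr {V : Type v} [AddCommGroup V] [Module F V] {W : Type w} [AddCommGroup W] [Module F W]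
    {Q : QuadraticForm F V} {Q' : QuadraticForm F W} (E : V ≃ₗ[F] W) (h : ∀ x, Q x = Q' (E x))
    (hQ : (polarBilin Q).Nondegenerate) : (polarBilin Q').Nondegenerate := by
  refine Classes.nondegenerate_polarBilin Q' fun x hx => ?_
  refine E.symm.injective ((hQ.1 (E.symm x) fun y => ?_).trans E.symm.map_zero.symm)
  have := hx (E y)
  simp only [polar, polarBilin_apply_apply, h, map_add, E.apply_symm_apply] at this ⊢
  exact this

theorem nondeg_prod {V : Type v} [AddCommGroup V] [Module F V] {W : Type w} [AddCommGroup W] [Module F W]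
    {Q : QuadraticForm F V} {Q' : QuadraticForm F W} (hQ : (polarBilin Q).Nondegenerate)
    (hQ' : (polarBilin Q').Nondegenerate) : (polarBilin (Q.prod Q')).Nondegenerate := by
  have key : ∀ x y : V × W, polar (Q.prod Q') x y = polar Q x.1 y.1 + polar Q' x.2 y.2 := fun x y => by
    simp only [polar, QuadraticMap.prod_apply, Prod.fst_add, Prod.snd_add]
    ring
  refine Classes.nondegenerate_polarBilin _ fun x hx => Prod.ext (hQ.1 _ fun a => ?_) (hQ'.1 _ fun b => ?_)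
  · have := hx (a, 0)
    rw [key] at this
    simpa using this
  · have := hx (0, b)
    rw [key] at this
    simpa using this

theorem nondeg_smul {V : Type v} [AddCommGroup V] [Module F V] {Q : QuadraticForm F V}
    (hQ : (polarBilin Q).Nondegenerate) {c : F} (hc : c ≠ 0) : (polarBilin (c • Q)).Nondegenerate := by
  refine Classes.nondegenerate_polarBilin _ fun x hx => hQ.1 x fun y => ?_
  have := hx y
  simp only [polar, QuadraticMap.smul_apply, smul_eq_mul] at this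
  simp only [polarBilin_apply_apply, polar]
  refine (mul_eq_zero.1 ?_).resolve_left hc
  linear_combination this

theorem nondeg_sq (h2 : (2 : F) ≠ 0) : (polarBilin (QuadraticMap.sq : QuadraticForm F F)).Nondegenerate := by
  refine Classes.nondegenerate_polarBilin _ fun x hx => ?_
  have := hx 1
  simp [polar] at this
  exact (mul_eq_zero.1 (show (2 : F) * x = 0 by linear_combination this)).resolve_left h2

theorem nondeg_smul_sq (h2 : (2 : F) ≠ 0) {c : F} (hc : c ≠ 0) :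
    (polarBilin (c • (QuadraticMap.sq : QuadraticForm F F))).Nondegenerate :=
  nondeg_smul (nondeg_sq h2) hc

theorem exists_units_orderOf' {K : Type v} [Field K] [Fintype K] {d : ℕ} (hd : d ∣ Fintype.card K - 1) :
    ∃ z : Kˣ, orderOf z = d := by
  classical
  obtain ⟨g, hg⟩ := IsCyclic.exists_generator (α := Kˣ)
  have h : orderOf g = Fintype.card K - 1 := by
    rw [orderOf_eq_card_of_forall_mem_zpowers hg, Nat.card_eq_fintype_card, Fintype.card_units]
  exact ⟨g ^ (orderOf g / d), orderOf_pow_orderOf_div (orderOf_pos g).ne' (h ▸ hd)⟩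

/-- A torus: an isometry of period `M` moving every non-zero vector around an orbit of that size. -/
def Torus (F : Type u) [Field F] [Fintype F] (k : ℕ) (ε : ℤ) (M : ℕ) : Prop :=
  ∃ (Q : QuadraticForm F (Fin (2 * k) → F)) (T : (Fin (2 * k) → F) ≃ₗ[F] (Fin (2 * k) → F)),
    (polarBilin Q).Nondegenerate ∧ HasSign Q ε k ∧ (∀ y, Q (T y) = Q y) ∧
      LinearMap.det (T : (Fin (2 * k) → F) →ₗ[F] _) = 1 ∧ T ^ M = 1 ∧
      ∀ (y : Fin (2 * k) → F) (j : ℕ), y ≠ 0 → (T ^ j) y = y → M ∣ j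

theorem Torus.of_space {U : Type v} [AddCommGroup U] [Module F U] [Fintype U] {k M : ℕ} {ε : ℤ}
    (hk : finrank F U = 2 * k) (Q : QuadraticForm F U) (T : U ≃ₗ[F] U) (hQ : (polarBilin Q).Nondegenerate)
    (hs : HasSign Q ε k) (hi : ∀ y, Q (T y) = Q y) (hd : LinearMap.det (T : U →ₗ[F] U) = 1) (hper : T ^ M = 1)
    (hfree : ∀ (y : U) (j : ℕ), y ≠ 0 → (T ^ j) y = y → M ∣ j) : Torus F k ε M := by
  classical
  haveI : Module.Finite F U := Module.Finite.of_finite
  let E : U ≃ₗ[F] (Fin (2 * k) → F) := LinearEquiv.ofFinrankEq _ _ (by rw [hk, finrank_fin_fun])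
  let Q' : QuadraticForm F (Fin (2 * k) → F) := Q.comp E.symm.toLinearMap
  have hE : ∀ x, Q x = Q' (E x) := fun x => by simp [Q']
  refine ⟨Q', (E.symm.trans T).trans E, nondeg_congr E hE hQ, hs.congr E hE, fun y => ?_, ?_, ?_, fun y j hy hj => ?_⟩
  · show Q (E.symm (E (T (E.symm y)))) = Q (E.symm y)
    rw [E.symm_apply_apply, hi]
  · rw [← hd, ← LinearMap.det_conj (T : U →ₗ[F] U) E]
    rfl
  · refine LinearEquiv.ext fun y => ?_
    obtain ⟨x, rfl⟩ := E.surjective y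
    rw [conj_pow, hper]
    rfl
  · obtain ⟨x, rfl⟩ := E.surjective y
    rw [conj_pow] at hj
    exact hfree x j (fun e => hy (by rw [e, map_zero])) (E.injective hj)

theorem pow_mul_apply {K : Type v} [Field K] [Algebra F K] (z : Kˣ) (g : K ≃ₗ[F] K)
    (hg : ∀ x, g x = (z : K) * x) (j : ℕ) (x : K) : (g ^ j) x = ((z ^ j : Kˣ) : K) * x := by
  induction j with
  | zero => simp
  | succ j ih => rw [pow_succ', LinearEquiv.mul_apply, ih, hg, pow_succ', Units.val_mul, mul_assoc]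

/-- The split torus. -/
theorem torus_plus (h2 : (2 : F) ≠ 0) {k : ℕ} (hk : 1 ≤ k) : Torus F k 1 (q ^ k - 1) := by
  classical
  obtain ⟨p, hp⟩ := CharP.exists F
  haveI := Fact.mk (CharP.char_is_prime F p)
  haveI : NeZero k := ⟨by omega⟩
  let K := FiniteField.Extension F p k
  letI : Fintype K := Fintype.ofFinite K
  have hK : Fintype.card K = q ^ k := by
    rw [Fintype.card_eq_nat_card, FiniteField.natCard_extension, Nat.card_eq_fintype_card]
  have hfr : finrank F K = k := FiniteField.finrank_extension F p k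
  obtain ⟨z, hz⟩ := exists_units_orderOf' (K := K) dvd_rfl
  let m : Kˣ → (K ≃ₗ[F] K) := fun z => (LinearEquiv.smulOfUnit (R := K) (M := K) z).restrictScalars F
  have hm : ∀ z x, m z x = (z : K) * x := fun _ _ => rfl
  let Q : QuadraticForm F (K × K) :=
    (Algebra.trace F K).compQuadraticMap (QuadraticMap.linMulLin (LinearMap.fst F K K) (LinearMap.snd F K K))
  have hQa : ∀ x, Q x = Algebra.trace F K (x.1 * x.2) := fun x => rfl
  have hpolar : ∀ x y, polar Q x y = Algebra.trace F K (x.1 * y.2 + y.1 * x.2) := fun x y => by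
    simp only [polar, hQa, Prod.fst_add, Prod.snd_add, ← map_sub]
    congr 1
    ring
  obtain ⟨w, hw⟩ := Algebra.trace_surjective F K 1
  have hmul : ∀ x : K, x ≠ 0 → x * (w / x) = w := fun x hx => mul_div_cancel₀ w hx
  refine Torus.of_space (U := K × K) (by rw [finrank_prod, hfr]; omega) Q ((m z).prodCongr (m z⁻¹))
    (Classes.nondegenerate_polarBilin Q fun x hx => ?_) (fun ψ hψ => ?_) (fun y => ?_) ?_ ?_ fun y j hy hj => ?_
  · by_contra h
    by_cases h1 : x.1 = 0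
    · have h2' : x.2 ≠ 0 := fun h2' => h (Prod.ext h1 h2')
      have := hx (w / x.2, 0)
      rw [hpolar, mul_zero, zero_add, mul_comm, hmul _ h2', hw] at this
      exact one_ne_zero this
    · have := hx (0, w / x.1)
      rw [hpolar, zero_mul, add_zero, hmul _ h1, hw] at this
      exact one_ne_zero this
  · let χ : AddChar K ℂ := ψ.compAddMonoidHom (Algebra.trace F K).toAddMonoidHom
    have hχ : χ ≠ 1 := fun e => hψ (AddChar.ext _ _ fun a => by
      obtain ⟨b, rfl⟩ := Algebra.trace_surjective F K a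
      exact DFunLike.congr_fun e b)
    rw [Int.cast_one, one_mul, gsum, ← Nat.cast_pow, ← hK, ← sum_hyp hχ (one_ne_zero (α := K))]
    refine Finset.sum_congr rfl fun x _ => ?_
    rw [hQa, one_mul]
    rfl
  · rw [hQa, hQa, LinearEquiv.prodCongr_apply, hm, hm]
    congr 1
    rw [mul_mul_mul_comm, Units.mul_inv, one_mul]
  · have e : ((m z).prodCongr (m z⁻¹) : K × K →ₗ[F] K × K) =
        (Algebra.lmul F K (z : K)).prodMap (Algebra.lmul F K ((z⁻¹ : Kˣ) : K)) := LinearMap.ext fun x => rfl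
    rw [e, LinearMap.det_prodMap, ← Algebra.norm_apply, ← Algebra.norm_apply, ← map_mul, Units.mul_inv, map_one]
  · rw [← hK, ← hz]
    refine LinearEquiv.ext fun x => ?_
    have : ∀ j, (((m z).prodCongr (m z⁻¹)) ^ j) x = ((m z ^ j) x.1, (m z⁻¹ ^ j) x.2) := by
      intro j
      induction j with
      | zero => rfl
      | succ j ih => rw [pow_succ', LinearEquiv.mul_apply, ih, pow_succ', pow_succ']; rfl
    rw [this, pow_mul_apply z _ (hm z), pow_mul_apply z⁻¹ _ (hm _), inv_pow, pow_orderOf_eq_one, inv_one]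
    simp
  · have : ∀ j, (((m z).prodCongr (m z⁻¹)) ^ j) y = ((m z ^ j) y.1, (m z⁻¹ ^ j) y.2) := by
      intro j
      induction j with
      | zero => rfl
      | succ j ih => rw [pow_succ', LinearEquiv.mul_apply, ih, pow_succ', pow_succ']; rfl
    rw [this, pow_mul_apply z _ (hm z), pow_mul_apply z⁻¹ _ (hm _), Prod.ext_iff] at hj
    rw [← hK, ← hz]
    refine orderOf_dvd_of_pow_eq_one ?_
    by_cases h1 : y.1 = 0
    · have h2' : y.2 ≠ 0 := fun e => hy (Prod.ext h1 e)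
      have := (mul_eq_right₀ h2').1 hj.2
      rw [Units.val_eq_one, inv_pow, inv_eq_one] at this
      exact this
    · exact Units.val_eq_one.1 ((mul_eq_right₀ h1).1 hj.1)

/-- The non-split torus. -/
theorem torus_minus (h2 : (2 : F) ≠ 0) {k : ℕ} (hk : 1 ≤ k) : Torus F k (-1) (q ^ k + 1) := by
  classical
  obtain ⟨p, hp⟩ := CharP.exists F
  haveI := Fact.mk (CharP.char_is_prime F p)
  haveI : NeZero (2 * k) := ⟨by omega⟩
  let K := FiniteField.Extension F p (2 * k)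
  letI : Fintype K := Fintype.ofFinite K
  have hK : Fintype.card K = q ^ k * q ^ k := by
    rw [Fintype.card_eq_nat_card, FiniteField.natCard_extension, Nat.card_eq_fintype_card, ← pow_add, two_mul]
  have hfr : finrank F K = 2 * k := FiniteField.finrank_extension F p (2 * k)
  let σ : K →ₐ[F] K := FiniteField.frobeniusAlgHom F K ^ k
  have hσ : ∀ x, σ x = x ^ q ^ k := by
    suffices ∀ n x, (FiniteField.frobeniusAlgHom F K ^ n) x = x ^ q ^ n from this k
    intro n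
    induction n with
    | zero => intro x; simp
    | succ n ih =>
      intro x
      rw [pow_succ', AlgHom.mul_apply, ih, FiniteField.coe_frobeniusAlgHom]
      show (x ^ q ^ n) ^ q = x ^ q ^ (n + 1)
      rw [← pow_mul, ← pow_succ]
  have hσσ : ∀ x, σ (σ x) = x := fun x => by rw [hσ, hσ, ← pow_mul, ← hK, FiniteField.pow_card]
  let σe : K ≃ₐ[F] K := AlgEquiv.ofBijective σ
    ⟨fun a b e => by rw [← hσσ a, e, hσσ], fun b => ⟨σ b, hσσ b⟩⟩
  let Q : QuadraticForm F K :=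
    (Algebra.trace F K).compQuadraticMap (QuadraticMap.linMulLin LinearMap.id σ.toLinearMap)
  have hQa : ∀ x, Q x = Algebra.trace F K (x * σ x) := fun x => rfl
  have hpolar : ∀ x y, polar Q x y = 2 * Algebra.trace F K (σ x * y) := fun x y => by
    have e := Algebra.trace_eq_of_algEquiv σe (x * σ y)
    rw [show σe (x * σ y) = σ x * y by show σ (x * σ y) = _; rw [map_mul, hσσ]] at e
    simp only [polar, hQa, map_add, ← map_sub]
    rw [show (x + y) * (σ x + σ y) - x * σ x - y * σ y = x * σ y + σ x * y by ring, map_add, ← e]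
    exact (two_mul _).symm
  have hQ : (polarBilin Q).Nondegenerate := Classes.nondegenerate_polarBilin Q fun x hx => by
    by_contra h
    have hx' : σ x ≠ 0 := fun e => h (by rw [← hσσ x, e, map_zero])
    obtain ⟨w, hw⟩ := Algebra.trace_surjective F K 1
    have := hx (w / σ x)
    rw [hpolar, mul_div_cancel₀ _ hx', hw, mul_one] at this
    exact h2 this
  obtain ⟨z, hz⟩ := exists_units_orderOf' (K := K) dvd_rfl
  have hq1 : 1 ≤ q ^ k := Nat.one_le_pow _ _ Fintype.card_pos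
  set l := z ^ (q ^ k - 1) with hl
  have hlord : orderOf l = q ^ k + 1 := by
    have hdiv : q ^ k - 1 ∣ orderOf z := by
      rw [hz, hK]
      refine Dvd.intro_left (q ^ k + 1) ?_
      rw [← Nat.sq_sub_sq, one_pow, pow_two]
    rw [hl, orderOf_pow, Nat.gcd_eq_right hdiv, hz, hK]
    have hpos : 0 < q ^ k - 1 := by
      have : 1 < q ^ k := Nat.one_lt_pow (by omega) Fintype.one_lt_card
      omega
    rw [show q ^ k * q ^ k - 1 = (q ^ k + 1) * (q ^ k - 1) by
      rw [← Nat.sq_sub_sq, one_pow, pow_two], Nat.mul_div_cancel _ hpos]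
  let T : K ≃ₗ[F] K := (LinearEquiv.smulOfUnit (R := K) (M := K) l).restrictScalars F
  have hT : ∀ x, T x = (l : K) * x := fun _ => rfl
  have hnorm : (l : K) * σ (l : K) = 1 := by
    rw [hσ, ← pow_succ', ← hlord, ← Units.val_pow_eq_pow_val, pow_orderOf_eq_one, Units.val_one]
  have hTQ : ∀ x, Q (T x) = Q x := fun x => by
    rw [hQa, hQa, hT]
    congr 1
    rw [map_mul, mul_mul_mul_comm, hnorm, one_mul]
  have hfree : ∀ (y : K) (j : ℕ), y ≠ 0 → (T ^ j) y = y → q ^ k + 1 ∣ j := fun y j hy hj => by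
    rw [pow_mul_apply l T hT] at hj
    rw [← hlord]
    exact orderOf_dvd_of_pow_eq_one (Units.val_eq_one.1 ((mul_eq_right₀ hy).1 hj))
  have hper : T ^ (q ^ k + 1) = 1 := LinearEquiv.ext fun x => by
    rw [pow_mul_apply l T hT, ← hlord, pow_orderOf_eq_one, Units.val_one, one_mul]
    rfl
  refine Torus.of_space hfr Q T hQ ?_ hTQ ?_ hper hfree
  · obtain ⟨ε, hε, hs⟩ := exists_sign h2 hk hfr Q hQ
    rcases hε with rfl | rfl
    swap
    · exact hs
    exfalso
    have hc := card_norm_one hfr hs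
    set N := Nat.card {x : K // Q x = 1}
    have hdvd : q ^ k + 1 ∣ N := by
      let τ : Equiv.Perm {x : K // Q x = 1} := (T.toEquiv.subtypeEquiv fun y => by
        show _ ↔ Q (T y) = 1
        rw [hTQ])
      have hτ : ∀ (j : ℕ) y, ((τ ^ j) y).1 = (T ^ j) y.1 := by
        intro j
        induction j with
        | zero => intro y; rfl
        | succ j ih => intro y; rw [pow_succ', pow_succ', Equiv.Perm.mul_apply, LinearEquiv.mul_apply, ← ih]; rfl
      refine dvd_card_of_free τ (Equiv.ext fun y => Subtype.ext ?_) fun y j h => hfree y.1 j (fun e => ?_) ?_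
      · rw [hτ, hper]; rfl
      · have := y.2
        rw [e, map_zero] at this
        exact zero_ne_one this
      · rw [← hτ, h]
    have hN : (q : ℤ) * N = ((q : ℤ) ^ k) * ((q : ℤ) ^ k - 1) := by
      rw [hc, two_mul, pow_add]; ring
    have hd : ((q : ℤ) ^ k + 1) ∣ (q : ℤ) ^ k * ((q : ℤ) ^ k - 1) := by
      rw [← hN]; exact Dvd.dvd.mul_left (by exact_mod_cast hdvd) _
    have hcop : IsCoprime ((q : ℤ) ^ k + 1) ((q : ℤ) ^ k) := ⟨1, -1, by ring⟩
    have hle := Int.le_of_dvd (by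
      have : (1 : ℤ) < (q : ℤ) ^ k := by exact_mod_cast Nat.one_lt_pow (by omega) Fintype.one_lt_card
      omega) (hcop.dvd_of_dvd_mul_left hd)
    omega
  · rw [show (T : K →ₗ[F] K) = Algebra.lmul F K (l : K) from LinearMap.ext fun x => rfl, ← Algebra.norm_apply,
      hl, Units.val_pow_eq_pow_val, map_pow]
    have h0 : Algebra.norm F (z : K) ≠ 0 := Algebra.norm_ne_zero_iff.2 z.ne_zero
    obtain ⟨c, hc⟩ : q - 1 ∣ q ^ k - 1 := by simpa using Nat.sub_dvd_pow_sub_pow q 1 k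
    rw [hc, pow_mul, FiniteField.pow_card_sub_one_eq_one _ h0, one_pow]

/-- The isometries extending `T` by the identity have trivial spinor character. -/
def Good {U : Type v} [AddCommGroup U] [Module F U] (Q₁ : QuadraticForm F U) (T : U ≃ₗ[F] U) : Prop :=
  ∀ ⦃ι : Type⦄ [Fintype ι] [DecidableEq ι] (Q : QuadraticForm F (ι → F)) (h : Cfsg.isometryGroup F (⇑Q))
    ⦃R : Type u⦄ [AddCommGroup R] [Module F R] (E : (U × R) ≃ₗ[F] (ι → F)) (c : F) (Q₂ : QuadraticForm F R),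
    c ≠ 0 → (∀ y r, Q (E (y, r)) = c * Q₁ y + Q₂ r) → (∀ y r, act Q h (E (y, r)) = E (T y, r)) →
      spinSign Q 1 h = 1

/-- An element of order `L`, prime to `q`, of the kernel of the spinor character in dimension `2 w`. -/
def Half (F : Type u) [Field F] [Fintype F] (w : ℕ) (ε : ℤ) (L : ℕ) : Prop :=
  ∃ (Q : QuadraticForm F (Fin (2 * w) → F)) (T : (Fin (2 * w) → F) ≃ₗ[F] (Fin (2 * w) → F)),
    (polarBilin Q).Nondegenerate ∧ HasSign Q ε w ∧ (∀ y, Q (T y) = Q y) ∧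
      LinearMap.det (T : (Fin (2 * w) → F) →ₗ[F] _) = 1 ∧ orderOf T = L ∧ L.Coprime (Fintype.card F) ∧ Good Q T

/-- Extending by the identity. -/
theorem exists_ext {ι : Type} [Fintype ι] [DecidableEq ι] {Q : QuadraticForm F (ι → F)} {U : Type v}
    [AddCommGroup U] [Module F U] {R : Type w} [AddCommGroup R] [Module F R] (E : (U × R) ≃ₗ[F] (ι → F))
    (Q₁ : U → F) (Q₂ : R → F) (hQ : ∀ y r, Q (E (y, r)) = Q₁ y + Q₂ r) (T : U ≃ₗ[F] U) (S : R ≃ₗ[F] R)
    (hT : ∀ y, Q₁ (T y) = Q₁ y) (hS : ∀ r, Q₂ (S r) = Q₂ r) :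
    ∃ h : Cfsg.isometryGroup F (⇑Q), ∀ y r, act Q h (E (y, r)) = E (T y, S r) := by
  let G : (ι → F) ≃ₗ[F] (ι → F) := (E.symm.trans (T.prodCongr S)).trans E
  have hG : ∀ x, Q (G x) = Q x := fun x => by
    obtain ⟨⟨y, r⟩, rfl⟩ := E.surjective x
    show Q (E (T.prodCongr S (E.symm (E (y, r))))) = _
    rw [E.symm_apply_apply, LinearEquiv.prodCongr_apply, hQ, hQ, hT, hS]
  refine ⟨mkIso Q (LinearMap.toMatrix' (G : (ι → F) →ₗ[F] ι → F))
    (LinearMap.toMatrix' (G.symm : (ι → F) →ₗ[F] ι → F)) ?_ ?_ (fun x => by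
      rw [LinearMap.toMatrix'_mulVec]; exact hG x), fun y r => ?_⟩
  · rw [← LinearMap.toMatrix'_comp]; simp
  · rw [← LinearMap.toMatrix'_comp]; simp
  · refine (LinearMap.toMatrix'_mulVec _ (E (y, r))).trans ?_
    show E (T.prodCongr S (E.symm (E (y, r)))) = _
    rw [E.symm_apply_apply]
    rfl

theorem orderOf_eq_of_free {U : Type v} [AddCommGroup U] [Module F U] [Nontrivial U] {T : U ≃ₗ[F] U} {M : ℕ}
    (hper : T ^ M = 1) (hfree : ∀ (y : U) (j : ℕ), y ≠ 0 → (T ^ j) y = y → M ∣ j) : orderOf T = M := by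
  obtain ⟨y, hy⟩ := exists_ne (0 : U)
  refine Nat.dvd_antisymm (orderOf_dvd_of_pow_eq_one hper) (hfree y _ hy ?_)
  rw [pow_orderOf_eq_one]
  rfl

theorem coprime_q {k : ℕ} (hk : 1 ≤ k) {M : ℕ} (hM : M = q ^ k + 1 ∨ M = q ^ k - 1) : M.Coprime q := by
  have h1 : 1 ≤ q ^ k := Nat.one_le_pow _ _ Fintype.card_pos
  refine Nat.Coprime.coprime_dvd_right (dvd_pow_self q (by omega : k ≠ 0)) ?_
  rcases hM with rfl | rfl
  · simp
  · rw [Nat.coprime_comm]; exact (Nat.coprime_self_sub_right h1).2 (Nat.coprime_one_right _)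

theorem torus_count {k M : ℕ} {ε : ℤ} {U : Type v} [AddCommGroup U] [Module F U] [Fintype U] (hk : 1 ≤ k)
    (hU : finrank F U = 2 * k) (hM : (M : ℤ) = (q : ℤ) ^ k - ε) {Q : QuadraticForm F U} (hs : HasSign Q ε k)
    {c : F} (hc : c ≠ 0) : Nat.card {y : U // c * Q y = 1} = M * q ^ (k - 1) := by
  have hs' : HasSign (c • Q) ε k := fun ψ hψ => by
    rw [← hs _ (mulShift_ne_one hψ hc)]
    exact Finset.sum_congr rfl fun x _ => by simp [AddChar.mulShift_apply]
  have h := card_norm_one hU hs'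
  have hq : (q : ℤ) ≠ 0 := by exact_mod_cast Fintype.card_ne_zero
  have e : (Nat.card {y : U // (c • Q) y = 1} : ℤ) = (M : ℤ) * (q : ℤ) ^ (k - 1) := mul_left_cancel₀ hq (by
    rw [h, hM, mul_left_comm, ← pow_succ', show k - 1 + 1 = k by omega, two_mul, pow_add]
    ring)
  have e' : {y : U // (c • Q) y = 1} ≃ {y : U // c * Q y = 1} :=
    Equiv.subtypeEquivRight fun y => by simp
  rw [← Nat.card_congr e']
  exact_mod_cast e

/-- The square of a torus. -/
theorem Torus.half {k M : ℕ} {ε : ℤ} (hk : 1 ≤ k) (hM : Even M) (hMq : M.Coprime q) (hM0 : 0 < M)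
    (h : Torus F k ε M) : Half F k ε (M / 2) := by
  obtain ⟨Q₁, T, hQ, hs, hi, hd, hper, hfree⟩ := h
  haveI : Nontrivial (Fin (2 * k) → F) := Module.nontrivial_of_finrank_pos (R := F) (by simp; omega)
  refine ⟨Q₁, T ^ 2, hQ, hs, fun y => ?_, ?_, ?_, hMq.coprime_dvd_left (Nat.div_dvd_of_dvd hM.two_dvd), ?_⟩
  · rw [pow_two, LinearEquiv.mul_apply, hi, hi]
  · rw [← LinearEquiv.coe_det, map_pow, Units.val_pow_eq_pow_val, LinearEquiv.coe_det, hd, one_pow]
  · rw [orderOf_pow' _ two_ne_zero, orderOf_eq_of_free hper hfree, Nat.gcd_eq_right hM.two_dvd]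
  intro ι _ _ Q h R _ _ E c Q₂ hc hQE hh
  obtain ⟨h₀, h₀E⟩ := exists_ext E (fun y => c * Q₁ y) Q₂ hQE T (LinearEquiv.refl F R)
    (fun y => by rw [hi]) (fun r => rfl)
  have : h = h₀ * h₀ := ext_act fun x => by
    obtain ⟨⟨y, r⟩, rfl⟩ := E.surjective x
    rw [hh, act_mul, h₀E, h₀E, pow_two]
    rfl
  rw [this, map_mul, Int.units_mul_self]

/-- The product of two tori. -/
theorem Torus.pair (h2 : (2 : F) ≠ 0) {k₁ k₂ M₁ M₂ : ℕ} {ε₁ ε₂ : ℤ} (hk₁ : 1 ≤ k₁) (hk₂ : 1 ≤ k₂)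
    (hM₁ : (M₁ : ℤ) = (q : ℤ) ^ k₁ - ε₁) (hM₂ : (M₂ : ℤ) = (q : ℤ) ^ k₂ - ε₂) (hq₁ : M₁.Coprime q)
    (hq₂ : M₂.Coprime q) (he₁ : Even M₁) (he₂ : Even M₂) (hp₁ : 0 < M₁) (hp₂ : 0 < M₂)
    (h₁ : Torus F k₁ ε₁ M₁) (h₂ : Torus F k₂ ε₂ M₂) :
    Half F (k₁ + k₂) (ε₁ * ε₂) (Nat.lcm M₁ M₂) := by
  classical
  obtain ⟨Q₁, T₁, hQ₁, hs₁, hi₁, hd₁, hper₁, hfree₁⟩ := h₁
  obtain ⟨Q₂, T₂, hQ₂, hs₂, hi₂, hd₂, hper₂, hfree₂⟩ := h₂
  haveI : Nontrivial (Fin (2 * k₁) → F) := Module.nontrivial_of_finrank_pos (R := F) (by simp; omega)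
  haveI : Nontrivial (Fin (2 * k₂) → F) := Module.nontrivial_of_finrank_pos (R := F) (by simp; omega)
  let E₀ : ((Fin (2 * k₁) → F) × (Fin (2 * k₂) → F)) ≃ₗ[F] (Fin (2 * (k₁ + k₂)) → F) :=
    LinearEquiv.ofFinrankEq _ _ (by simp [finrank_prod, mul_add])
  let Q' : QuadraticForm F (Fin (2 * (k₁ + k₂)) → F) := (Q₁.prod Q₂).comp E₀.symm.toLinearMap
  have hE₀ : ∀ x, (Q₁.prod Q₂) x = Q' (E₀ x) := fun x => by simp [Q']
  have hp : ∀ (j : ℕ) y, (((T₁.prodCongr T₂)) ^ j) y = ((T₁ ^ j) y.1, (T₂ ^ j) y.2) := by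
    intro j
    induction j with
    | zero => intro y; rfl
    | succ j ih => intro y; rw [pow_succ', LinearEquiv.mul_apply, ih, pow_succ', pow_succ']; rfl
  refine ⟨Q', (E₀.symm.trans (T₁.prodCongr T₂)).trans E₀, nondeg_congr E₀ hE₀ (nondeg_prod hQ₁ hQ₂),
    (hs₁.prod hs₂).congr E₀ hE₀, fun y => ?_, ?_, ?_,
    (hq₁.mul_left hq₂).coprime_dvd_left (Nat.lcm_dvd_mul _ _), ?_⟩
  · show Q' (E₀ (T₁.prodCongr T₂ (E₀.symm y))) = _
    rw [← hE₀]
    simp [Q', hi₁, hi₂]
  · refine Eq.trans ?_ (show LinearMap.det ((T₁ : (Fin (2 * k₁) → F) →ₗ[F] _).prodMap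
      (T₂ : (Fin (2 * k₂) → F) →ₗ[F] _)) = 1 by rw [LinearMap.det_prodMap, hd₁, hd₂, one_mul])
    rw [← LinearMap.det_conj ((T₁ : (Fin (2 * k₁) → F) →ₗ[F] _).prodMap (T₂ : (Fin (2 * k₂) → F) →ₗ[F] _)) E₀]
    rfl
  · refine Nat.dvd_antisymm (orderOf_dvd_of_pow_eq_one ?_) (Nat.lcm_dvd ?_ ?_)
    · refine LinearEquiv.ext fun x => ?_
      obtain ⟨y, rfl⟩ := E₀.surjective x
      obtain ⟨a, ha⟩ := Nat.dvd_lcm_left M₁ M₂
      obtain ⟨b, hb⟩ := Nat.dvd_lcm_right M₁ M₂
      rw [conj_pow, hp]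
      nth_rw 1 [ha]
      rw [hb, pow_mul, pow_mul, hper₁, hper₂, one_pow, one_pow]
      rfl
    · obtain ⟨y, hy⟩ := exists_ne (0 : Fin (2 * k₁) → F)
      refine hfree₁ y _ hy ?_
      have e := LinearEquiv.congr_fun (pow_orderOf_eq_one ((E₀.symm.trans (T₁.prodCongr T₂)).trans E₀)) (E₀ (y, 0))
      rw [conj_pow, hp] at e
      exact congrArg Prod.fst (E₀.injective e)
    · obtain ⟨y, hy⟩ := exists_ne (0 : Fin (2 * k₂) → F)
      refine hfree₂ y _ hy ?_
      have e := LinearEquiv.congr_fun (pow_orderOf_eq_one ((E₀.symm.trans (T₁.prodCongr T₂)).trans E₀)) (E₀ (0, y))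
      rw [conj_pow, hp] at e
      exact congrArg Prod.snd (E₀.injective e)
  intro ι _ _ Q h R _ _ E c Q₃ hc hQE hh
  -- the two factors
  let E₁ : ((Fin (2 * k₁) → F) × ((Fin (2 * k₂) → F) × R)) ≃ₗ[F] (ι → F) :=
    (LinearEquiv.prodAssoc F _ _ _).symm.trans ((E₀.prodCongr (LinearEquiv.refl F R)).trans E)
  let E₂ : ((Fin (2 * k₂) → F) × ((Fin (2 * k₁) → F) × R)) ≃ₗ[F] (ι → F) :=
    (LinearEquiv.prodAssoc F _ _ _).symm.trans (((LinearEquiv.prodComm F _ _).prodCongr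
      (LinearEquiv.refl F R)).trans ((E₀.prodCongr (LinearEquiv.refl F R)).trans E))
  have hE₁ : ∀ a b r, Q (E₁ (a, (b, r))) = c * Q₁ a + (c * Q₂ b + Q₃ r) := fun a b r => by
    show Q (E (E₀ (a, b), r)) = _
    rw [hQE, ← hE₀, QuadraticMap.prod_apply]
    ring
  have hE₂ : ∀ a b r, Q (E₂ (b, (a, r))) = c * Q₂ b + (c * Q₁ a + Q₃ r) := fun a b r => by
    show Q (E (E₀ (a, b), r)) = _
    rw [hQE, ← hE₀, QuadraticMap.prod_apply]
    ring
  obtain ⟨f₁, hf₁⟩ := exists_ext E₁ (fun a => c * Q₁ a) (fun x => c * Q₂ x.1 + Q₃ x.2)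
    (fun a x => hE₁ a x.1 x.2) T₁ (LinearEquiv.refl F _) (fun a => by rw [hi₁]) (fun _ => rfl)
  obtain ⟨f₂, hf₂⟩ := exists_ext E₂ (fun a => c * Q₂ a) (fun x => c * Q₁ x.1 + Q₃ x.2)
    (fun a x => hE₂ x.1 a x.2) T₂ (LinearEquiv.refl F _) (fun a => by rw [hi₂]) (fun _ => rfl)
  have : h = f₁ * f₂ := ext_act fun x => by
    obtain ⟨⟨y, r⟩, rfl⟩ := E.surjective x
    obtain ⟨⟨a, b⟩, rfl⟩ := E₀.surjective y
    rw [hh, act_mul]
    show E (E₀ (T₁.prodCongr T₂ (E₀.symm (E₀ (a, b)))), r) = act Q f₁ (act Q f₂ (E₂ (b, (a, r))))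
    rw [E₀.symm_apply_apply, hf₂]
    exact (hf₁ a (T₂ b, r)).symm
  have hodd : Odd q := Nat.odd_iff.2 (FiniteField.odd_card_of_char_ne_two fun e => h2 (by
    have h' := ringChar.Nat.cast_ringChar (R := F)
    rw [e] at h'
    exact_mod_cast h'))
  have s₁ : spinSign Q 1 f₁ = -1 := spinSign_eq_neg h2 f₁ E₁ (fun a => c * Q₁ a) (fun x => c * Q₂ x.1 + Q₃ x.2)
    (fun a x => hE₁ a x.1 x.2) (fun x => by simp) (by simp) (by simp) T₁ (fun a => by rw [hi₁]) hf₁ he₁ hp₁ hper₁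
    hfree₁ ⟨q ^ (k₁ - 1), hodd.pow, torus_count hk₁ (by simp) hM₁ hs₁ hc⟩
  have s₂ : spinSign Q 1 f₂ = -1 := spinSign_eq_neg h2 f₂ E₂ (fun a => c * Q₂ a) (fun x => c * Q₁ x.1 + Q₃ x.2)
    (fun a x => hE₂ x.1 a x.2) (fun x => by simp) (by simp) (by simp) T₂ (fun a => by rw [hi₂]) hf₂ he₂ hp₂ hper₂
    hfree₂ ⟨q ^ (k₂ - 1), hodd.pow, torus_count hk₂ (by simp) hM₂ hs₂ hc⟩
  rw [this, map_mul, s₁, s₂]
  rfl

theorem half_zero : Half F 0 1 1 := by
  haveI : Subsingleton (Fin (2 * 0) → F) := inferInstanceAs (Subsingleton (Fin 0 → F))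
  refine ⟨0, 1, Classes.nondegenerate_polarBilin _ fun x _ => Subsingleton.elim _ _, fun ψ _ => ?_, fun y => rfl, ?_,
    orderOf_one, Nat.coprime_one_left _, ?_⟩
  · simp [gsum, Fintype.card_pi]
  · rw [show ((1 : (Fin (2 * 0) → F) ≃ₗ[F] (Fin (2 * 0) → F)) : (Fin (2 * 0) → F) →ₗ[F] _) = LinearMap.id from rfl,
      LinearMap.det_id]
  intro ι _ _ Q h R _ _ E c Q₂ _ _ hh
  rw [show h = 1 from ext_act fun x => by
    obtain ⟨⟨y, r⟩, rfl⟩ := E.surjective x
    rw [hh, act_one]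
    exact congrArg E (Prod.ext (Subsingleton.elim _ _) rfl), map_one]

end CfsgLib.CharDegrees.SpectrumO9
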