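import Cfsg.Agent.Lib.CharDegrees.SpectrumO9.Models
import Cfsg.Agent.Lib.CharDegrees.SpectrumO9.Bound

/-!
Regular unipotent isometries, assembly of the models and their table.
-/

set_option autoImplicit false
set_option linter.unusedSectionVars false

namespace CfsgLib.CharDegrees.SpectrumO9

open QuadraticMap Module CfsgLib.OrthGen Polynomial

universe u v w

variable {F : Type u} [Field F] [Fintype F]

local notation "q" => Fintype.card F

/-- The sum of the first `p ^ a` powers in characteristic `p`. -/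
theorem geom_sum_pow_char {A : Type v} [Ring A] [Algebra F A] {p : ℕ} [CharP F p] (a : ℕ) (x : A) :
    ∑ i ∈ Finset.range (p ^ a), x ^ i = (x - 1) ^ (p ^ a - 1) := by
  haveI := Fact.mk (CharP.char_is_prime F p)
  have h : ∑ i ∈ Finset.range (p ^ a), (X : F[X]) ^ i = (X - 1) ^ (p ^ a - 1) := by
    refine mul_right_cancel₀ (show (X : F[X]) - 1 ≠ 0 by simpa using X_sub_C_ne_zero (1 : F)) ?_
    rw [geom_sum_mul, ← pow_succ, Nat.sub_add_cancel (Nat.one_le_pow _ _ (Fact.out : p.Prime).pos),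
      sub_pow_char_pow_of_commute (p := p) (n := a) (Commute.one_right X), one_pow]
  have := congrArg (aeval x) h
  simpa using this

/-- A regular unipotent isometry of an odd-dimensional space. -/
theorem exists_unipotent (h2 : (2 : F) ≠ 0) (s : ℕ) :
    ∃ (Q : QuadraticForm F (Fin (2 * s + 1) → F)) (u : (Fin (2 * s + 1) → F) ≃ₗ[F] (Fin (2 * s + 1) → F)),
      (polarBilin Q).Nondegenerate ∧ (∀ x, Q (u x) = Q x) ∧
        ((u : Module.End F (Fin (2 * s + 1) → F)) - 1) ^ (2 * s + 1) = 0 ∧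
        ((u : Module.End F (Fin (2 * s + 1) → F)) - 1) ^ (2 * s) ≠ 0 := by
  classical
  let n := 2 * s
  let N : Module.End F (Fin (n + 1) → F) :=
    { toFun := fun x => Fin.cons 0 fun j => x j.castSucc
      map_add' := fun x y => by ext i; refine Fin.cases ?_ ?_ i <;> simp
      map_smul' := fun c x => by ext i; refine Fin.cases ?_ ?_ i <;> simp }
  have hN0 : ∀ x, N x 0 = 0 := fun x => rfl
  have hNs : ∀ x (j : Fin n), N x j.succ = x j.castSucc := fun x j => rfl
  -- powers of the shift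
  have hNz : ∀ (j : ℕ) x (i : Fin (n + 1)), (i : ℕ) < j → (N ^ j) x i = 0 := by
    intro j
    induction j with
    | zero => intro x i h; omega
    | succ j ih =>
      intro x i h
      rw [pow_succ', Module.End.mul_apply]
      induction i using Fin.cases with
      | zero => exact hN0 _
      | succ i => rw [hNs, ih]; simp at h ⊢; omega
  have hN1 : ∀ (j : ℕ) x (i : Fin (n + 1)), (i : ℕ) = j → (N ^ j) x i = x 0 := by
    intro j
    induction j with
    | zero => intro x i h; rw [pow_zero, Module.End.one_apply, show i = 0 from Fin.ext h]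
    | succ j ih =>
      intro x i h
      rw [pow_succ', Module.End.mul_apply]
      induction i using Fin.cases with
      | zero => simp at h
      | succ i => rw [hNs, ih]; simp at h ⊢; omega
  have hNtop : N ^ (n + 1) = 0 := LinearMap.ext fun x => funext fun i => hNz _ x i i.isLt
  have hNne : N ^ n ≠ 0 := fun e => by
    have := hN1 n (Pi.single 0 1) (Fin.last n) (Fin.val_last n)
    rw [e, Pi.single_eq_same] at this
    exact one_ne_zero this.symm
  let Q : QuadraticForm F (Fin (n + 1) → F) :=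
    ∑ i : Fin (n + 1), (-1 : F) ^ (i : ℕ) • QuadraticMap.linMulLin (LinearMap.proj i) (LinearMap.proj i.rev)
  let b : (Fin (n + 1) → F) → (Fin (n + 1) → F) → F := fun x y => ∑ i : Fin (n + 1), (-1) ^ (i : ℕ) * (x i * y i.rev)
  have hQb : ∀ x, Q x = b x x := fun x => by simp [Q, b]
  have hpar : ∀ i : Fin (n + 1), (-1 : F) ^ (i.rev : ℕ) = (-1) ^ (i : ℕ) := fun i => by
    rw [neg_one_pow_congr]
    simp only [Fin.val_rev, Nat.even_iff, n]
    omega
  have hsymm : ∀ x y, b x y = b y x := fun x y => by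
    simp only [b]
    rw [← Equiv.sum_comp Fin.revPerm fun i => (-1 : F) ^ (i : ℕ) * (y i * x i.rev)]
    refine Finset.sum_congr rfl fun i _ => ?_
    rw [Fin.revPerm_apply, hpar, Fin.rev_rev]
    ring
  have haddl : ∀ x x' y, b (x + x') y = b x y + b x' y := fun x x' y => by
    simp only [b, Pi.add_apply, ← Finset.sum_add_distrib]
    exact Finset.sum_congr rfl fun i _ => by ring
  have haddr : ∀ x y y', b x (y + y') = b x y + b x y' := fun x y y' => by
    rw [hsymm, haddl, hsymm y, hsymm y']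
  have hQ : (polarBilin Q).Nondegenerate := Classes.nondegenerate_polarBilin Q fun x hx => funext fun i => by
    have h := hx (Pi.single i.rev 1)
    rw [polar, hQb, hQb, hQb, haddl, haddr, haddr, hsymm (Pi.single i.rev 1) x] at h
    have e : b x (Pi.single i.rev 1) = (-1) ^ (i : ℕ) * x i := by
      simp only [b]
      rw [Finset.sum_eq_single i (fun j _ hj => by rw [Pi.single_eq_of_ne (fun e => hj (Fin.rev_injective e))]; ring)
        (by simp), Pi.single_eq_same, mul_one]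
    have : (2 : F) * ((-1) ^ (i : ℕ) * x i) = 0 := by rw [← e]; linear_combination h
    simpa [h2] using this
  have hskew : ∀ x y, b (N x) y + b x (N y) = 0 := fun x y => by
    simp only [b]
    conv_lhs => arg 1; rw [Fin.sum_univ_succ]
    conv_lhs => arg 2; rw [Fin.sum_univ_castSucc]
    simp only [hN0, hNs, Fin.rev_last, Fin.rev_castSucc, Fin.rev_succ, Fin.val_succ, Fin.val_castSucc,
      zero_mul, mul_zero, zero_add, add_zero, ← Finset.sum_add_distrib]
    exact Finset.sum_eq_zero fun i _ => by rw [pow_succ]; ring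
  let G : Module.End F (Fin (n + 1) → F) := ∑ i ∈ Finset.range (n + 1), N ^ i
  have hG : (1 - N) * G = 1 := by rw [mul_neg_geom_sum, hNtop, sub_zero]
  have hG' : G * (1 - N) = 1 := by rw [geom_sum_mul_neg, hNtop, sub_zero]
  have hcG : Commute N G := Commute.sum_right _ _ _ fun i _ => (Commute.refl N).pow_right i
  let G' : Module.End F (Fin (n + 1) → F) := ∑ i ∈ Finset.range (n + 1), (-N) ^ i
  have hN' : (-N) ^ (n + 1) = 0 := by rw [← neg_one_mul N, (Commute.neg_one_left N).mul_pow, hNtop, mul_zero]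
  have hGp : (1 + N) * G' = 1 := by
    rw [show (1 + N) = 1 - -N by rw [sub_neg_eq_add], mul_neg_geom_sum, hN', sub_zero]
  have hGp' : G' * (1 + N) = 1 := by
    rw [show (1 + N) = 1 - -N by rw [sub_neg_eq_add], geom_sum_mul_neg, hN', sub_zero]
  let u : (Fin (n + 1) → F) ≃ₗ[F] (Fin (n + 1) → F) := LinearEquiv.ofLinear ((1 + N) * G) ((1 - N) * G')
    (by show ((1 + N) * G) * ((1 - N) * G') = 1; rw [mul_assoc, ← mul_assoc G, hG', one_mul, hGp])
    (by show ((1 - N) * G') * ((1 + N) * G) = 1; rw [mul_assoc, ← mul_assoc G', hGp', one_mul, hG])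
  have hu1 : (u : Module.End F (Fin (n + 1) → F)) - 1 = (2 : F) • (N * G) := by
    show (1 + N) * G - 1 = _
    conv_lhs => arg 2; rw [← hG]
    rw [add_mul, sub_mul, one_mul, two_smul]
    abel
  refine ⟨Q, u, hQ, fun x => ?_, ?_, ?_⟩
  · have hx : (1 - N) (G x) = x := by rw [← Module.End.mul_apply, hG]; rfl
    have hu : u x = (1 + N) (G x) := rfl
    rw [hu]
    conv_rhs => rw [← hx]
    simp only [hQb, LinearMap.add_apply, LinearMap.sub_apply, Module.End.one_apply]
    set z := G x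
    have hneg : ∀ a c, b a (-c) = -b a c := fun a c => by
      simp only [b, Pi.neg_apply, ← Finset.sum_neg_distrib]; exact Finset.sum_congr rfl fun i _ => by ring
    have hneg' : ∀ a c, b (-a) c = -b a c := fun a c => by rw [hsymm, hneg, hsymm]
    rw [sub_eq_add_neg, haddl, haddl, haddr, haddr, haddr, haddr, hneg, hneg', hneg, hneg']
    linear_combination (2 : F) * hskew z z
  · show ((u : Module.End F (Fin (n + 1) → F)) - 1) ^ (n + 1) = 0
    rw [hu1, _root_.smul_pow, hcG.mul_pow, hNtop, zero_mul, smul_zero]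
  · show ((u : Module.End F (Fin (n + 1) → F)) - 1) ^ n ≠ 0
    rw [hu1, _root_.smul_pow, hcG.mul_pow]
    intro e
    refine hNne ?_
    have e' := (smul_eq_zero.1 e).resolve_left (pow_ne_zero _ h2)
    have hcg : Commute G (1 - N) := hG'.trans hG.symm
    calc N ^ n = N ^ n * (G * (1 - N)) ^ n := by rw [hG', one_pow, mul_one]
      _ = 0 := by rw [hcg.mul_pow, ← mul_assoc, e', zero_mul]

/-- An isometry of `p`-power period, and its order. -/
theorem unipotent_facts {p : ℕ} [CharP F p] {n : ℕ} {V : Type v} [AddCommGroup V] [Module F V] [Nontrivial V]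
    {u : V ≃ₗ[F] V} (h1 : ((u : Module.End F V) - 1) ^ n = 0) {e : ℕ} (he : n ≤ p ^ e) :
    u ^ p ^ e = 1 ∧ (((u : Module.End F V) - 1) ^ (n - 1) ≠ 0 → (1 ≤ e → p ^ (e - 1) < n) →
      orderOf u = p ^ e) := by
  haveI := Fact.mk (CharP.char_is_prime F p)
  haveI : CharP (Module.End F V) p :=
    charP_of_injective_ringHom (f := algebraMap F (Module.End F V)) (RingHom.injective _) p
  have hcoe : ∀ j : ℕ, ((u ^ j : V ≃ₗ[F] V) : Module.End F V) = (u : Module.End F V) ^ j := fun j => by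
    induction j with
    | zero => rfl
    | succ j ih => rw [pow_succ, pow_succ, ← ih]; rfl
  have key : ∀ j : ℕ, ((u : Module.End F V) - 1) ^ p ^ j = 0 → u ^ p ^ j = 1 := fun j h => by
    rw [sub_pow_char_pow_of_commute (p := p) (n := j) (Commute.one_right _), one_pow, sub_eq_zero, ← hcoe] at h
    exact LinearEquiv.toLinearMap_injective h
  refine ⟨key e (pow_eq_zero_of_le he h1), fun hne hlow => ?_⟩
  rcases Nat.eq_zero_or_pos e with rfl | he'
  · rw [pow_zero] at he ⊢
    exact orderOf_eq_one_iff.2 (by simpa using key 0 (pow_eq_zero_of_le he h1))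
  obtain ⟨e, rfl⟩ : ∃ j, e = j + 1 := ⟨e - 1, by omega⟩
  refine orderOf_eq_prime_pow (fun h => ?_) (key _ (pow_eq_zero_of_le he h1))
  apply hne
  refine pow_eq_zero_of_le (m := p ^ e) (by have := hlow he'; simp at this; omega) ?_
  rw [sub_pow_char_pow_of_commute (p := p) (n := e) (Commute.one_right _), one_pow, ← hcoe, h]
  exact sub_self _

/-- An element of `Ω` glued from a model and an isometry of `p`-power order. -/
theorem build {p : ℕ} [CharP F p] (hp2 : p ≠ 2) {ι : Type} [Fintype ι] [DecidableEq ι]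
    {Q : QuadraticForm F (ι → F)} (hQ : (polarBilin Q).Nondegenerate) (hι : 2 ≤ Fintype.card ι)
    {U : Type v} [AddCommGroup U] [Module F U] [FiniteDimensional F U] {Q₁ : QuadraticForm F U} {T : U ≃ₗ[F] U}
    (hT : ∀ y, Q₁ (T y) = Q₁ y) (hd : LinearMap.det (T : U →ₗ[F] U) = 1) (hgood : Good Q₁ T)
    {R : Type u} [AddCommGroup R] [Module F R] [FiniteDimensional F R] (E : (U × R) ≃ₗ[F] (ι → F)) {c : F}
    (hc : c ≠ 0) (Q₂ : QuadraticForm F R) (hE : ∀ y r, Q (E (y, r)) = c * Q₁ y + Q₂ r) (S : R ≃ₗ[F] R)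
    (hS : ∀ r, Q₂ (S r) = Q₂ r) {a : ℕ} (hSp : S ^ p ^ a = 1) :
    ∃ h : Cfsg.isometryGroup F (⇑Q), h ∈ Cfsg.Omega F (⇑Q) ∧ ∀ (j : ℕ) y r,
      act Q (h ^ j) (E (y, r)) = E ((T ^ j) y, (S ^ j) r) := by
  haveI := Fact.mk (CharP.char_is_prime F p)
  have hodd : Odd p := (Fact.out : p.Prime).odd_of_ne_two hp2
  have h2 : (2 : F) ≠ 0 := by
    intro h
    have : p ∣ 2 := (CharP.cast_eq_zero_iff F p 2).1 (by exact_mod_cast h)
    exact hp2 ((Nat.prime_dvd_prime_iff_eq Fact.out Nat.prime_two).1 this)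
  obtain ⟨h, hh⟩ := exists_ext E (fun y => c * Q₁ y) Q₂ hE T S (fun y => by rw [hT]) hS
  obtain ⟨h₁, hh₁⟩ := exists_ext E (fun y => c * Q₁ y) Q₂ hE T (LinearEquiv.refl F R) (fun y => by rw [hT])
    (fun _ => rfl)
  obtain ⟨h₂, hh₂⟩ := exists_ext E (fun y => c * Q₁ y) Q₂ hE (LinearEquiv.refl F U) S (fun _ => rfl) hS
  have hpow : ∀ (j : ℕ) y r, act Q (h ^ j) (E (y, r)) = E ((T ^ j) y, (S ^ j) r) := by
    intro j
    induction j with
    | zero => intro y r; rw [pow_zero, act_one]; rfl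
    | succ j ih => intro y r; rw [pow_succ', act_mul, ih, hh, pow_succ', pow_succ']; rfl
  refine ⟨h, (Classes.mem_omega_iff h2 hQ hι h).2 ⟨?_, ?_⟩, hpow⟩
  · rw [← det_endHom]
    have e : endHom h = (E : (U × R) →ₗ[F] ι → F) ∘ₗ ((T : U →ₗ[F] U).prodMap (S : R →ₗ[F] R)) ∘ₗ
        (E.symm : (ι → F) →ₗ[F] U × R) := LinearMap.ext fun x => by
      obtain ⟨⟨y, r⟩, rfl⟩ := E.surjective x
      rw [endHom_apply, hh]
      simp
    rw [e, LinearMap.det_conj, LinearMap.det_prodMap, hd, one_mul]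
    have e1 : ((LinearEquiv.det S : Fˣ) : F) ^ p ^ a = 1 := by
      rw [← Units.val_pow_eq_pow_val, ← map_pow, hSp, map_one, Units.val_one]
    rw [← LinearEquiv.coe_det, ← sub_eq_zero]
    refine eq_zero_of_pow_eq_zero (n := p ^ a) ?_
    rw [sub_pow_char_pow_of_commute (p := p) (n := a) (Commute.one_right _), one_pow, e1, sub_self]
  · have : h = h₁ * h₂ := ext_act fun x => by
      obtain ⟨⟨y, r⟩, rfl⟩ := E.surjective x
      rw [hh, act_mul, hh₂, hh₁]
      rfl
    have hh₂p : h₂ ^ p ^ a = 1 := ext_act fun x => by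
      obtain ⟨⟨y, r⟩, rfl⟩ := E.surjective x
      have : ∀ j, act Q (h₂ ^ j) (E (y, r)) = E (y, (S ^ j) r) := by
        intro j
        induction j with
        | zero => rw [pow_zero, act_one]; rfl
        | succ j ih => rw [pow_succ', act_mul, ih, hh₂, pow_succ']; rfl
      rw [this, hSp, act_one]
      rfl
    have e := congrArg (spinSign Q 1) hh₂p
    rw [map_pow, map_one] at e
    rw [this, map_mul, hgood Q h₁ E c Q₂ hc hE hh₁, one_mul]
    rcases Int.units_eq_one_or (spinSign Q 1 h₂) with h' | h'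
    · exact h'
    · rw [h', (hodd.pow).neg_one_pow] at e
      exact absurd e (by decide)

theorem half_lcm_dvd {M₁ M₂ : ℕ} (he : 2 ∣ M₁ * M₂) (h : Nat.gcd M₁ M₂ ∣ 2) : M₁ * M₂ / 2 ∣ Nat.lcm M₁ M₂ := by
  rcases (Nat.dvd_prime Nat.prime_two).1 h with h | h
  · have e : Nat.lcm M₁ M₂ = M₁ * M₂ := by rw [← Nat.gcd_mul_lcm M₁ M₂, h, one_mul]
    rw [e]
    exact Nat.div_dvd_of_dvd he
  · rw [← Nat.gcd_mul_lcm M₁ M₂, h, Nat.mul_div_cancel_left _ two_pos]

/-- A model for each entry of the table. -/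
theorem models (h2 : (2 : F) ≠ 0) {p e T : ℕ} (hT : Tab p q e T) :
    ∃ ε L, Half F (room p e) ε L ∧ T ∣ L ∧ (e = 0 → ε = -1) ∧ e ≤ 2 ∧ (e = 2 → p ≤ 7) := by
  have hq : Odd q := odd_q h2
  have hcast : ∀ k, ((q ^ k - 1 : ℕ) : ℤ) = (q : ℤ) ^ k - 1 := fun k => by
    have := Nat.one_le_pow k q Fintype.card_pos
    push_cast [this]; ring
  have hcast' : ∀ k, ((q ^ k + 1 : ℕ) : ℤ) = (q : ℤ) ^ k - -1 := fun k => by push_cast; ring
  have hpos : ∀ k, 1 ≤ k → 0 < q ^ k - 1 := fun k hk => by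
    have : 1 < q ^ k := Nat.one_lt_pow (by omega) Fintype.one_lt_card
    omega
  have hev : ∀ k, Even (q ^ k - 1) := fun k => Nat.Odd.sub_odd hq.pow odd_one
  have hev' : ∀ k, Even (q ^ k + 1) := fun k => hq.pow.add_one
  have sqm : ∀ k, 1 ≤ k → Half F k (-1) ((q ^ k + 1) / 2) := fun k hk =>
    (torus_minus h2 hk).half hk (hev' k) (coprime_q hk (Or.inl rfl)) (Nat.succ_pos _)
  have sqp : ∀ k, 1 ≤ k → Half F k 1 ((q ^ k - 1) / 2) := fun k hk =>
    (torus_plus h2 hk).half hk (hev k) (coprime_q hk (Or.inr rfl)) (hpos k hk)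
  have mp : ∀ a b, 1 ≤ a → 1 ≤ b → Half F (a + b) (-1) (Nat.lcm (q ^ a + 1) (q ^ b - 1)) := fun a b ha hb =>
    (torus_minus h2 ha).pair h2 ha hb (hcast' a) (hcast b) (coprime_q ha (Or.inl rfl)) (coprime_q hb (Or.inr rfl))
      (hev' a) (hev b) (Nat.succ_pos _) (hpos b hb) (torus_plus h2 hb)
  have mm : ∀ a b, 1 ≤ a → 1 ≤ b → Half F (a + b) 1 (Nat.lcm (q ^ a + 1) (q ^ b + 1)) := fun a b ha hb =>
    (torus_minus h2 ha).pair h2 ha hb (hcast' a) (hcast' b) (coprime_q ha (Or.inl rfl)) (coprime_q hb (Or.inl rfl))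
      (hev' a) (hev' b) (Nat.succ_pos _) (Nat.succ_pos _) (torus_minus h2 hb)
  have pm : ∀ a b, 1 ≤ a → 1 ≤ b → Half F (a + b) (-1) (Nat.lcm (q ^ a - 1) (q ^ b + 1)) := fun a b ha hb =>
    (torus_plus h2 ha).pair h2 ha hb (hcast a) (hcast' b) (coprime_q ha (Or.inr rfl)) (coprime_q hb (Or.inl rfl))
      (hev a) (hev' b) (hpos a ha) (Nat.succ_pos _) (torus_minus h2 hb)
  have hd1 : 2 ∣ q - 1 := by simpa using (hev 1).two_dvd
  have hd1' : 2 ∣ q + 1 := by simpa using (hev' 1).two_dvd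
  have hd2 : 2 ∣ q ^ 2 + 1 := (hev' 2).two_dvd
  have g2 : ∀ {A B C : ℕ}, B ∣ C → A = C + 2 ∨ C = A + 2 → Nat.gcd A B ∣ 2 := fun {A B C} hB h => by
    have h1 : Nat.gcd A B ∣ C := (Nat.gcd_dvd_right A B).trans hB
    rcases h with rfl | rfl
    · exact (Nat.dvd_add_right h1).1 (Nat.gcd_dvd_left _ _)
    · exact (Nat.dvd_add_right (Nat.gcd_dvd_left _ _)).1 h1
  have h1q : 2 ≤ q := Fintype.one_lt_card
  have hq2 : 2 ≤ q ^ 2 := le_trans h1q (Nat.le_self_pow two_ne_zero q)
  have hq3 : 2 ≤ q ^ 3 := le_trans h1q (Nat.le_self_pow three_ne_zero q)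
  rcases hT with ⟨rfl, h⟩ | ⟨rfl, h⟩ | ⟨rfl, rfl, h⟩ | ⟨rfl, rfl, h⟩ | ⟨rfl, rfl, rfl⟩
  · rw [show room p 0 = 4 from rfl]
    rcases h with rfl | rfl | rfl | rfl
    · exact ⟨-1, _, sqm 4 (by norm_num), dvd_rfl, fun _ => rfl, by norm_num, by norm_num⟩
    · refine ⟨-1, _, mp 2 2 (by norm_num) (by norm_num), ?_, fun _ => rfl, by norm_num, by norm_num⟩
      rw [quart_sub]
      exact half_lcm_dvd ((hd2).mul_right _) (g2 dvd_rfl (Or.inl (by omega)))
    · refine ⟨-1, _, mp 3 1 (by norm_num) le_rfl, ?_, fun _ => rfl, by norm_num, by norm_num⟩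
      rw [pow_one, ← Nat.mul_div_assoc _ hd1]
      exact half_lcm_dvd ((hev' 3).two_dvd.mul_right _) (g2 (cube_sub q) (Or.inl (by omega)))
    · refine ⟨-1, _, pm 3 1 (by norm_num) le_rfl, ?_, fun _ => rfl, by norm_num, by norm_num⟩
      rw [pow_one, ← Nat.mul_div_assoc _ hd1']
      exact half_lcm_dvd ((hev 3).two_dvd.mul_right _) (g2 (cube_add q) (Or.inr (by omega)))
  · rw [show room p 1 = 3 by simp [room]]
    rcases h with rfl | rfl | rfl | rfl | rfl
    · exact ⟨_, _, sqm 3 (by norm_num), dvd_rfl, by norm_num, by norm_num, by norm_num⟩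
    · exact ⟨_, _, sqp 3 (by norm_num), dvd_rfl, by norm_num, by norm_num, by norm_num⟩
    · refine ⟨_, _, mm 2 1 (by norm_num) le_rfl, ?_, by norm_num, by norm_num, by norm_num⟩
      rw [pow_one, ← Nat.mul_div_right_comm hd2]
      refine half_lcm_dvd (hd2.mul_right _) (g2 (C := q ^ 2 - 1) ?_ (Or.inl (by omega)))
      exact Dvd.intro _ (sq_sub q).symm
    · refine ⟨_, _, mp 2 1 (by norm_num) le_rfl, ?_, by norm_num, by norm_num, by norm_num⟩
      rw [pow_one, ← Nat.mul_div_right_comm hd2]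
      refine half_lcm_dvd (hd2.mul_right _) (g2 (C := q ^ 2 - 1) ?_ (Or.inl (by omega)))
      exact Dvd.intro_left _ (sq_sub q).symm
    · exact ⟨_, _, pm 2 1 (by norm_num) le_rfl, Nat.dvd_lcm_left _ _, by norm_num, by norm_num, by norm_num⟩
  · rw [show room 3 2 = 2 from rfl]
    rcases h with rfl | rfl
    · exact ⟨_, _, sqm 2 (by norm_num), dvd_rfl, by norm_num, le_rfl, by norm_num⟩
    · exact ⟨_, _, sqp 2 (by norm_num), dvd_rfl, by norm_num, le_rfl, by norm_num⟩
  · rw [show room 5 2 = 1 from rfl]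
    rcases h with rfl | rfl
    · exact ⟨_, _, sqm 1 le_rfl, by rw [pow_one], by norm_num, le_rfl, by norm_num⟩
    · exact ⟨_, _, sqp 1 le_rfl, by rw [pow_one], by norm_num, le_rfl, by norm_num⟩
  · exact ⟨_, _, half_zero, dvd_rfl, by norm_num, le_rfl, fun _ => le_rfl⟩

end CfsgLib.CharDegrees.SpectrumO9
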